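import Cfsg.Agent.Lib.PGroups.Basic
import Mathlib.GroupTheory.GroupAction.Quotient

/-!
A finite `p`-group, `p` odd, has a regular orbit on the subsets of any set it acts on.
-/

set_option autoImplicit false

namespace CfsgLib.Components2.RegularSubset

open MulAction

variable {P : Type*} [Group P] [Finite P] {p : ℕ} [hp : Fact p.Prime] {Ω : Type*} [MulAction P Ω]

/-- Version for a subgroup and an invariant finite set. -/
theorem exists_subset_aux (hP : IsPGroup p P) (h2 : p ≠ 2) (n : ℕ) :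
    ∀ (H : Subgroup P) (T : Set Ω), T.Finite → T.ncard = n →
      (∀ h : H, ∀ x ∈ T, h • x ∈ T) →
      ∃ S ⊆ T, ∀ g : H, (∀ x ∈ T, g • x ∈ S ↔ x ∈ S) → ∀ x ∈ T, g • x = x := by
  induction n using Nat.strong_induction_on with
  | _ n ih =>
  intro H T hfin hn hinv
  rcases T.eq_empty_or_nonempty with rfl | ⟨x, hx⟩
  · exact ⟨∅, subset_rfl, fun _ _ x hx => absurd hx (Set.notMem_empty x)⟩
  have hOsub : orbit H x ⊆ T := by rintro _ ⟨h, rfl⟩; exact hinv h x hx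
  have horb : ∀ (g : H) (y : Ω), g • y ∈ orbit H x ↔ y ∈ orbit H x := fun g y =>
    ⟨fun h => by simpa using mem_orbit_of_mem_orbit g⁻¹ h,
      fun h => mem_orbit_of_mem_orbit g h⟩
  by_cases hOT : orbit H x = T
  swap
  · have h1 : (orbit H x).ncard < n := hn ▸ Set.ncard_lt_ncard
      (ssubset_iff_subset_ne.2 ⟨hOsub, hOT⟩) hfin
    have h2' : (T \ orbit H x).ncard < n := hn ▸ Set.ncard_lt_ncard
      (ssubset_iff_subset_ne.2 ⟨Set.sdiff_subset, fun h => by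
        have : x ∈ T \ orbit H x := by rw [h]; exact hx
        exact this.2 (mem_orbit_self x)⟩) hfin
    obtain ⟨S1, hS1, hg1⟩ := ih _ h1 H (orbit H x) (hfin.subset hOsub) rfl
      fun h y hy => (horb h y).2 hy
    obtain ⟨S2, hS2, hg2⟩ := ih _ h2' H (T \ orbit H x) (hfin.sdiff) rfl
      fun h y hy => ⟨hinv h y hy.1, fun h' => hy.2 ((horb h y).1 h')⟩
    refine ⟨S1 ∪ S2, Set.union_subset (hS1.trans hOsub) (hS2.trans Set.sdiff_subset),
      fun g hg y hy => ?_⟩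
    by_cases hyO : y ∈ orbit H x
    · refine hg1 g (fun z hz => ?_) y hyO
      have h := hg z (hOsub hz)
      have hnz : ∀ w ∈ orbit H x, w ∉ S2 := fun w hw h' => (hS2 h').2 hw
      simpa [hnz z hz, hnz _ ((horb g z).2 hz)] using h
    · refine hg2 g (fun z hz => ?_) y ⟨hy, hyO⟩
      have h := hg z hz.1
      have hnz : ∀ w, w ∉ orbit H x → w ∉ S1 := fun w hw h' => hw (hS1 h')
      simpa [hnz z hz.2, hnz _ (fun h' => hz.2 ((horb g z).1 h'))] using h
  by_cases hst : stabilizer H x = ⊤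
  · refine ⟨∅, Set.empty_subset _, fun g _ y hy => ?_⟩
    rw [← hOT] at hy
    obtain ⟨h, rfl⟩ := hy
    have hx1 : ∀ k : H, k • x = x := fun k =>
      mem_stabilizer_iff.1 (hst ▸ Subgroup.mem_top k)
    simp only [hx1]
  obtain ⟨M, hstM, hMn, hMi, -⟩ := CfsgLib.PGroups.exists_le_index_prime (hP.to_subgroup H) hst
  set T0 : Set Ω := {y | ∃ h : H, h ∈ M ∧ h • x = y} with hT0
  have hmemT0 : ∀ h : H, h • x ∈ T0 ↔ h ∈ M := by
    refine fun h => ⟨?_, fun hh => ⟨h, hh, rfl⟩⟩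
    rintro ⟨m, hm, he⟩
    have : h⁻¹ * m ∈ stabilizer H x := mem_stabilizer_iff.2 (by rw [mul_smul, he, inv_smul_smul])
    have h' := mul_mem (hstM this) (inv_mem hm)
    rw [mul_inv_cancel_right, inv_mem_iff] at h'
    exact h'
  have hT0sub : T0 ⊆ T := by rintro _ ⟨h, -, rfl⟩; exact hinv h x hx
  have hT0M : ∀ h : H, h ∈ M → ∀ z ∈ T0, h • z ∈ T0 := by
    rintro h hh _ ⟨m, hm, rfl⟩; exact ⟨h * m, mul_mem hh hm, mul_smul h m x⟩
  have hlt : T0.ncard < n := hn ▸ Set.ncard_lt_ncard (ssubset_iff_subset_ne.2 ⟨hT0sub, fun h => by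
    obtain ⟨g, hg⟩ : ∃ g : H, g ∉ M := by
      by_contra hcon
      push Not at hcon
      rw [(Subgroup.eq_top_iff' M).2 hcon, Subgroup.index_top] at hMi
      exact hp.out.ne_one hMi.symm
    exact hg ((hmemT0 g).1 (h ▸ hinv g x hx))⟩) hfin
  have hodd : Odd T0.ncard := by
    have heq : T0 = orbit (M.map H.subtype) x := by
      ext y
      constructor
      · rintro ⟨m, hm, rfl⟩; exact ⟨⟨(m : P), ⟨m, hm, rfl⟩⟩, rfl⟩
      · rintro ⟨⟨_, ⟨m, hm, rfl⟩⟩, rfl⟩; exact ⟨m, hm, rfl⟩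
    rw [heq, ← MulAction.index_stabilizer]
    obtain ⟨k, hk⟩ := IsPGroup.iff_card.1 (hP.to_subgroup (M.map H.subtype))
    exact ((hp.out.odd_of_ne_two h2).pow (n := k)).of_dvd_nat (hk ▸ Subgroup.index_dvd_card _)
  obtain ⟨S0, hS0, hg0⟩ := ih _ hlt (M.map H.subtype) T0 (hfin.subset hT0sub) rfl (by
    rintro ⟨_, ⟨m, hm, rfl⟩⟩ y hy
    exact hT0M m hm y hy)
  classical
  let r : H ⧸ M → H := fun q => if q = 1 then 1 else Quotient.out q
  have hr : ∀ q, ((r q : H) : H ⧸ M) = q := by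
    intro q
    by_cases hq : q = 1
    · simp [r, hq]
    · simp [r, hq, QuotientGroup.out_eq']
  have hrM : ∀ g : H, (r (g : H ⧸ M))⁻¹ * g ∈ M := fun g => QuotientGroup.eq.1 (hr _)
  set S : Set Ω := {y | ∃ q : H ⧸ M, ∃ z ∈ T0, r q • z = y ∧ (q = 1 ↔ z ∈ S0)}
  have huniq : ∀ q q', ∀ z ∈ T0, ∀ z' ∈ T0, r q • z = r q' • z' → q = q' ∧ z = z' := by
    intro q q' z hz z' hz' he
    obtain ⟨m, hm, rfl⟩ := hz
    obtain ⟨m', hm', rfl⟩ := hz'
    have hk : ((r q')⁻¹ * r q * m) • x = m' • x := by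
      rw [mul_smul, mul_smul, he, inv_smul_smul]
    have hkM : (r q')⁻¹ * r q * m ∈ M := (hmemT0 _).1 (hk ▸ (hmemT0 m').2 hm')
    have : (r q')⁻¹ * r q ∈ M := by simpa using mul_mem hkM (inv_mem hm)
    have hq : q = q' := by rw [← hr q, ← hr q']; exact (QuotientGroup.eq.2 this).symm
    subst hq
    exact ⟨rfl, smul_left_cancel _ he⟩
  have hSmem : ∀ q, ∀ z ∈ T0, r q • z ∈ S ↔ (q = 1 ↔ z ∈ S0) := by
    refine fun q z hz => ⟨?_, fun h => ⟨q, z, hz, rfl, h⟩⟩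
    rintro ⟨q', z', hz', he, h⟩
    obtain ⟨rfl, rfl⟩ := huniq _ _ _ hz' _ hz he
    exact h
  refine ⟨S, ?_, fun g hg => ?_⟩
  · rintro _ ⟨q, z, hz, rfl, -⟩; exact hinv _ _ (hT0sub hz)
  have hgM : g ∈ M := by
    by_contra hgM
    have hq : (g : H ⧸ M) ≠ 1 := fun h => hgM ((QuotientGroup.eq_one_iff g).1 h)
    set m := (r (g : H ⧸ M))⁻¹ * g with hmdef
    have key : ∀ z ∈ T0, (m • z ∈ S0 ↔ z ∉ S0) := by
      intro z hz
      have hmz : m • z ∈ T0 := hT0M m (hrM g) z hz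
      have h1 := hg z (hT0sub hz)
      have hgz : g • z = r (g : H ⧸ M) • (m • z) := by rw [hmdef, mul_smul, smul_inv_smul]
      have h2 := hSmem 1 z hz
      simp only [r, if_true, one_smul] at h2
      rw [hgz, hSmem _ _ hmz, h2] at h1
      simp only [hq, false_iff, true_iff] at h1
      tauto
    have hfin0 : T0.Finite := hfin.subset hT0sub
    have e1 : (T0 \ S0).ncard = S0.ncard := by
      refine Set.ncard_congr (fun z _ => m • z) (fun z hz => (key z hz.1).2 hz.2)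
        (fun a b _ _ h => smul_left_cancel _ h) fun w hw => ?_
      have hz : m⁻¹ • w ∈ T0 := hT0M _ (inv_mem (hrM g)) w (hS0 hw)
      refine ⟨m⁻¹ • w, ⟨hz, (key _ hz).1 ?_⟩, smul_inv_smul m w⟩
      rwa [smul_inv_smul]
    have e2 := Set.ncard_sdiff_add_ncard_of_subset hS0 hfin0
    obtain ⟨k, hk⟩ := hodd
    omega
  intro y hy
  rw [← hOT] at hy
  obtain ⟨h, rfl⟩ := hy
  simp only
  set q : H ⧸ M := (h : H ⧸ M)
  set m := (r q)⁻¹ * g * r q with hm
  have hmM : m ∈ M := by simpa [hm] using hMn.conj_mem g hgM (r q)⁻¹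
  have hz : ((r q)⁻¹ * h) • x ∈ T0 := (hmemT0 _).2 (hrM h)
  have hfix := hg0 ⟨(m : P), ⟨m, hmM, rfl⟩⟩ (fun z hz => by
    have hmz : m • z ∈ T0 := hT0M m hmM z hz
    have h1 := hg (r q • z) (hinv _ _ (hT0sub hz))
    have hgz : g • r q • z = r q • m • z := by
      rw [← mul_smul, ← mul_smul]; congr 1; simp [hm, mul_assoc]
    rw [hgz, hSmem _ _ hmz, hSmem _ _ hz] at h1
    show (m • z ∈ S0 ↔ z ∈ S0)
    tauto) _ hz
  have hfix' : m • ((r q)⁻¹ * h) • x = ((r q)⁻¹ * h) • x := hfix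
  have := congrArg (fun w => r q • w) hfix'
  simp only [← mul_smul] at this
  simpa [hm, mul_assoc, ← mul_smul] using this

/-- A `p`-group, `p` odd, acting on a finite set has a subset fixed (setwise) only by elements
acting trivially. -/
theorem exists_subset [Finite Ω] (hP : IsPGroup p P) (h2 : p ≠ 2) :
    ∃ S : Set Ω, ∀ g : P, (∀ x : Ω, g • x ∈ S ↔ x ∈ S) → ∀ x : Ω, g • x = x := by
  obtain ⟨S, -, hS⟩ := exists_subset_aux hP h2 _ ⊤ (Set.univ : Set Ω) Set.finite_univ rfl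
    (fun _ _ _ => trivial)
  exact ⟨S, fun g hg x => hS ⟨g, Subgroup.mem_top g⟩ (fun y _ => hg y) x trivial⟩

end CfsgLib.Components2.RegularSubset
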