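import Cfsg.Agent.Lib.Components2.OmegaStructure
import Cfsg.Agent.Lib.Components2.RegularSubset
import Mathlib.GroupTheory.SpecificGroups.Cyclic

/-!
For a normal `p`-subgroup `N` (`p` odd) of a group `Δ` of automorphisms of a finite abelian group
of order prime to `p`: the fixed points of one `Δ`-class of elements of order `p` of `N` do not
cover the group.
-/

set_option autoImplicit false

open scoped commutatorElement

namespace CfsgLib.Components2.FixedPointAvoid

variable {V : Type*} [CommGroup V] [Finite V] {p : ℕ}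

/-- Fixed points of a set of automorphisms. -/
def fix (A : Subgroup (MulAut V)) : Subgroup V where
  carrier := {v | ∀ a ∈ A, a v = v}
  one_mem' := fun a _ => map_one a
  mul_mem' := fun {v w} hv hw a ha => by rw [map_mul, hv a ha, hw a ha]
  inv_mem' := fun {v} hv a ha => by rw [map_inv, hv a ha]

omit [Finite V] in
theorem mem_fix {A : Subgroup (MulAut V)} {v : V} : v ∈ fix A ↔ ∀ a ∈ A, a v = v := Iff.rfl

/-- Independence of a finite family of subgroups. -/
def Indep (s : Finset (Subgroup V)) : Prop :=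
  ∀ e : Subgroup V → V, (∀ W ∈ s, e W ∈ W) → ∏ W ∈ s, e W = 1 → ∀ W ∈ s, e W = 1

/-- A decomposition permuted by `Δ`. -/
structure IsDecomp (Δ : Subgroup (MulAut V)) (s : Finset (Subgroup V)) : Prop where
  sup_eq : s.sup id = ⊤
  indep : Indep s
  ne_bot : ∀ W ∈ s, W ≠ ⊥
  map_mem : ∀ δ ∈ Δ, ∀ W ∈ s, W.map (δ : V ≃* V).toMonoidHom ∈ s

omit [Finite V] in
theorem exists_prod_eq {ι : Type*} [DecidableEq ι] (s : Finset ι) (F : ι → Subgroup V) {v : V}
    (hv : v ∈ s.sup F) : ∃ e : ι → V, (∀ i ∈ s, e i ∈ F i) ∧ ∏ i ∈ s, e i = v := by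
  induction s using Finset.induction_on generalizing v with
  | empty =>
    rw [Finset.sup_empty, Subgroup.mem_bot] at hv
    exact ⟨fun _ => 1, by simp, by simp [hv]⟩
  | @insert i s hi ih =>
    rw [Finset.sup_insert] at hv
    obtain ⟨a, ha, b, hb, rfl⟩ := Subgroup.mem_sup.1 hv
    obtain ⟨e, he, rfl⟩ := ih hb
    refine ⟨Function.update e i a, ?_, ?_⟩
    · intro j hj
      rcases Finset.mem_insert.1 hj with rfl | hj
      · simpa using ha
      · rw [Function.update_of_ne (fun h : j = i => hi (h ▸ hj))]; exact he j hj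
    · rw [Finset.prod_insert hi, Function.update_self]
      congr 1
      exact Finset.prod_congr rfl fun j hj => Function.update_of_ne (fun h : j = i => hi (h ▸ hj)) _ _

/-- Equal products have equal components. -/
theorem Indep.ext {s : Finset (Subgroup V)} (h : Indep s) {e f : Subgroup V → V}
    (he : ∀ W ∈ s, e W ∈ W) (hf : ∀ W ∈ s, f W ∈ W) (heq : ∏ W ∈ s, e W = ∏ W ∈ s, f W) :
    ∀ W ∈ s, e W = f W := by
  intro W hW
  have := h (fun U => e U * (f U)⁻¹) (fun U hU => mul_mem (he U hU) (inv_mem (hf U hU)))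
    (by rw [Finset.prod_mul_distrib, Finset.prod_inv_distrib, heq, mul_inv_cancel]) W hW
  exact mul_inv_eq_one.1 this

omit [Finite V] in
theorem Indep.eq_bot_of_le {s : Finset (Subgroup V)} (h : Indep s) {W U T : Subgroup V}
    (hW : W ∈ s) (hU : U ∈ s) (hne : W ≠ U) (h1 : T ≤ W) (h2 : T ≤ U) : T = ⊥ := by
  classical
  rw [eq_bot_iff]
  intro x hx
  have := h (fun X => if X = W then x else if X = U then x⁻¹ else 1) (fun X _ => by
      split_ifs with e1 e2
      · exact e1 ▸ h1 hx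
      · exact e2 ▸ inv_mem (h2 hx)
      · exact one_mem _) (by
      rw [Finset.prod_eq_mul W U hne
        (fun X _ hX => by simp [hX.1, hX.2]) (fun hX => absurd hW hX) (fun hX => absurd hU hX)]
      simp [hne.symm]) W hW
  simpa using this

theorem map_map_mul (δ ε : MulAut V) (W : Subgroup V) :
    (W.map (ε : V ≃* V).toMonoidHom).map (δ : V ≃* V).toMonoidHom
      = W.map ((δ * ε : MulAut V) : V ≃* V).toMonoidHom := by
  rw [Subgroup.map_map]; rfl

theorem map_one_aut (W : Subgroup V) : W.map ((1 : MulAut V) : V ≃* V).toMonoidHom = W := by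
  exact Subgroup.map_id W

theorem eq_one_of_pow_prime_pow (hcop : p.Coprime (Nat.card V)) {v : V} {n : ℕ}
    (h : v ^ p ^ n = 1) : v = 1 := by
  have h1 : orderOf v ∣ p ^ n := orderOf_dvd_of_pow_eq_one h
  have h2 : orderOf v ∣ Nat.card V := orderOf_dvd_natCard v
  exact orderOf_eq_one_iff.1
    (Nat.eq_one_of_dvd_coprimes (hcop.pow_left n) h1 h2)

theorem mem_of_pow_prime_pow_mem (hcop : p.Coprime (Nat.card V)) {H : Subgroup V} {v : V} {n : ℕ}
    (h : v ^ p ^ n ∈ H) : v ∈ H := by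
  obtain ⟨m, hm⟩ := exists_pow_eq_self_of_coprime
    ((hcop.pow_left n).coprime_dvd_right (orderOf_dvd_natCard v))
  rw [← hm]
  exact pow_mem h m

omit [Finite V] in
theorem comm_apply {A : Subgroup (MulAut V)} [IsMulCommutative A] {a b : MulAut V} (ha : a ∈ A)
    (hb : b ∈ A) (v : V) : a (b v) = b (a v) := by
  have h : a * b = b * a :=
    congrArg Subtype.val ((inferInstance : IsMulCommutative A).is_comm.comm ⟨a, ha⟩ ⟨b, hb⟩)
  exact DFunLike.congr_fun h v

/-- The product over a subgroup. -/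
noncomputable def nrm (K : Subgroup (MulAut V)) (v : V) : V :=
  ∏ᶠ k : K, (k : MulAut V) v

theorem nrm_mem_fix (K : Subgroup (MulAut V)) (v : V) : nrm K v ∈ fix K := by
  classical
  have : Fintype K := Fintype.ofFinite K
  intro a ha
  simp only [nrm, finprod_eq_prod_of_fintype]
  rw [map_prod]
  exact Equiv.prod_comp (Equiv.mulLeft (⟨a, ha⟩ : K)) (fun k : K => (k : MulAut V) v)

theorem nrm_of_mem_fix (K : Subgroup (MulAut V)) {v : V} (hv : v ∈ fix K) :
    nrm K v = v ^ Nat.card K := by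
  classical
  have : Fintype K := Fintype.ofFinite K
  simp only [nrm, finprod_eq_prod_of_fintype]
  rw [Finset.prod_congr rfl fun (k : K) _ => hv k k.2, Finset.prod_const, Finset.card_univ,
    Nat.card_eq_fintype_card]

theorem nrm_mul (K : Subgroup (MulAut V)) (v w : V) : nrm K (v * w) = nrm K v * nrm K w := by
  classical
  have : Fintype K := Fintype.ofFinite K
  simp only [nrm, finprod_eq_prod_of_fintype, map_mul, Finset.prod_mul_distrib]

theorem nrm_one (K : Subgroup (MulAut V)) : nrm K (1 : V) = 1 := by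
  simp [nrm]

/-- The homomorphism `nrm K`. -/
noncomputable def nrmHom (K : Subgroup (MulAut V)) : V →* V where
  toFun := nrm K
  map_one' := nrm_one K
  map_mul' := nrm_mul K

theorem nrm_fixed_of_commute {A K : Subgroup (MulAut V)} [IsMulCommutative A] (hK : K ≤ A)
    {a : MulAut V} (ha : a ∈ A) {v : V} (hv : a v = v) : a (nrm K v) = nrm K v := by
  classical
  have : Fintype K := Fintype.ofFinite K
  simp only [nrm, finprod_eq_prod_of_fintype, map_prod]
  exact Finset.prod_congr rfl fun k _ => by rw [comm_apply ha (hK k.2), hv]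

theorem card_mul_le_of_lt (hp : p.Prime) {A : Subgroup (MulAut V)} (hA : IsPGroup p A)
    {K L : Subgroup (MulAut V)} (hKL : K < L) (hLA : L ≤ A) : Nat.card K * p ≤ Nat.card L := by
  have : Fact p.Prime := ⟨hp⟩
  obtain ⟨k, hk⟩ := IsPGroup.iff_card.1 (hA.to_le (hKL.le.trans hLA))
  obtain ⟨l, hl⟩ := IsPGroup.iff_card.1 (hA.to_le hLA)
  have hlt : Nat.card K < Nat.card L :=
    lt_of_not_ge fun h => hKL.ne (Subgroup.eq_of_le_of_card_ge hKL.le h)
  rw [hk, hl] at hlt ⊢
  rw [← pow_succ]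
  exact Nat.pow_le_pow_right hp.pos ((Nat.pow_lt_pow_iff_right hp.one_lt).1 hlt)

theorem shift_prod {M : Type*} [CommMonoid M] (f : ℕ → M) {n : ℕ} (h : f n = f 0) :
    ∏ j ∈ Finset.range n, f (j + 1) = ∏ j ∈ Finset.range n, f j := by
  rcases n with - | n
  · simp
  rw [Finset.prod_range_succ, h, ← Finset.prod_range_succ' f n]

/-- The hyperplanes of `A` with fixed points. -/
noncomputable def hyper (p : ℕ) (A : Subgroup (MulAut V)) : Finset (Subgroup (MulAut V)) :=
  (Set.toFinite {K : Subgroup (MulAut V) | K ≤ A ∧ Nat.card K * p = Nat.card A ∧ fix K ≠ ⊥}).toFinset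

theorem mem_hyper {A K : Subgroup (MulAut V)} :
    K ∈ hyper p A ↔ K ≤ A ∧ Nat.card K * p = Nat.card A ∧ fix K ≠ ⊥ := by
  simp [hyper]

theorem mem_fix_sup {K : Subgroup (MulAut V)} {a : MulAut V} {v : V} (hK : v ∈ fix K)
    (ha : a v = v) : v ∈ fix (K ⊔ Subgroup.zpowers a) := by
  have hle : K ⊔ Subgroup.zpowers a ≤ MulAction.stabilizer (MulAut V) v :=
    sup_le (fun k hk => hK k hk) (Subgroup.zpowers_le.2 ha)
  exact fun b hb => hle hb

theorem fix_le_sup_hyper (hp : p.Prime) (hcop : p.Coprime (Nat.card V))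
    {A : Subgroup (MulAut V)} (hA : Cfsg.IsElementaryAbelian p A) (hfix : fix A = ⊥) (n : ℕ) :
    ∀ K : Subgroup (MulAut V), K ≤ A → Nat.card A - Nat.card K = n →
      fix K ≤ (hyper p A).sup fix := by
  have : Fact p.Prime := ⟨hp⟩
  have := hA.1
  have hApg : IsPGroup p A := fun x => ⟨1, Subtype.ext (by simpa using hA.2 x x.2)⟩
  induction n using Nat.strong_induction_on with
  | _ n ih =>
  intro K hKA hn
  by_cases hbot : fix K = ⊥
  · rw [hbot]; exact bot_le
  by_cases hK : K = A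
  · exact absurd (hK ▸ hfix) hbot
  have hcardA := card_mul_le_of_lt hp hApg (lt_of_le_of_ne hKA hK) le_rfl
  by_cases heq : Nat.card K * p = Nat.card A
  · exact Finset.le_sup (f := fix) (mem_hyper.2 ⟨hKA, heq, hbot⟩)
  have hlt : Nat.card K * p < Nat.card A := lt_of_le_of_ne hcardA heq
  obtain ⟨a, haA, haK⟩ := SetLike.exists_of_lt (lt_of_le_of_ne hKA hK)
  set L := K ⊔ Subgroup.zpowers a with hL
  have hLA : L ≤ A := sup_le hKA (Subgroup.zpowers_le.2 haA)
  have hLcard : Nat.card L ≤ Nat.card K * p := by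
    have hmul : Nat.card L ∣ Nat.card K * p := by
      let φ : K × Subgroup.zpowers a →* MulAut V := MonoidHom.noncommCoprod K.subtype
        (Subgroup.zpowers a).subtype fun x y => congrArg Subtype.val
          ((inferInstance : IsMulCommutative A).is_comm.comm (⟨x, hKA x.2⟩ : A)
            ⟨y, Subgroup.zpowers_le.2 haA y.2⟩)
      have hr : φ.range = L := by
        rw [show φ.range = K.subtype.range ⊔ (Subgroup.zpowers a).subtype.range from
          MonoidHom.noncommCoprod_range _ _ _, Subgroup.range_subtype, Subgroup.range_subtype]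
      rw [← hr]
      refine (Subgroup.card_range_dvd φ).trans ?_
      rw [Nat.card_prod, Nat.card_zpowers]
      exact Nat.mul_dvd_mul_left _ (orderOf_dvd_of_pow_eq_one (hA.2 a haA))
    exact Nat.le_of_dvd (Nat.mul_pos Nat.card_pos hp.pos) hmul
  obtain ⟨b, hbA, hbL⟩ := SetLike.exists_of_lt (lt_of_le_of_ne hLA
    (fun h => (h ▸ hLcard).not_gt hlt))
  have hstep : ∀ c ∈ A, c ∉ K → fix (K ⊔ Subgroup.zpowers c) ≤ (hyper p A).sup fix := by
    intro c hcA hcK
    have hKlt : K < K ⊔ Subgroup.zpowers c := lt_of_le_of_ne le_sup_left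
      fun h => hcK (h ▸ Subgroup.mem_sup_right (Subgroup.mem_zpowers c))
    have hle : K ⊔ Subgroup.zpowers c ≤ A := sup_le hKA (Subgroup.zpowers_le.2 hcA)
    refine ih _ ?_ _ hle rfl
    have h1 : Nat.card K < Nat.card ↥(K ⊔ Subgroup.zpowers c) :=
      lt_of_not_ge fun h => hKlt.ne (Subgroup.eq_of_le_of_card_ge hKlt.le h)
    have h2 := Subgroup.card_le_of_le hle
    omega
  intro v hv
  have hfixK : ∀ c ∈ A, c v ∈ fix K := fun c hc k hk => by
    rw [comm_apply (hKA hk) hc, hv k hk]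
  have horb : ∀ c ∈ A, c ∉ K → ∀ w ∈ fix K,
      (∏ j ∈ Finset.range p, (c ^ j) w) ∈ (hyper p A).sup fix := by
    intro c hcA hcK w hw
    refine hstep c hcA hcK (mem_fix_sup ?_ ?_)
    · intro k hk
      rw [map_prod]
      exact Finset.prod_congr rfl fun j _ => by rw [comm_apply (hKA hk) (pow_mem hcA j), hw k hk]
    · rw [map_prod]
      refine Eq.trans (Finset.prod_congr rfl fun j _ => ?_)
        (shift_prod (fun j => (c ^ j) w) (by simp [hA.2 c hcA]))
      rw [pow_succ']; rfl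
  have hab : ∀ i : ℕ, a ^ i * b ∈ A ∧ a ^ i * b ∉ K := fun i =>
    ⟨mul_mem (pow_mem haA i) hbA, fun h => hbL (by
      have h' := mul_mem (inv_mem (pow_mem (Subgroup.mem_sup_right (Subgroup.mem_zpowers a)) i :
        a ^ i ∈ L)) (Subgroup.mem_sup_left h : a ^ i * b ∈ L)
      rwa [inv_mul_cancel_left] at h')⟩
  have hpow : ∀ i j : ℕ, (a ^ i * b) ^ j = a ^ (i * j) * b ^ j := fun i j => by
    have hc : Commute (a ^ i) b := congrArg Subtype.val
      ((inferInstance : IsMulCommutative A).is_comm.comm (⟨a ^ i, pow_mem haA i⟩ : A) ⟨b, hbA⟩)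
    rw [hc.mul_pow, pow_mul]
  have hidem : (∏ i ∈ Finset.range p, ∏ j ∈ Finset.range p, ((a ^ i * b) ^ j) v) *
      (∏ i ∈ Finset.range p, (a ^ i) v) =
      v ^ p * ∏ j ∈ Finset.range p, ∏ i ∈ Finset.range p, (a ^ i) ((b ^ j) v) := by
    rw [Finset.prod_comm]
    have hterm : ∀ j ∈ (Finset.range p).erase 0,
        ∏ i ∈ Finset.range p, ((a ^ i * b) ^ j) v = ∏ i ∈ Finset.range p, (a ^ i) ((b ^ j) v) := by
      intro j hj
      obtain ⟨hj0, hjp⟩ := Finset.mem_erase.1 hj
      rw [Finset.mem_range] at hjp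
      have hinj : Set.InjOn (fun i => i * j % p) (Finset.range p : Set ℕ) := by
        intro i hi i' hi' he
        simp only [Finset.coe_range, Set.mem_Iio] at hi hi'
        have h1 : i * j ≡ i' * j [MOD p] := he
        have hjc : p.Coprime j := hp.coprime_iff_not_dvd.2
          (Nat.not_dvd_of_pos_of_lt (Nat.pos_of_ne_zero hj0) hjp)
        have h2 := Nat.ModEq.cancel_right_of_coprime hjc h1
        rwa [Nat.ModEq, Nat.mod_eq_of_lt hi, Nat.mod_eq_of_lt hi'] at h2
      have himg : (Finset.range p).image (fun i => i * j % p) = Finset.range p := by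
        refine Finset.eq_of_subset_of_card_le (fun x hx => ?_) ?_
        · obtain ⟨i, -, rfl⟩ := Finset.mem_image.1 hx
          exact Finset.mem_range.2 (Nat.mod_lt _ hp.pos)
        · rw [Finset.card_image_of_injOn hinj]
      conv_rhs => rw [← himg, Finset.prod_image hinj]
      refine Finset.prod_congr rfl fun i _ => ?_
      rw [hpow, show a ^ (i * j % p) = a ^ (i * j) from (pow_eq_pow_mod _ (hA.2 a haA)).symm]
      rfl
    have h0 : (0 : ℕ) ∈ Finset.range p := Finset.mem_range.2 hp.pos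
    rw [← Finset.mul_prod_erase (Finset.range p)
        (fun j => ∏ i ∈ Finset.range p, ((a ^ i * b) ^ j) v) h0,
      ← Finset.mul_prod_erase (Finset.range p)
        (fun j => ∏ i ∈ Finset.range p, (a ^ i) ((b ^ j) v)) h0, Finset.prod_congr rfl hterm]
    simp only [pow_zero, MulAut.one_apply]
    rw [show (∏ _x ∈ Finset.range p, v) = v ^ p by rw [Finset.prod_const, Finset.card_range]]
    ac_rfl
  have hl : (∏ i ∈ Finset.range p, ∏ j ∈ Finset.range p, ((a ^ i * b) ^ j) v) *
      (∏ i ∈ Finset.range p, (a ^ i) v) ∈ (hyper p A).sup fix :=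
    mul_mem (prod_mem fun i _ => horb _ (hab i).1 (hab i).2 v hv) (horb a haA haK v hv)
  have hr : ∏ j ∈ Finset.range p, ∏ i ∈ Finset.range p, (a ^ i) ((b ^ j) v)
      ∈ (hyper p A).sup fix :=
    prod_mem fun j _ => horb a haA haK _ (hfixK _ (pow_mem hbA j))
  rw [hidem] at hl
  exact mem_of_pow_prime_pow_mem hcop (n := 1) (by rw [pow_one]; exact (Subgroup.mul_mem_cancel_right _ hr).1 hl)

theorem sup_hyper_eq_top (hp : p.Prime) (hcop : p.Coprime (Nat.card V))
    {A : Subgroup (MulAut V)} (hA : Cfsg.IsElementaryAbelian p A) (hfix : fix A = ⊥) :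
    (hyper p A).sup fix = ⊤ := by
  rw [eq_top_iff]
  intro v _
  exact fix_le_sup_hyper hp hcop hA hfix _ ⊥ bot_le rfl
    (mem_fix.2 fun a ha => by rw [Subgroup.mem_bot.1 ha]; rfl)

theorem hyper_indep (hp : p.Prime) (hcop : p.Coprime (Nat.card V))
    {A : Subgroup (MulAut V)} (hA : Cfsg.IsElementaryAbelian p A) (hfix : fix A = ⊥)
    (e : Subgroup (MulAut V) → V) (he : ∀ K ∈ hyper p A, e K ∈ fix K)
    (hprod : ∏ K ∈ hyper p A, e K = 1) : ∀ K ∈ hyper p A, e K = 1 := by
  classical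
  have : Fact p.Prime := ⟨hp⟩
  have := hA.1
  have hApg : IsPGroup p A := fun x => ⟨1, Subtype.ext (by simpa using hA.2 x x.2)⟩
  intro K hK
  obtain ⟨hKA, hKc, -⟩ := mem_hyper.1 hK
  have hz : ∀ K' ∈ hyper p A, K' ≠ K → nrmHom K (e K') = 1 := by
    intro K' hK' hne
    obtain ⟨hKA', hKc', -⟩ := mem_hyper.1 hK'
    have hlt : K < K ⊔ K' := lt_of_le_of_ne le_sup_left fun h => hne
      (Subgroup.eq_of_le_of_card_ge (h ▸ le_sup_right)
        (Nat.le_of_mul_le_mul_right (hKc.trans hKc'.symm).le hp.pos))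
    have hsup : K ⊔ K' = A := Subgroup.eq_of_le_of_card_ge (sup_le hKA hKA')
      (hKc ▸ card_mul_le_of_lt hp hApg hlt (sup_le hKA hKA'))
    have hmem : nrm K (e K') ∈ fix A := by
      intro a ha
      have hle : K ⊔ K' ≤ MulAction.stabilizer (MulAut V) (nrm K (e K')) :=
        sup_le (fun k hk => nrm_mem_fix K _ k hk)
          (fun k hk => nrm_fixed_of_commute hKA (hKA' hk) (he K' hK' k hk))
      exact hle (hsup.symm ▸ ha)
    rw [hfix, Subgroup.mem_bot] at hmem
    exact hmem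
  have h1 := congrArg (nrmHom K) hprod
  rw [map_prod, map_one, Finset.prod_eq_single K hz (fun h => absurd hK h)] at h1
  change nrm K (e K) = 1 at h1
  rw [nrm_of_mem_fix K (he K hK)] at h1
  obtain ⟨k, hk⟩ := IsPGroup.iff_card.1 (hApg.to_le hKA)
  exact eq_one_of_pow_prime_pow hcop (hk ▸ h1)

theorem fix_injOn (hp : p.Prime) {A : Subgroup (MulAut V)} (hA : Cfsg.IsElementaryAbelian p A)
    (hfix : fix A = ⊥) : Set.InjOn fix (hyper p A : Set (Subgroup (MulAut V))) := by
  have : Fact p.Prime := ⟨hp⟩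
  have hApg : IsPGroup p A := fun x => ⟨1, Subtype.ext (by simpa using hA.2 x x.2)⟩
  intro K hK L hL he
  obtain ⟨hKA, hKc, hKne⟩ := mem_hyper.1 (Finset.mem_coe.1 hK)
  obtain ⟨hLA, hLc, -⟩ := mem_hyper.1 (Finset.mem_coe.1 hL)
  by_contra hne
  have hlt : K < K ⊔ L := lt_of_le_of_ne le_sup_left fun h => hne
    (Subgroup.eq_of_le_of_card_ge (h ▸ le_sup_right)
      (Nat.le_of_mul_le_mul_right (hKc.trans hLc.symm).le hp.pos)).symm
  have hsup : K ⊔ L = A := Subgroup.eq_of_le_of_card_ge (sup_le hKA hLA)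
    (hKc ▸ card_mul_le_of_lt hp hApg hlt (sup_le hKA hLA))
  refine hKne (le_bot_iff.1 (fun v hv => ?_))
  rw [← hfix]
  intro a ha
  have hle : K ⊔ L ≤ MulAction.stabilizer (MulAut V) v :=
    sup_le (fun k hk => hv k hk) (fun k hk => (he ▸ hv : v ∈ fix L) k hk)
  exact hle (hsup.symm ▸ ha)

theorem mem_fix_conj {K : Subgroup (MulAut V)} (δ : MulAut V) {v : V} (hv : v ∈ fix K) :
    δ v ∈ fix (K.map (MulAut.conj δ).toMonoidHom) := by
  rintro _ ⟨k, hk, rfl⟩
  simp [hv k hk]

theorem fix_map_conj (K : Subgroup (MulAut V)) (δ : MulAut V) :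
    fix (K.map (MulAut.conj δ).toMonoidHom) = (fix K).map (δ : V ≃* V).toMonoidHom := by
  ext v
  constructor
  · intro hv
    refine ⟨δ⁻¹ v, fun k hk => ?_, by simp⟩
    have h := congrArg (fun w => δ⁻¹ w) (hv _ ⟨k, hk, rfl⟩)
    simpa using h
  · rintro ⟨w, hw, rfl⟩
    exact mem_fix_conj δ hw

theorem hyper_map_mem {A K : Subgroup (MulAut V)} (δ : MulAut V)
    (hδ : A.map (MulAut.conj δ).toMonoidHom = A) (hK : K ∈ hyper p A) :
    K.map (MulAut.conj δ).toMonoidHom ∈ hyper p A := by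
  obtain ⟨h1, h2, h3⟩ := mem_hyper.1 hK
  refine mem_hyper.2 ⟨(Subgroup.map_mono h1).trans hδ.le, ?_, ?_⟩
  · rw [Subgroup.card_map_of_injective (MulAut.conj δ).injective, h2]
  · rw [fix_map_conj]
    exact fun h => h3 ((Subgroup.map_eq_bot_iff_of_injective _ (MulEquiv.injective δ)).1 h)

/-- In a system with no proper decomposition, normalised elementary abelian subgroups are cyclic
and act without fixed points. -/
theorem of_primitive (hp : p.Prime) (hcop : p.Coprime (Nat.card V)) {Δ : Subgroup (MulAut V)}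
    (hprim : ∀ s : Finset (Subgroup V), IsDecomp Δ s → s.card ≤ 1)
    {A : Subgroup (MulAut V)} (hA : Cfsg.IsElementaryAbelian p A) (hne : A ≠ ⊥)
    (hnorm : ∀ δ ∈ Δ, A.map (MulAut.conj δ).toMonoidHom = A) :
    fix A = ⊥ ∧ Nat.card A = p := by
  classical
  have : Fact p.Prime := ⟨hp⟩
  have := hA.1
  have hApg : IsPGroup p A := fun x => ⟨1, Subtype.ext (by simpa using hA.2 x x.2)⟩
  obtain ⟨m, hm⟩ := IsPGroup.iff_card.1 hApg
  have hfix : fix A = ⊥ := by
    by_contra hF
    set R := (nrmHom A).ker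
    have hFR : ∀ x, x ∈ fix A → x ∈ R → x = 1 := fun x h1 h2 =>
      eq_one_of_pow_prime_pow hcop (n := m) (by rw [← hm, ← nrm_of_mem_fix A h1]; exact h2)
    have hR : R ≠ ⊥ := fun hR => by
      refine hne (eq_bot_iff.2 fun a ha => Subgroup.mem_bot.2 (MulEquiv.ext fun v => ?_))
      have hmem : a v * v⁻¹ ∈ R := by
        show nrm A (a v * v⁻¹) = 1
        have hav : nrm A (a v) = nrm A v := by
          have : Fintype A := Fintype.ofFinite A
          simp only [nrm, finprod_eq_prod_of_fintype]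
          exact Equiv.prod_comp (Equiv.mulRight (⟨a, ha⟩ : A)) (fun k : A => (k : MulAut V) v)
        rw [nrm_mul, hav, ← nrm_mul, mul_inv_cancel, nrm_one]
      rw [hR, Subgroup.mem_bot, mul_inv_eq_one] at hmem
      simpa using hmem
    have hne' : fix A ≠ R := fun h => hF (eq_bot_iff.2 fun x hx => Subgroup.mem_bot.2
      (hFR x hx (h ▸ hx)))
    have := hprim {fix A, R} ⟨?_, ?_, ?_, ?_⟩
    · rw [Finset.card_pair hne'] at this; omega
    · rw [Finset.sup_insert, Finset.sup_singleton, id, id, eq_top_iff]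
      intro v _
      refine mem_of_pow_prime_pow_mem hcop (n := m) ?_
      have h1 : nrm A v * (v ^ p ^ m * (nrm A v)⁻¹) ∈ fix A ⊔ R := by
        refine Subgroup.mul_mem_sup (nrm_mem_fix A v) ?_
        show nrmHom A (v ^ p ^ m * (nrm A v)⁻¹) = 1
        rw [map_mul, map_pow, map_inv]
        show nrm A v ^ p ^ m * (nrm A (nrm A v))⁻¹ = 1
        rw [nrm_of_mem_fix A (nrm_mem_fix A v), hm, mul_inv_cancel]
      rwa [mul_comm (v ^ p ^ m), mul_inv_cancel_left] at h1
    · intro e he hprod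
      rw [Finset.prod_pair hne'] at hprod
      have h1 : e (fix A) = (e R)⁻¹ := eq_inv_of_mul_eq_one_left hprod
      have h2 : e (fix A) = 1 := hFR _ (he _ (by simp)) (h1 ▸ inv_mem (he _ (by simp)))
      intro W hW
      simp only [Finset.mem_insert, Finset.mem_singleton] at hW
      rcases hW with rfl | rfl
      · exact h2
      · rwa [h2, one_mul] at hprod
    · intro W hW
      simp only [Finset.mem_insert, Finset.mem_singleton] at hW
      rcases hW with rfl | rfl <;> assumption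
    · intro δ hδ W hW
      simp only [Finset.mem_insert, Finset.mem_singleton] at hW ⊢
      rcases hW with rfl | rfl
      · left; rw [← fix_map_conj, hnorm δ hδ]
      · right
        have key : ∀ v, nrm A (δ v) = δ (nrm A v) := by
          intro v
          have : Fintype A := Fintype.ofFinite A
          simp only [nrm, finprod_eq_prod_of_fintype, map_prod]
          refine Finset.prod_nbij' (fun k => ⟨δ⁻¹ * k * δ, ?_⟩) (fun k => ⟨δ * k * δ⁻¹, ?_⟩)
            (fun _ _ => Finset.mem_univ _) (fun _ _ => Finset.mem_univ _) ?_ ?_ ?_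
          · obtain ⟨y, hy, hy'⟩ := (hnorm δ hδ).ge k.2
            have hy'' : δ * y * δ⁻¹ = (k : MulAut V) := hy'
            rw [← hy'']; simpa [mul_assoc] using hy
          · exact (hnorm δ hδ).le ⟨k, k.2, rfl⟩
          · intro k _; exact Subtype.ext (by simp [mul_assoc])
          · intro k _; exact Subtype.ext (by simp [mul_assoc])
          · intro k _; simp
        ext v
        constructor
        · rintro ⟨w, hw, rfl⟩
          show nrm A (δ w) = 1
          rw [key, show nrm A w = 1 from hw, map_one]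
        · intro hv
          have hv' : nrm A v = 1 := hv
          refine ⟨δ⁻¹ v, ?_, by simp⟩
          show nrm A (δ⁻¹ v) = 1
          apply δ.injective
          rw [← key, map_one]
          simpa using hv'
  refine ⟨hfix, ?_⟩
  set s := (hyper p A).image fix
  have hinj := fix_injOn hp hA hfix
  have hdec : IsDecomp Δ s := by
    refine ⟨?_, ?_, ?_, ?_⟩
    · rw [Finset.sup_image]; exact sup_hyper_eq_top hp hcop hA hfix
    · intro e he hprod W hW
      obtain ⟨K, hK, rfl⟩ := Finset.mem_image.1 hW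
      rw [Finset.prod_image hinj] at hprod
      exact hyper_indep hp hcop hA hfix (fun L => e (fix L))
        (fun L hL => he _ (Finset.mem_image_of_mem _ hL)) hprod K hK
    · intro W hW
      obtain ⟨K, hK, rfl⟩ := Finset.mem_image.1 hW
      exact (mem_hyper.1 hK).2.2
    · intro δ hδ W hW
      obtain ⟨K, hK, rfl⟩ := Finset.mem_image.1 hW
      exact Finset.mem_image.2 ⟨_, hyper_map_mem δ (hnorm δ hδ) hK, fix_map_conj K δ⟩
  obtain ⟨K, hK⟩ : (hyper p A).Nonempty := by
    by_contra h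
    rw [Finset.not_nonempty_iff_eq_empty] at h
    have h2 := sup_hyper_eq_top hp hcop hA hfix
    rw [h, Finset.sup_empty] at h2
    refine hne (eq_bot_iff.2 fun a _ => Subgroup.mem_bot.2 (MulEquiv.ext fun v => ?_))
    have hv : v = 1 := Subgroup.mem_bot.1 (h2.symm ▸ Subgroup.mem_top v)
    rw [hv, map_one, map_one]
  have htop : fix K = ⊤ := by
    have hc := hprim s hdec
    rw [← hdec.sup_eq]
    refine le_antisymm (Finset.le_sup (f := id) (Finset.mem_image_of_mem _ hK)) ?_
    refine Finset.sup_le fun W hW => ?_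
    rw [Finset.card_le_one.1 hc W hW _ (Finset.mem_image_of_mem _ hK)]; rfl
  obtain ⟨-, hKc, -⟩ := mem_hyper.1 hK
  have : K = ⊥ := eq_bot_iff.2 fun k hk => Subgroup.mem_bot.2
    (MulEquiv.ext fun v => (htop ▸ Subgroup.mem_top v : v ∈ fix K) k hk)
  rw [← hKc, this, Subgroup.card_bot, one_mul]

/-- Conjugation by an element normalising `P`, as an automorphism of `P`. -/
def conjRes {G : Type*} [Group G] (P : Subgroup G) (g : G)
    (h : P.map (MulAut.conj g).toMonoidHom = P) : MulAut P :=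
  ((MulAut.conj g).subgroupMap P).trans (MulEquiv.subgroupCongr h)

/-- The primitive case: some element is fixed by no element of order `p`. -/
theorem exists_moved_of_primitive (hp : p.Prime) (h2 : p ≠ 2) (hcop : p.Coprime (Nat.card V))
    {Δ P : Subgroup (MulAut V)} (hP : IsPGroup p P)
    (hnorm : ∀ δ ∈ Δ, P.map (MulAut.conj δ).toMonoidHom = P)
    (hprim : ∀ s : Finset (Subgroup V), IsDecomp Δ s → s.card ≤ 1) :
    ∃ v : V, ∀ x ∈ P, x ^ p = 1 → x ≠ 1 → x v ≠ v := by
  classical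
  have : Fact p.Prime := ⟨hp⟩
  by_cases hP1 : P = ⊥
  · exact ⟨1, fun x hx _ hx1 => absurd (Subgroup.mem_bot.1 (hP1 ▸ hx)) hx1⟩
  have : Nontrivial P := (Subgroup.nontrivial_iff_ne_bot P).2 hP1
  have hcharn : ∀ B : Subgroup P, B.Characteristic → ∀ δ ∈ Δ,
      (B.map P.subtype).map (MulAut.conj δ).toMonoidHom = B.map P.subtype := by
    intro B hB δ hδ
    have h := congrArg (Subgroup.map P.subtype)
      (Subgroup.characteristic_iff_map_eq.1 hB (conjRes P δ (hnorm δ hδ)))
    rw [Subgroup.map_map] at h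
    rw [Subgroup.map_map]
    exact h
  have hel : ∀ B : Subgroup P, Cfsg.IsElementaryAbelian p B →
      Cfsg.IsElementaryAbelian p (B.map P.subtype) := by
    rintro B ⟨hBc, hBp⟩
    refine ⟨⟨⟨?_⟩⟩, ?_⟩
    · rintro ⟨_, ⟨a, ha, rfl⟩⟩ ⟨_, ⟨b, hb, rfl⟩⟩
      refine Subtype.ext (show (a : MulAut V) * b = b * a from ?_)
      exact congrArg (fun z : B => ((z : P) : MulAut V)) (hBc.is_comm.comm (⟨a, ha⟩ : B) ⟨b, hb⟩)
    · rintro _ ⟨a, ha, rfl⟩
      rw [← map_pow, hBp a ha, map_one]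
  obtain ⟨Z, A, hZc, hZcen, hZchar, hZA, hAel, hstr⟩ :=
    OmegaStructure.exists_structure h2 hP fun B hB hBel => by
      by_cases hB1 : B = ⊥
      · rw [hB1, Subgroup.card_bot]; exact hp.one_lt.le
      have hne : B.map P.subtype ≠ ⊥ := fun h =>
        hB1 ((Subgroup.map_eq_bot_iff_of_injective _ P.subtype_injective).1 h)
      have := (of_primitive hp hcop hprim (hel B hBel) hne (hcharn B hB)).2
      rw [Subgroup.card_map_of_injective P.subtype_injective] at this
      exact this.le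
  set Z' := Z.map P.subtype with hZ'
  set A' := A.map P.subtype with hA'
  have hZ'c : Nat.card Z' = p := by
    rw [hZ', Subgroup.card_map_of_injective P.subtype_injective, hZc]
  have hfZ : fix Z' = ⊥ := by
    refine (of_primitive hp hcop hprim (hel Z ⟨?_, fun z hz => ?_⟩) ?_ (hcharn Z hZchar)).1
    · exact ⟨⟨fun a b => Subtype.ext ((Subgroup.mem_center_iff.1 (hZcen b.2) a))⟩⟩
    · exact hAel.2 z (hZA hz)
    · intro h
      rw [hZ', h, Subgroup.card_bot] at hZ'c
      exact hp.ne_one hZ'c.symm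
  have hA'el := hel A hAel
  have hZA' : Z' ≤ A' := Subgroup.map_mono hZA
  have hfA : fix A' = ⊥ := le_bot_iff.1 (hfZ ▸ fun v hv a ha => hv a (hZA' ha))
  set 𝒦 := hyper p A' with h𝒦
  have hKZ : ∀ K ∈ 𝒦, K ⊓ Z' = ⊥ := by
    intro K hK
    by_contra h
    have hle : Z' ≤ K := by
      have h1 : Nat.card ↥(K ⊓ Z') ∣ p := hZ'c ▸ Subgroup.card_dvd_of_le inf_le_right
      rcases hp.eq_one_or_self_of_dvd _ h1 with h3 | h3
      · exact absurd (Subgroup.eq_bot_of_card_eq _ h3) h
      · exact (Subgroup.eq_of_le_of_card_ge inf_le_right (hZ'c.trans h3.symm).le).ge.trans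
          inf_le_left
    exact (mem_hyper.1 hK).2.2 (le_bot_iff.1 (hfZ ▸ fun v hv a ha => hv a (hle ha)))
  have hKZA : ∀ K ∈ 𝒦, K ⊔ Z' = A' := by
    intro K hK
    obtain ⟨hKA, hKc, -⟩ := mem_hyper.1 hK
    have hApg : IsPGroup p A' := fun x => ⟨1, Subtype.ext (by simpa using hA'el.2 x x.2)⟩
    refine Subgroup.eq_of_le_of_card_ge (sup_le hKA hZA')
      (hKc ▸ card_mul_le_of_lt hp hApg (lt_of_le_of_ne le_sup_left fun h => ?_) (sup_le hKA hZA'))
    have h1 : Z' ≤ K := h ▸ le_sup_right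
    have h3 := hKZ K hK
    rw [inf_of_le_right h1] at h3
    rw [h3, Subgroup.card_bot] at hZ'c
    exact hp.ne_one hZ'c.symm
  -- elements of order `p` outside `A'` move every hyperplane
  have hmove : ∀ x ∈ P, x ^ p = 1 → x ∉ A' →
      A'.map (MulAut.conj x).toMonoidHom = A' ∧
      (∀ a ∈ A', ∃ z ∈ Z', x * a * x⁻¹ = z * a ∧ x * z = z * x) ∧
      ∀ K ∈ 𝒦, K.map (MulAut.conj x).toMonoidHom ≠ K := by
    intro x hx hxp hxA
    rcases hstr ⟨x, hx⟩ (Subtype.ext (by simpa using hxp)) with h | ⟨h, a0, ha0, hne⟩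
    · exact absurd ⟨_, h, rfl⟩ hxA
    have hz : ∀ a ∈ A', ∃ z ∈ Z', x * a * x⁻¹ = z * a ∧ x * z = z * x := by
      rintro _ ⟨a, ha, rfl⟩
      refine ⟨_, ⟨_, h a ha, rfl⟩, ?_, ?_⟩
      · simp [commutatorElement_def, mul_assoc]
      · exact congrArg Subtype.val (Subgroup.mem_center_iff.1 (hZcen (h a ha)) ⟨x, hx⟩)
    refine ⟨?_, hz, fun K hK hfixK => hne ?_⟩
    · refine Subgroup.eq_of_le_of_card_ge ?_
        (Subgroup.card_map_of_injective (MulAut.conj x).injective).ge
      rintro _ ⟨a, ha, rfl⟩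
      obtain ⟨z, hzZ, he, -⟩ := hz a ha
      exact (show x * a * x⁻¹ ∈ A' from he ▸ mul_mem (hZA' hzZ) ha)
    have hKc : K ⊔ Z' ≤ Subgroup.centralizer {x} := by
      refine sup_le (fun k hk => ?_) ?_
      · obtain ⟨z, hzZ, he, -⟩ := hz k ((mem_hyper.1 hK).1 hk)
        have hmem : x * k * x⁻¹ ∈ K := hfixK.le ⟨k, hk, rfl⟩
        have hzK : z ∈ K := by
          have := mul_mem hmem (inv_mem hk)
          rwa [he, mul_inv_cancel_right] at this
        have h1 : z = 1 := Subgroup.mem_bot.1 ((hKZ K hK) ▸ ⟨hzK, hzZ⟩)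
        rw [h1, one_mul, mul_inv_eq_iff_eq_mul] at he
        exact Subgroup.mem_centralizer_singleton_iff.2 he.symm
      · rintro _ ⟨z, hz', rfl⟩
        exact Subgroup.mem_centralizer_singleton_iff.2
          (congrArg Subtype.val (Subgroup.mem_center_iff.1 (hZcen hz') ⟨x, hx⟩)).symm
    have ha0' := Subgroup.mem_centralizer_singleton_iff.1
      (hKc ((hKZA K hK).ge (show (a0 : MulAut V) ∈ A' from ⟨a0, ha0, rfl⟩)))
    exact Subtype.ext (by
      simp only [commutatorElement_def, Subgroup.coe_mul, Subgroup.coe_inv, Subgroup.coe_one]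
      rw [← ha0', mul_inv_cancel_right, mul_inv_cancel])
  have hf : ∀ K, ∃ w : V, K ∈ 𝒦 → w ∈ fix K ∧ w ≠ 1 := by
    intro K
    by_cases hK : K ∈ 𝒦
    · obtain ⟨w, hw⟩ := (fix K).ne_bot_iff_exists_ne_one.1 (mem_hyper.1 hK).2.2
      exact ⟨w, fun _ => ⟨w.2, fun h => hw (Subtype.ext h)⟩⟩
    · exact ⟨1, fun h => absurd h hK⟩
  choose f hf using hf
  obtain ⟨S, hS𝒦, hScov, hSmove⟩ : ∃ S ⊆ 𝒦, (∀ a ∈ A', a ≠ 1 → ∃ K ∈ S, a ∉ K) ∧
      ∀ x ∈ P, x ^ p = 1 → x ∉ A' → ∃ K ∈ 𝒦, K ∉ S ∧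
        K.map (MulAut.conj x).toMonoidHom ∈ S := by
    have hcov : ∀ a ∈ A', a ≠ 1 → ∃ K ∈ 𝒦, a ∉ K := by
      intro a _ ha1
      by_contra hcon
      push Not at hcon
      refine ha1 (MulEquiv.ext fun v => ?_)
      have hle : 𝒦.sup fix ≤ fix (Subgroup.zpowers a) := Finset.sup_le fun K hK w hw b hb =>
        hw b (Subgroup.zpowers_le.2 (hcon K hK) hb)
      rw [h𝒦, sup_hyper_eq_top hp hcop hA'el hfA] at hle
      exact hle (Subgroup.mem_top v) a (Subgroup.mem_zpowers a)
    by_cases hx0 : ∃ x ∈ P, x ^ p = 1 ∧ x ∉ A'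
    swap
    · exact ⟨𝒦, subset_rfl, hcov, fun x hx hxp hxA => absurd ⟨x, hx, hxp, hxA⟩ hx0⟩
    obtain ⟨x0, hx0, hx0p, hx0A⟩ := hx0
    have hA'ne : ∃ a ∈ A', a ≠ 1 := by
      obtain ⟨⟨z, hz⟩, hz1⟩ := Z'.ne_bot_iff_exists_ne_one.1
        (fun h => hp.ne_one (by rw [← hZ'c, h, Subgroup.card_bot]))
      exact ⟨z, hZA' hz, fun h => hz1 (Subtype.ext h)⟩
    obtain ⟨a1, ha1, ha1'⟩ := hA'ne
    obtain ⟨K0, hK0, -⟩ := hcov a1 ha1 ha1'
    obtain ⟨hAx, hzx, hmx⟩ := hmove x0 hx0 hx0p hx0A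
    set σ := fun K : Subgroup (MulAut V) => K.map (MulAut.conj x0).toMonoidHom with hσ
    refine ⟨𝒦.erase K0, Finset.erase_subset _ _, fun a haA ha => ?_, fun x hx hxp hxA => ?_⟩
    swap
    · obtain ⟨hAx', -, hmx'⟩ := hmove x hx hxp hxA
      exact ⟨K0, hK0, Finset.notMem_erase _ _,
        Finset.mem_erase.2 ⟨hmx' K0 hK0, hyper_map_mem x hAx' hK0⟩⟩
    obtain ⟨K, hK, haK⟩ := hcov a haA ha
    by_cases hKK : K = K0
    swap
    · exact ⟨K, Finset.mem_erase.2 ⟨hKK, hK⟩, haK⟩
    subst hKK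
    have hK1 : σ K ∈ 𝒦 := hyper_map_mem x0 hAx hK
    have hK2 : σ (σ K) ∈ 𝒦 := hyper_map_mem x0 hAx hK1
    have hx2A : x0 ^ 2 ∉ A' := fun h => hx0A (by
      obtain ⟨k, hk⟩ := hp.odd_of_ne_two h2
      have : x0 = ((x0 ^ 2) ^ k)⁻¹ := by
        rw [eq_inv_iff_mul_eq_one, ← pow_mul, ← pow_succ']
        rw [← hk, hx0p]
      rw [this]
      exact inv_mem (pow_mem h k))
    have hne2 : σ (σ K) ≠ K := fun h => by
      refine (hmove (x0 ^ 2) (pow_mem hx0 2) ?_ hx2A).2.2 K hK ?_
      · rw [← pow_mul, mul_comm, pow_mul, hx0p, one_pow]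
      · refine Eq.trans ?_ h
        simp only [hσ]
        rw [Subgroup.map_map]
        congr 1
    by_contra hcon
    push Not at hcon
    have h1 := hcon _ (Finset.mem_erase.2 ⟨hmx K hK, hK1⟩)
    have h2' := hcon _ (Finset.mem_erase.2 ⟨hne2, hK2⟩)
    obtain ⟨z, hzZ, he, hzc⟩ := hzx a haA
    obtain ⟨k1, hk1, hk1'⟩ := h1
    obtain ⟨k2', hk2', hk2''⟩ := h2'
    obtain ⟨k2, hk2, rfl⟩ := hk2'
    simp only [MulEquiv.coe_toMonoidHom, MulAut.conj_apply] at hk1' hk2''
    have hzc' : x0⁻¹ * z⁻¹ * x0 = z⁻¹ := by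
      rw [mul_assoc, inv_mul_eq_iff_eq_mul]
      exact (Commute.inv_right (show Commute x0 z from hzc)).eq.symm
    have e1 : x0⁻¹ * a * x0 = z⁻¹ * a := by
      have : a = x0⁻¹ * (x0 * a * x0⁻¹) * x0 := by group
      rw [he] at this
      calc x0⁻¹ * a * x0 = (x0⁻¹ * z⁻¹ * x0) * (x0⁻¹ * (z * a) * x0) := by group
        _ = z⁻¹ * a := by rw [← this, hzc']
    have e2 : k1 = z⁻¹ * a := by
      rw [← e1, ← hk1']; group
    have e3 : k2 = z⁻¹ * (z⁻¹ * a) := by
      have : x0 * k2 * x0⁻¹ = x0⁻¹ * a * x0 := by rw [← hk2'']; group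
      rw [e1] at this
      calc k2 = x0⁻¹ * (x0 * k2 * x0⁻¹) * x0 := by group
        _ = (x0⁻¹ * z⁻¹ * x0) * (x0⁻¹ * a * x0) := by rw [this]; group
        _ = _ := by rw [hzc', e1]
    have hzK : z ∈ K := by
      have := mul_mem hk1 (inv_mem hk2)
      rw [e2, e3] at this
      simpa [mul_assoc] using this
    have hz1 : z = 1 := Subgroup.mem_bot.1 ((hKZ K hK) ▸ ⟨hzK, hzZ⟩)
    rw [hz1, inv_one, one_mul] at e2
    exact haK (e2 ▸ hk1)
  refine ⟨∏ K ∈ S, f K, fun x hx hxp hx1 hfx => ?_⟩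
  have hext : ∀ e e' : Subgroup (MulAut V) → V, (∀ K ∈ 𝒦, e K ∈ fix K) →
      (∀ K ∈ 𝒦, e' K ∈ fix K) → ∏ K ∈ 𝒦, e K = ∏ K ∈ 𝒦, e' K → ∀ K ∈ 𝒦, e K = e' K := by
    intro e e' he he' heq K hK
    exact mul_inv_eq_one.1 (hyper_indep hp hcop hA'el hfA (fun L => e L * (e' L)⁻¹)
      (fun L hL => mul_mem (he L hL) (inv_mem (he' L hL)))
      (by rw [Finset.prod_mul_distrib, Finset.prod_inv_distrib, ← h𝒦, heq, mul_inv_cancel]) K hK)
  have hsub : ∀ g : Subgroup (MulAut V) → V,
      ∏ K ∈ 𝒦, (if K ∈ S then g K else 1) = ∏ K ∈ S, g K := by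
    intro g
    rw [Finset.prod_ite_mem, Finset.inter_eq_right.2 hS𝒦]
  have hmem : ∀ K ∈ 𝒦, (if K ∈ S then f K else 1) ∈ fix K := fun K hK => by
    split_ifs
    · exact (hf K hK).1
    · exact one_mem _
  have := hA'el.1
  by_cases hxA : x ∈ A'
  · obtain ⟨K, hKS, hxK⟩ := hScov x hxA hx1
    have hmemx : ∀ K ∈ 𝒦, (if K ∈ S then x (f K) else 1) ∈ fix K := fun K hK => by
      split_ifs
      · intro k hk
        rw [comm_apply ((mem_hyper.1 hK).1 hk) hxA, (hf K hK).1 k hk]
      · exact one_mem _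
    have h := hext _ _ hmemx hmem (by rw [hsub, hsub, ← map_prod, hfx]) K (hS𝒦 hKS)
    rw [if_pos hKS, if_pos hKS] at h
    obtain ⟨hKA, hKc, -⟩ := mem_hyper.1 (hS𝒦 hKS)
    have hApg : IsPGroup p A' := fun y => ⟨1, Subtype.ext (by simpa using hA'el.2 y y.2)⟩
    have hle : K ⊔ Subgroup.zpowers x ≤ A' := sup_le hKA (Subgroup.zpowers_le.2 hxA)
    have htop : K ⊔ Subgroup.zpowers x = A' := Subgroup.eq_of_le_of_card_ge hle
      (hKc ▸ card_mul_le_of_lt hp hApg (lt_of_le_of_ne le_sup_left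
        fun he => hxK (he ▸ Subgroup.mem_sup_right (Subgroup.mem_zpowers x))) hle)
    have hfx' := mem_fix_sup (hf K (hS𝒦 hKS)).1 h
    rw [htop, hfA, Subgroup.mem_bot] at hfx'
    exact (hf K (hS𝒦 hKS)).2 hfx'
  obtain ⟨hAx, -, -⟩ := hmove x hx hxp hxA
  obtain ⟨K0, hK0, hK0S, hK1S⟩ := hSmove x hx hxp hxA
  set σ := fun K : Subgroup (MulAut V) => K.map (MulAut.conj x).toMonoidHom with hσ
  set τ := fun K : Subgroup (MulAut V) => K.map (MulAut.conj x⁻¹).toMonoidHom with hτ
  have hστ : ∀ K, σ (τ K) = K ∧ τ (σ K) = K := by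
    intro K
    constructor <;>
    · simp only [hσ, hτ, Subgroup.map_map]
      convert Subgroup.map_id K using 2
      ext1 y; simp [mul_assoc]
  have hAx' : A'.map (MulAut.conj x⁻¹).toMonoidHom = A' := by
    conv_lhs => rw [← hAx]
    exact (hστ A').2
  have hmemx : ∀ K ∈ 𝒦, (if τ K ∈ S then x (f (τ K)) else 1) ∈ fix K := fun K hK => by
    split_ifs
    · have := mem_fix_conj x (hf (τ K) (hyper_map_mem x⁻¹ hAx' hK)).1
      rwa [show (τ K).map (MulAut.conj x).toMonoidHom = K from (hστ K).1] at this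
    · exact one_mem _
  have hprod : ∏ K ∈ 𝒦, (if τ K ∈ S then x (f (τ K)) else 1) = ∏ K ∈ S, x (f K) := by
    rw [← hsub]
    refine Finset.prod_nbij' τ σ (fun K hK => hyper_map_mem x⁻¹ hAx' hK)
      (fun K hK => hyper_map_mem x hAx hK) (fun K _ => (hστ K).1) (fun K _ => (hστ K).2)
      (fun K _ => rfl)
  have h := hext _ _ hmemx hmem (by rw [hprod, hsub, ← map_prod, hfx]) (σ K0)
    (hyper_map_mem x hAx hK0)
  rw [(hστ K0).2, if_neg hK0S, if_pos hK1S] at h
  exact (hf _ (hS𝒦 hK1S)).2 h.symm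

/-- The stabiliser of a subgroup among the automorphisms. -/
def stab (W : Subgroup V) : Subgroup (MulAut V) where
  carrier := {δ | W.map (δ : V ≃* V).toMonoidHom = W}
  one_mem' := map_one_aut W
  mul_mem' := fun {δ ε} hδ hε => by
    simp only [Set.mem_ofPred_eq] at hδ hε ⊢
    rw [← map_map_mul, hε, hδ]
  inv_mem' := fun {δ} hδ => by
    simp only [Set.mem_ofPred_eq] at hδ ⊢
    conv_lhs => rw [← hδ]
    rw [map_map_mul, inv_mul_cancel, map_one_aut]

/-- Restriction to an invariant subgroup. -/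
def res (W : Subgroup V) : stab W →* MulAut W where
  toFun δ := (((δ : MulAut V) : V ≃* V).subgroupMap W).trans (MulEquiv.subgroupCongr δ.2)
  map_one' := MulEquiv.ext fun _ => Subtype.ext rfl
  map_mul' _ _ := MulEquiv.ext fun _ => Subtype.ext rfl

theorem res_apply (W : Subgroup V) (δ : stab W) (w : W) :
    ((res W δ w : W) : V) = (δ : MulAut V) (w : V) := rfl

/-- A finest decomposition has primitive stabilisers. -/
theorem primitive_of_maximal {Δ : Subgroup (MulAut V)} {s : Finset (Subgroup V)}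
    (hs : IsDecomp Δ s) (hmax : ∀ s', IsDecomp Δ s' → s'.card ≤ s.card)
    {W0 : Subgroup V} (hW0 : W0 ∈ s) :
    ∀ t : Finset (Subgroup W0), IsDecomp ((Δ.subgroupOf (stab W0)).map (res W0)) t → t.card ≤ 1 := by
  classical
  intro t0 ht0
  by_contra hcard
  push Not at hcard
  set t := t0.image (Subgroup.map W0.subtype) with htdef
  have hinjW := Subgroup.map_injective (f := W0.subtype) W0.subtype_injective
  have htW : ∀ T ∈ t, T ≤ W0 := by
    intro T hT; obtain ⟨T0, -, rfl⟩ := Finset.mem_image.1 hT; exact Subgroup.map_subtype_le _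
  have htne : ∀ T ∈ t, T ≠ ⊥ := by
    intro T hT; obtain ⟨T0, hT0, rfl⟩ := Finset.mem_image.1 hT
    exact fun h => ht0.ne_bot T0 hT0 ((Subgroup.map_eq_bot_iff_of_injective _ W0.subtype_injective).1 h)
  have htsup : t.sup id = W0 := by
    refine le_antisymm (Finset.sup_le htW) fun w hw => ?_
    obtain ⟨e, he, he'⟩ := exists_prod_eq t0 id
      (v := (⟨w, hw⟩ : W0)) (by rw [ht0.sup_eq]; exact Subgroup.mem_top _)
    rw [show w = W0.subtype (∏ i ∈ t0, e i) by rw [he']; rfl, map_prod]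
    refine prod_mem fun T hT => ?_
    have hle : T.map W0.subtype ≤ t.sup id :=
      Finset.le_sup (f := id) (Finset.mem_image_of_mem _ hT)
    exact hle ⟨e T, he T hT, rfl⟩
  have htind : ∀ e : Subgroup V → V, (∀ T ∈ t, e T ∈ T) → ∏ T ∈ t, e T = 1 → ∀ T ∈ t, e T = 1 := by
    intro e he hprod T hT
    obtain ⟨T0, hT0, rfl⟩ := Finset.mem_image.1 hT
    have hmem : ∀ U ∈ t0, e (U.map W0.subtype) ∈ W0 := fun U hU =>
      Subgroup.map_subtype_le U (he _ (Finset.mem_image_of_mem _ hU))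
    set e0 : Subgroup W0 → W0 := fun U =>
      if h : e (U.map W0.subtype) ∈ W0 then ⟨_, h⟩ else 1
    have he0 : ∀ U ∈ t0, (e0 U : V) = e (U.map W0.subtype) := fun U hU => by
      simp [e0, hmem U hU]
    have h := ht0.indep e0 (fun U hU => by
        obtain ⟨u, hu, hu'⟩ := he _ (Finset.mem_image_of_mem _ hU)
        have : e0 U = u := Subtype.ext ((he0 U hU).trans hu'.symm)
        rw [this]; exact hu) (by
        apply W0.subtype_injective
        rw [map_prod, map_one]
        refine Eq.trans ?_ hprod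
        rw [htdef, Finset.prod_image hinjW.injOn]
        exact Finset.prod_congr rfl he0) T0 hT0
    rw [← he0 T0 hT0, h]; rfl
  have htinv : ∀ δ ∈ Δ, W0.map (δ : V ≃* V).toMonoidHom = W0 →
      t.image (fun T => T.map (δ : V ≃* V).toMonoidHom) = t := by
    intro δ hδ hW
    refine Finset.eq_of_subset_of_card_le (fun T hT => ?_) ?_
    · obtain ⟨T1, hT1, rfl⟩ := Finset.mem_image.1 hT
      obtain ⟨T0, hT0, rfl⟩ := Finset.mem_image.1 hT1
      refine Finset.mem_image.2 ⟨_, ht0.map_mem _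
        ⟨⟨δ, hW⟩, hδ, rfl⟩ T0 hT0, ?_⟩
      rw [Subgroup.map_map, Subgroup.map_map]
      congr 1
    · exact (Finset.card_image_of_injective t (f := fun T : Subgroup V =>
        T.map (δ : V ≃* V).toMonoidHom) (Subgroup.map_injective (MulEquiv.injective δ))).ge
  let parts : Subgroup V → Finset (Subgroup V) := fun U =>
    if h : ∃ δ ∈ Δ, W0.map (δ : V ≃* V).toMonoidHom = U then
      t.image (fun T => T.map (h.choose : V ≃* V).toMonoidHom) else {U}
  have hparts : ∀ U, ∀ δ ∈ Δ, W0.map (δ : V ≃* V).toMonoidHom = U →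
      parts U = t.image (fun T => T.map (δ : V ≃* V).toMonoidHom) := by
    intro U δ hδ hU
    have h : ∃ δ ∈ Δ, W0.map (δ : V ≃* V).toMonoidHom = U := ⟨δ, hδ, hU⟩
    simp only [parts, dif_pos h]
    obtain ⟨h1, h2⟩ := h.choose_spec
    have hst : W0.map ((δ⁻¹ * h.choose : MulAut V) : V ≃* V).toMonoidHom = W0 := by
      rw [← map_map_mul, h2, ← hU, map_map_mul, inv_mul_cancel, map_one_aut]
    conv_rhs => rw [← htinv _ (mul_mem (inv_mem hδ) h1) hst, Finset.image_image]
    refine Finset.image_congr fun T _ => ?_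
    simp only [Function.comp_apply]
    rw [map_map_mul, mul_inv_cancel_left]
  have hparts' : ∀ U, (¬ ∃ δ ∈ Δ, W0.map (δ : V ≃* V).toMonoidHom = U) → parts U = {U} :=
    fun U h => dif_neg h
  have hle : ∀ U, ∀ T ∈ parts U, T ≤ U := by
    intro U T hT
    by_cases h : ∃ δ ∈ Δ, W0.map (δ : V ≃* V).toMonoidHom = U
    · obtain ⟨δ, hδ, rfl⟩ := h
      rw [hparts _ δ hδ rfl] at hT
      obtain ⟨T1, hT1, rfl⟩ := Finset.mem_image.1 hT
      exact Subgroup.map_mono (htW T1 hT1)
    · rw [hparts' _ h, Finset.mem_singleton] at hT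
      exact hT.le
  have hneb : ∀ U ∈ s, ∀ T ∈ parts U, T ≠ ⊥ := by
    intro U hU T hT
    by_cases h : ∃ δ ∈ Δ, W0.map (δ : V ≃* V).toMonoidHom = U
    · obtain ⟨δ, hδ, rfl⟩ := h
      rw [hparts _ δ hδ rfl] at hT
      obtain ⟨T1, hT1, rfl⟩ := Finset.mem_image.1 hT
      exact fun h => htne T1 hT1
        ((Subgroup.map_eq_bot_iff_of_injective _ (MulEquiv.injective δ)).1 h)
    · rw [hparts' _ h, Finset.mem_singleton] at hT
      exact hT ▸ hs.ne_bot U hU
  have hdisj : (s : Set (Subgroup V)).PairwiseDisjoint parts := by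
    intro U hU U' hU' hne
    rw [Function.onFun, Finset.disjoint_left]
    exact fun T hT hT' => hneb U hU T hT (hs.indep.eq_bot_of_le hU hU' hne (hle U T hT) (hle U' T hT'))
  set s' := s.biUnion parts
  have hdec : IsDecomp Δ s' := by
    refine ⟨?_, ?_, ?_, ?_⟩
    · rw [eq_top_iff, ← hs.sup_eq]
      refine Finset.sup_le fun U hU => ?_
      show U ≤ _
      by_cases h : ∃ δ ∈ Δ, W0.map (δ : V ≃* V).toMonoidHom = U
      · obtain ⟨δ, hδ, rfl⟩ := h
        rw [Subgroup.map_le_iff_le_comap]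
        conv_lhs => rw [← htsup]
        refine Finset.sup_le fun T hT => ?_
        rw [id, ← Subgroup.map_le_iff_le_comap]
        exact Finset.le_sup (f := id) (Finset.mem_biUnion.2 ⟨_, hU,
          (hparts _ δ hδ rfl).symm ▸ Finset.mem_image_of_mem _ hT⟩)
      · exact Finset.le_sup (f := id) (Finset.mem_biUnion.2 ⟨U, hU, by rw [hparts' _ h]; exact Finset.mem_singleton_self U⟩)
    · intro e he hprod T hT
      obtain ⟨U, hU, hTU⟩ := Finset.mem_biUnion.1 hT
      rw [Finset.prod_biUnion hdisj] at hprod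
      have hU1 := hs.indep (fun X => ∏ T ∈ parts X, e T)
        (fun X hX => prod_mem fun T hT => hle X T hT (he T (Finset.mem_biUnion.2 ⟨X, hX, hT⟩)))
        hprod U hU
      by_cases h : ∃ δ ∈ Δ, W0.map (δ : V ≃* V).toMonoidHom = U
      · obtain ⟨δ, hδ, rfl⟩ := h
        rw [hparts _ δ hδ rfl] at hTU hU1
        obtain ⟨T1, hT1, rfl⟩ := Finset.mem_image.1 hTU
        rw [Finset.prod_image (Subgroup.map_injective (MulEquiv.injective δ)).injOn] at hU1
        have h' := htind (fun X => δ⁻¹ (e (X.map (δ : V ≃* V).toMonoidHom))) (fun X hX => by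
          obtain ⟨x, hx, hx'⟩ := he _ (Finset.mem_biUnion.2 ⟨_, hU,
            (hparts _ δ hδ rfl).symm ▸ Finset.mem_image_of_mem _ hX⟩)
          simp only [← hx']
          simpa using hx) (by rw [← map_prod, hU1, map_one]) T1 hT1
        have h'' := congrArg (fun w => δ w) h'
        simpa using h''
      · rw [hparts' _ h] at hU1 hTU
        rw [Finset.prod_singleton] at hU1
        rw [Finset.mem_singleton] at hTU
        exact hTU ▸ hU1
    · intro T hT
      obtain ⟨U, hU, hTU⟩ := Finset.mem_biUnion.1 hT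
      exact hneb U hU T hTU
    · intro ε hε T hT
      obtain ⟨U, hU, hTU⟩ := Finset.mem_biUnion.1 hT
      refine Finset.mem_biUnion.2 ⟨_, hs.map_mem ε hε U hU, ?_⟩
      by_cases h : ∃ δ ∈ Δ, W0.map (δ : V ≃* V).toMonoidHom = U
      · obtain ⟨δ, hδ, rfl⟩ := h
        rw [hparts _ δ hδ rfl] at hTU
        obtain ⟨T1, hT1, rfl⟩ := Finset.mem_image.1 hTU
        rw [hparts _ (ε * δ) (mul_mem hε hδ) (map_map_mul ε δ W0).symm, map_map_mul]
        exact Finset.mem_image_of_mem _ hT1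
      · have h' : ¬ ∃ δ ∈ Δ, W0.map (δ : V ≃* V).toMonoidHom = U.map (ε : V ≃* V).toMonoidHom := by
          rintro ⟨δ, hδ, hδ'⟩
          exact h ⟨ε⁻¹ * δ, mul_mem (inv_mem hε) hδ, by
            rw [← map_map_mul, hδ', map_map_mul, inv_mul_cancel, map_one_aut]⟩
        rw [hparts' _ h, Finset.mem_singleton] at hTU
        rw [hparts' _ h', Finset.mem_singleton]
        rw [hTU]
  have hc : s.card < s'.card := by
    rw [Finset.card_biUnion hdisj, Finset.card_eq_sum_ones]
    refine Finset.sum_lt_sum (fun U hU => ?_) ⟨W0, hW0, ?_⟩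
    · by_cases h : ∃ δ ∈ Δ, W0.map (δ : V ≃* V).toMonoidHom = U
      · obtain ⟨δ, hδ, rfl⟩ := h
        rw [hparts _ δ hδ rfl, Finset.card_image_of_injective _
          (Subgroup.map_injective (MulEquiv.injective δ)), htdef,
          Finset.card_image_of_injective _ hinjW]
        omega
      · rw [hparts' _ h, Finset.card_singleton]
    · rw [hparts _ 1 (one_mem _) (map_one_aut W0), Finset.card_image_of_injective _
        (Subgroup.map_injective (MulEquiv.injective (1 : MulAut V))), htdef,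
        Finset.card_image_of_injective _ hinjW]
      omega
  exact (hmax s' hdec).not_gt hc

/-- **Main result**: the fixed points of a class of elements of order `p` in a normal `p`-subgroup
do not cover `V`. -/
theorem exists_moved (hp : p.Prime) (h2 : p ≠ 2) (hcop : p.Coprime (Nat.card V))
    {Δ N : Subgroup (MulAut V)} (hN : IsPGroup p N) (hND : N ≤ Δ)
    (hnorm : ∀ δ ∈ Δ, N.map (MulAut.conj δ).toMonoidHom = N)
    {a : MulAut V} (ha : a ∈ N) (hap : a ^ p = 1) (ha1 : a ≠ 1) :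
    ∃ v : V, ∀ δ ∈ Δ, (δ * a * δ⁻¹) v ≠ v := by
  classical
  have : Fact p.Prime := ⟨hp⟩
  have hnt : Nontrivial V := by
    by_contra h
    rw [not_nontrivial_iff_subsingleton] at h
    exact ha1 (MulEquiv.ext fun v => Subsingleton.elim _ _)
  have : Fintype (Subgroup V) := Fintype.ofFinite _
  obtain ⟨s, hs, hmax⟩ : ∃ s, IsDecomp Δ s ∧ ∀ s', IsDecomp Δ s' → s'.card ≤ s.card := by
    have hne : (Finset.univ.filter fun s : Finset (Subgroup V) => IsDecomp Δ s).Nonempty := by
      refine ⟨{⊤}, Finset.mem_filter.2 ⟨Finset.mem_univ _, ?_, ?_, ?_, ?_⟩⟩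
      · simp
      · intro e _ h W hW; rw [Finset.prod_singleton] at h; simpa [Finset.mem_singleton.1 hW] using h
      · intro W hW; rw [Finset.mem_singleton.1 hW]; exact top_ne_bot
      · intro δ _ W hW
        rw [Finset.mem_singleton.1 hW, Finset.mem_singleton]
        exact Subgroup.map_top_of_surjective _ (MulEquiv.surjective δ)
    obtain ⟨s, hs, hmax⟩ := Finset.exists_max_image _ Finset.card hne
    exact ⟨s, (Finset.mem_filter.1 hs).2,
      fun s' hs' => hmax s' (Finset.mem_filter.2 ⟨Finset.mem_univ _, hs'⟩)⟩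
  have hconjN : ∀ δ ∈ Δ, δ * a * δ⁻¹ ∈ N := fun δ hδ => (hnorm δ hδ).le ⟨a, ha, rfl⟩
  have hf : ∀ W, ∃ w : V, W ∈ s → w ∈ W ∧ w ≠ 1 := by
    intro W
    by_cases hW : W ∈ s
    · obtain ⟨w, hw⟩ := W.ne_bot_iff_exists_ne_one.1 (hs.ne_bot W hW)
      exact ⟨w, fun _ => ⟨w.2, fun h => hw (Subtype.ext h)⟩⟩
    · exact ⟨1, fun h => absurd h hW⟩
  choose f hf using hf
  by_cases hfixall : ∀ W ∈ s, W.map (a : V ≃* V).toMonoidHom = W
  swap
  · push Not at hfixall
    obtain ⟨W1, hW1, hW1'⟩ := hfixall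
    let _ : MulAction N s :=
      { smul := fun n W => ⟨(W : Subgroup V).map ((n : MulAut V) : V ≃* V).toMonoidHom,
          hs.map_mem _ (hND n.2) _ W.2⟩
        one_smul := fun W => Subtype.ext (map_one_aut _)
        mul_smul := fun m n W => Subtype.ext (map_map_mul _ _ _).symm }
    obtain ⟨S, hS⟩ := RegularSubset.exists_subset (Ω := s) hN h2
    set S' : Finset (Subgroup V) := s.filter (fun W => ∃ h : W ∈ s, (⟨W, h⟩ : s) ∈ S) with hS'
    refine ⟨∏ W ∈ s, (if W ∈ S' then f W else 1), fun δ hδ hfix => ?_⟩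
    set b := δ * a * δ⁻¹ with hb
    have hbD : b ∈ Δ := hND (hconjN δ hδ)
    have hperm : ∀ W ∈ s, W.map (b⁻¹ : MulAut V).toMonoidHom ∈ s := fun W hW =>
      hs.map_mem _ (inv_mem hbD) W hW
    have hmem : ∀ W ∈ s, (if W ∈ S' then f W else 1) ∈ W := fun W hW => by
      split_ifs
      · exact (hf W hW).1
      · exact one_mem _
    have hmem' : ∀ W ∈ s,
        b (if W.map (b⁻¹ : MulAut V).toMonoidHom ∈ S' then
          f (W.map (b⁻¹ : MulAut V).toMonoidHom) else 1) ∈ W := fun W hW => by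
      have h := hmem _ (hperm W hW)
      obtain ⟨w, hw, hw'⟩ := h
      rw [← hw']
      simpa using hw
    have hprod : ∏ W ∈ s, b (if W.map (b⁻¹ : MulAut V).toMonoidHom ∈ S' then
          f (W.map (b⁻¹ : MulAut V).toMonoidHom) else 1) =
        b (∏ W ∈ s, (if W ∈ S' then f W else 1)) := by
      rw [map_prod]
      refine Finset.prod_nbij' (fun W => W.map (b⁻¹ : MulAut V).toMonoidHom)
        (fun W => W.map (b : V ≃* V).toMonoidHom) hperm (fun W hW => hs.map_mem b hbD W hW)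
        (fun W _ => ?_) (fun W _ => ?_) (fun W _ => rfl)
      · rw [map_map_mul, mul_inv_cancel, map_one_aut]
      · rw [map_map_mul, inv_mul_cancel, map_one_aut]
    have heq := hs.indep.ext hmem' hmem (hprod.trans hfix)
    set n : N := ⟨b, hconjN δ hδ⟩
    have htriv := hS n⁻¹ (fun W => by
      have h := heq W W.2
      have hiff : ∀ U : s, U ∈ S ↔ (U : Subgroup V) ∈ S' := fun U => by
        simp [hS']
      rw [hiff, hiff]
      show (W : Subgroup V).map (b⁻¹ : MulAut V).toMonoidHom ∈ S' ↔ (W : Subgroup V) ∈ S'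
      constructor
      · intro h1
        by_contra h2
        rw [if_pos h1, if_neg h2] at h
        exact (hf _ (hperm W W.2)).2 ((MulEquiv.map_eq_one_iff b).1 h)
      · intro h2
        by_contra h1
        rw [if_neg h1, if_pos h2, map_one] at h
        exact (hf _ W.2).2 h.symm)
    apply hW1'
    have h := congrArg (fun U : s => (U : Subgroup V))
      (htriv ⟨W1.map (δ : V ≃* V).toMonoidHom, hs.map_mem δ hδ W1 hW1⟩)
    change (W1.map (δ : V ≃* V).toMonoidHom).map (b⁻¹ : MulAut V).toMonoidHom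
      = W1.map (δ : V ≃* V).toMonoidHom at h
    have h' := congrArg (fun U : Subgroup V => U.map ((δ⁻¹ * b : MulAut V) : V ≃* V).toMonoidHom) h
    simp only [map_map_mul] at h'
    rw [show δ⁻¹ * b * (b⁻¹ * δ) = 1 by group, map_one_aut,
      show δ⁻¹ * b * δ = a by rw [hb]; group] at h'
    exact h'.symm
  · have hall : ∀ δ ∈ Δ, ∀ W ∈ s, W.map ((δ * a * δ⁻¹ : MulAut V) : V ≃* V).toMonoidHom = W := by
      intro δ hδ W hW
      have hW' := hs.map_mem δ⁻¹ (inv_mem hδ) W hW
      rw [← map_map_mul, ← map_map_mul, hfixall _ hW', map_map_mul, mul_inv_cancel, map_one_aut]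
    have hblock : ∀ W, ∃ w : V, W ∈ s → w ∈ W ∧ ∀ x ∈ N, x ^ p = 1 →
        W.map (x : V ≃* V).toMonoidHom = W → (∃ u ∈ W, x u ≠ u) → x w ≠ w := by
      intro W
      by_cases hW : W ∈ s
      swap
      · exact ⟨1, fun h => absurd h hW⟩
      set P := (N.subgroupOf (stab W)).map (res W) with hPdef
      have hPp : IsPGroup p P := (hN.comap_of_injective _ (Subtype.val_injective)).map _
      have hPn : ∀ ε ∈ (Δ.subgroupOf (stab W)).map (res W),
          P.map (MulAut.conj ε).toMonoidHom = P := by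
        rintro _ ⟨ε, hε, rfl⟩
        refine Subgroup.eq_of_le_of_card_ge ?_
          (Subgroup.card_map_of_injective (MulAut.conj _).injective).ge
        rintro _ ⟨_, ⟨n, hn, rfl⟩, rfl⟩
        exact ⟨ε * n * ε⁻¹, (hnorm _ hε).le ⟨n, hn, rfl⟩, by simp⟩
      obtain ⟨w, hw⟩ := exists_moved_of_primitive hp h2
        (hcop.coprime_dvd_right (Subgroup.card_subgroup_dvd_card W)) hPp hPn
        (primitive_of_maximal hs hmax hW)
      refine ⟨w, fun _ => ⟨w.2, fun x hx hxp hxW hxu hxw => ?_⟩⟩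
      obtain ⟨u, hu, hu'⟩ := hxu
      refine hw (res W ⟨x, hxW⟩) ⟨⟨x, hxW⟩, hx, rfl⟩ ?_ ?_ (Subtype.ext hxw)
      · rw [← map_pow, ← map_one (res W)]
        exact congrArg _ (Subtype.ext hxp)
      · intro h
        exact hu' (congrArg (fun g : MulAut W => ((g ⟨u, hu⟩ : W) : V)) h)
    choose g hg using hblock
    refine ⟨∏ W ∈ s, g W, fun δ hδ hfix => ?_⟩
    set b := δ * a * δ⁻¹ with hb
    have hmem' : ∀ W ∈ s, b (g W) ∈ W := fun W hW =>
      (hall δ hδ W hW).le ⟨g W, (hg W hW).1, rfl⟩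
    have heq := hs.indep.ext hmem' (fun W hW => (hg W hW).1) (by rw [← map_prod]; exact hfix)
    have hbp : b ^ p = 1 := by rw [hb, conj_pow, hap]; simp
    have hb1 : b = 1 := by
      refine MulEquiv.ext fun v => ?_
      have hle : s.sup id ≤ fix (Subgroup.zpowers b) := Finset.sup_le fun W hW u hu => by
        by_contra hcon
        simp only [mem_fix] at hcon
        push Not at hcon
        obtain ⟨c, hc, hcu⟩ := hcon
        refine (hg W hW).2 b (hconjN δ hδ) hbp (hall δ hδ W hW) ⟨u, hu, fun h => hcu ?_⟩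
          (heq W hW)
        have hle : Subgroup.zpowers b ≤ MulAction.stabilizer (MulAut V) u :=
          Subgroup.zpowers_le.2 h
        exact hle hc
      rw [hs.sup_eq] at hle
      exact hle (Subgroup.mem_top v) b (Subgroup.mem_zpowers b)
    exact ha1 (conj_eq_one_iff.1 (hb ▸ hb1))

end CfsgLib.Components2.FixedPointAvoid
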