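import Cfsg.Agent.Lib.PGroups.Omega
import Cfsg.Prelude.Def_Transfer

/-!
Odd `p`-groups all of whose characteristic elementary abelian subgroups are cyclic: the elements of
order `p` lie in a subgroup `E` with `[E, P]` in the central subgroup of order `p`.
-/

set_option autoImplicit false

namespace CfsgLib.Components2.OmegaStructure

open Cfsg
open scoped commutatorElement

variable {P : Type*} [Group P] {p : ℕ}

/-- The elements killed by `p` with all commutators central. -/
def omegaTwo (P : Type*) [Group P] {p : ℕ} (hp : Odd p) : Subgroup P where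
  carrier := {x | (∀ y, ⁅x, y⁆ ∈ Subgroup.center P) ∧ x ^ p = 1}
  one_mem' := ⟨fun y => by rw [commutatorElement_one_left]; exact one_mem _, one_pow p⟩
  mul_mem' := fun {a b} ha hb => by
    refine ⟨fun y => ?_, ?_⟩
    · rw [commutatorElement_mul_left_eq_conj_mul]
      exact mul_mem ((inferInstance : (Subgroup.center P).Normal).conj_mem _ (hb.1 y) a) (ha.1 y)
    · rw [CfsgLib.PGroups.mul_pow_of_central_odd (hb.1 a) hp, ha.2, hb.2, one_mul]
      rw [← CfsgLib.PGroups.commutatorElement_pow_left (hb.1 a), hb.2, commutatorElement_one_left]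
  inv_mem' := fun {a} ha => by
    refine ⟨fun y => ?_, by rw [inv_pow, ha.2, inv_one]⟩
    have h : ⁅a⁻¹, y⁆ = a⁻¹ * (⁅a, y⁆)⁻¹ * a := by simp [commutatorElement_def, mul_assoc]
    rw [h]
    simpa using (inferInstance : (Subgroup.center P).Normal).conj_mem _ (inv_mem (ha.1 y)) a⁻¹

theorem mem_omegaTwo {hp : Odd p} {x : P} :
    x ∈ omegaTwo P hp ↔ (∀ y, ⁅x, y⁆ ∈ Subgroup.center P) ∧ x ^ p = 1 := Iff.rfl

theorem commutator_pow_eq_one {hp : Odd p} {x : P} (hx : x ∈ omegaTwo P hp) (y : P) :
    ⁅x, y⁆ ^ p = 1 := by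
  rw [← CfsgLib.PGroups.commutatorElement_pow_left (hx.1 y), hx.2, commutatorElement_one_left]

theorem omegaTwo_characteristic (hp : Odd p) : (omegaTwo P hp).Characteristic := by
  rw [Subgroup.characteristic_iff_le_map]
  intro φ x hx
  refine ⟨φ.symm x, ⟨fun y => ?_, ?_⟩, φ.apply_symm_apply x⟩
  · have h := hx.1 (φ y)
    have h2 : ⁅φ.symm x, y⁆ = φ.symm ⁅x, φ y⁆ := by simp [commutatorElement_def]
    rw [h2, Subgroup.mem_center_iff]
    intro g
    apply φ.injective
    simp only [map_mul, MulEquiv.apply_symm_apply]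
    exact Subgroup.mem_center_iff.1 h _
  · rw [← map_pow, hx.2, map_one]

/-- A normal elementary abelian subgroup of order `p ^ 2` lies in `omegaTwo`. -/
theorem le_omegaTwo [Finite P] [hp : Fact p.Prime] (h2 : Odd p) (hP : IsPGroup p P)
    {N : Subgroup P} [N.Normal] (hN : IsElementaryAbelian p N) (hc : Nat.card N = p ^ 2) :
    N ≤ omegaTwo P h2 := by
  intro x hx
  refine ⟨fun y => ?_, hN.2 x hx⟩
  set π := QuotientGroup.mk' (Subgroup.center P)
  have hker : 1 < Nat.card (π.comp N.subtype).ker := by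
    obtain ⟨z, hzN, hz1, hzZ⟩ := CfsgLib.TwoGroups.exists_mem_center_of_normal hP
      (N := N) (fun h => by
        rw [h, Subgroup.card_bot] at hc
        exact (Nat.one_lt_pow two_ne_zero hp.out.one_lt).ne hc)
    have hz : (⟨z, hzN⟩ : N) ∈ (π.comp N.subtype).ker :=
      (QuotientGroup.eq_one_iff z).2 hzZ
    exact Finite.one_lt_card_iff_nontrivial.2
      ⟨⟨⟨_, hz⟩, 1, fun h => hz1 (congrArg (fun k : (π.comp N.subtype).ker => ((k : N) : P)) h)⟩⟩
  have hcard : Nat.card (N.map π) * Nat.card (π.comp N.subtype).ker = p ^ 2 := by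
    rw [← hc, show N.map π = (π.comp N.subtype).range by
      rw [MonoidHom.range_comp, Subgroup.range_subtype], ← Subgroup.index_ker, Subgroup.index_mul_card]
  have hmap : N.map π ≤ Subgroup.center _ := by
    obtain ⟨i, hi, hi'⟩ := (Nat.dvd_prime_pow hp.out).1 (Dvd.intro _ hcard)
    interval_cases i
    · rw [pow_zero] at hi'
      rw [Subgroup.eq_bot_of_card_eq _ hi']
      exact bot_le
    · rw [pow_one] at hi'
      have : (N.map π).Normal :=
        Subgroup.Normal.map inferInstance π (QuotientGroup.mk'_surjective _)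
      exact CfsgLib.PGroups.le_center_of_card_eq_prime (hP.to_quotient _) hi'
    · rw [hi'] at hcard
      have : Nat.card (π.comp N.subtype).ker = 1 :=
        Nat.eq_of_mul_eq_mul_left (pow_pos hp.out.pos 2) (hcard.trans (mul_one _).symm)
      omega
  rw [← QuotientGroup.eq_one_iff]
  change π ⁅x, y⁆ = 1
  rw [map_commutatorElement, commutatorElement_eq_one_iff_mul_comm]
  exact (Subgroup.mem_center_iff.1 (hmap ⟨x, hx, rfl⟩) _).symm

/-- If every characteristic elementary abelian subgroup has order at most `p`, then there are a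
central `Z` of order `p` and an elementary abelian `A` containing it such that every element `x`
of order `p` is in `A` or acts on `A` nontrivially with `[x, A] ≤ Z`. -/
theorem exists_structure [Finite P] [hp : Fact p.Prime] (h2 : p ≠ 2) (hP : IsPGroup p P)
    [Nontrivial P]
    (hchar : ∀ A : Subgroup P, A.Characteristic → IsElementaryAbelian p A → Nat.card A ≤ p) :
    ∃ Z A : Subgroup P, Nat.card Z = p ∧ Z ≤ Subgroup.center P ∧ Z.Characteristic ∧ Z ≤ A ∧
      IsElementaryAbelian p A ∧ ∀ x : P, x ^ p = 1 → x ∈ A ∨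
        ((∀ a ∈ A, ⁅x, a⁆ ∈ Z) ∧ ∃ a ∈ A, ⁅x, a⁆ ≠ 1) := by
  have hodd : Odd p := hp.out.odd_of_ne_two h2
  set E := omegaTwo P hodd
  have hEc : E.Characteristic := omegaTwo_characteristic hodd
  -- the elements of order `p` of the centre
  let Z : Subgroup P :=
    { carrier := {x | x ∈ Subgroup.center P ∧ x ^ p = 1}
      one_mem' := ⟨one_mem _, one_pow p⟩
      mul_mem' := fun {a b} ha hb => ⟨mul_mem ha.1 hb.1, by
        have hc : Commute a b := (Subgroup.mem_center_iff.1 ha.1 b).symm
        rw [hc.mul_pow, ha.2, hb.2, one_mul]⟩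
      inv_mem' := fun {a} ha => ⟨inv_mem ha.1, by rw [inv_pow, ha.2, inv_one]⟩ }
  have hZchar : Z.Characteristic := by
    rw [Subgroup.characteristic_iff_le_map]
    intro φ x hx
    refine ⟨φ.symm x, ⟨?_, by rw [← map_pow, hx.2, map_one]⟩, φ.apply_symm_apply x⟩
    rw [Subgroup.mem_center_iff]
    intro g
    apply φ.injective
    simp only [map_mul, MulEquiv.apply_symm_apply]
    exact Subgroup.mem_center_iff.1 hx.1 _
  have hZel : IsElementaryAbelian p Z :=
    ⟨⟨⟨fun a b => Subtype.ext ((Subgroup.mem_center_iff.1 b.2.1 a))⟩⟩, fun z hz => hz.2⟩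
  have hZp : Nat.card Z = p := by
    refine le_antisymm (hchar Z hZchar hZel) ?_
    have : Nontrivial (Subgroup.center P) := hP.center_nontrivial
    obtain ⟨k, hk⟩ := IsPGroup.iff_card.1 (hP.to_subgroup (Subgroup.center P))
    have hk0 : k ≠ 0 := fun h => by
      rw [h, pow_zero] at hk; exact (Finite.one_lt_card (α := Subgroup.center P)).ne' hk
    obtain ⟨z, hz⟩ := exists_prime_orderOf_dvd_card' (G := Subgroup.center P) p
      (hk ▸ dvd_pow_self p hk0)
    have hzZ : (z : P) ∈ Z := ⟨z.2, by rw [← hz, ← Subgroup.orderOf_coe, pow_orderOf_eq_one]⟩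
    exact Nat.le_of_dvd Nat.card_pos
      (hz ▸ (Subgroup.orderOf_coe z).symm ▸ Subgroup.orderOf_dvd_natCard Z hzZ)
  have hZE : Z ≤ E := fun z hz => ⟨fun y => by
    rw [commutatorElement_eq_one_iff_mul_comm.2 (Subgroup.mem_center_iff.1 hz.1 y).symm]
    exact one_mem _, hz.2⟩
  have hEZ : ∀ x ∈ E, ∀ y, ⁅x, y⁆ ∈ Z := fun x hx y => ⟨hx.1 y, commutator_pow_eq_one hx y⟩
  set D := Subgroup.centralizer (E : Set P) with hD
  have hDchar : D.Characteristic := by
    rw [Subgroup.characteristic_iff_le_map]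
    intro φ x hx
    refine ⟨φ.symm x, Subgroup.mem_centralizer_iff.2 fun e he => ?_, φ.apply_symm_apply x⟩
    have he' : φ e ∈ E :=
      (Subgroup.characteristic_iff_map_eq.1 hEc φ).le ⟨e, he, rfl⟩
    apply φ.injective
    simp only [map_mul, MulEquiv.apply_symm_apply]
    exact Subgroup.mem_centralizer_iff.1 hx _ he'
  have hZD : Z ≤ D := fun z hz => Subgroup.mem_centralizer_iff.2 fun e _ =>
    Subgroup.mem_center_iff.1 hz.1 e
  have hED : E ⊓ D = Z := by
    refine (Subgroup.eq_of_le_of_card_ge (le_inf hZE hZD) ?_).symm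
    rw [hZp]
    refine hchar _ ?_ ⟨⟨⟨fun a b => Subtype.ext ?_⟩⟩, fun x hx => hx.1.2⟩
    · rw [Subgroup.characteristic_iff_map_eq]
      intro φ
      rw [Subgroup.map_inf _ _ _ φ.injective, Subgroup.characteristic_iff_map_eq.1 hEc φ,
        Subgroup.characteristic_iff_map_eq.1 hDchar φ]
    · exact (Subgroup.mem_centralizer_iff.1 b.2.2 a a.2.1)
  have hDcyc : IsCyclic D := by
    by_contra hnc
    obtain ⟨E0, hE0n, hE0e, hE0c⟩ :=
      CfsgLib.PGroups.exists_normal_elemAb_sq h2 (hP.to_subgroup D) hnc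
    set K := omegaTwo D hodd
    have hK : E0 ≤ K := le_omegaTwo hodd (hP.to_subgroup D) hE0e hE0c
    have hKc : K.Characteristic := omegaTwo_characteristic hodd
    have hDn : D.Normal := Subgroup.normal_of_characteristic D
    have : (K.map D.subtype).Normal := ConjAct.normal_of_characteristic_of_normal
    obtain ⟨m, hm⟩ := IsPGroup.iff_card.1 (hP.to_subgroup (K.map D.subtype))
    have hm2 : 2 ≤ m := by
      refine (Nat.pow_le_pow_iff_right hp.out.one_lt).1 ?_
      rw [← hm, Subgroup.card_map_of_injective D.subtype_injective, ← hE0c]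
      exact Subgroup.card_le_of_le hK
    obtain ⟨E1, hE1n, hE1K, hE1c⟩ := CfsgLib.PGroups.exists_normal_card_le hP hm hm2
    have hE1e : IsElementaryAbelian p E1 := by
      refine ⟨IsPGroup.isMulCommutative_of_card_eq_prime_sq hE1c, fun x hx => ?_⟩
      obtain ⟨y, hy, rfl⟩ := hE1K hx
      rw [← map_pow, hy.2, map_one]
    have hle : E1 ≤ E ⊓ D :=
      le_inf (le_omegaTwo hodd hP hE1e hE1c) (hE1K.trans (Subgroup.map_subtype_le K))
    rw [hED] at hle
    have := Subgroup.card_le_of_le hle
    rw [hE1c, hZp] at this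
    exact absurd this (not_le.2 (lt_self_pow₀ hp.out.one_lt one_lt_two))
  -- `P = E D`
  have hidx : ∀ U : Subgroup P, Z ≤ U → U ≤ E →
      (Subgroup.centralizer (U : Set P)).index * p ≤ Nat.card U := by
    intro U
    induction hn : Nat.card U using Nat.strong_induction_on generalizing U with
    | _ n ih =>
    subst hn
    intro hZU hUE
    by_cases hUZ : U = Z
    · rw [hUZ, hZp, Subgroup.centralizer_eq_top_iff_subset.2 (fun z hz => hz.1),
        Subgroup.index_top, one_mul]
    obtain ⟨V, hV⟩ : ∃ V, Maximal (fun V : Subgroup P => Z ≤ V ∧ V < U) V :=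
      Set.Finite.exists_maximal (Set.toFinite _)
        ⟨Z, le_rfl, lt_of_le_of_ne hZU (Ne.symm hUZ)⟩
    obtain ⟨u, huU, huV⟩ := SetLike.exists_of_lt hV.1.2
    have hVu : V ⊔ Subgroup.zpowers u = U := by
      by_contra hne
      have hlt : V ⊔ Subgroup.zpowers u < U :=
        lt_of_le_of_ne (sup_le hV.1.2.le (Subgroup.zpowers_le.2 huU)) hne
      exact huV (hV.2 ⟨hV.1.1.trans le_sup_left, hlt⟩ le_sup_left
        (Subgroup.mem_sup_right (Subgroup.mem_zpowers u)))
    have h1 := ih _ (lt_of_not_ge fun h => hV.1.2.ne (Subgroup.eq_of_le_of_card_ge hV.1.2.le h))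
      V rfl hV.1.1 (hV.1.2.le.trans hUE)
    have h3 : Nat.card V * p ≤ Nat.card U := by
      rw [← Subgroup.relIndex_bot_left, ← Subgroup.relIndex_bot_left,
        ← Subgroup.relIndex_mul_relIndex ⊥ V U bot_le hV.1.2.le]
      refine Nat.mul_le_mul_left _ ?_
      obtain ⟨i, hi, hi'⟩ := (Nat.dvd_prime_pow hp.out).1
        (show (V.subgroupOf U).index ∣ p ^ _ from
          (IsPGroup.iff_card.1 (hP.to_subgroup U)).choose_spec ▸ Subgroup.index_dvd_card _)
      change p ≤ (V.subgroupOf U).index
      rw [hi']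
      refine Nat.le_self_pow (fun h => ?_) p
      rw [h, pow_zero, Subgroup.index_eq_one, Subgroup.subgroupOf_eq_top] at hi'
      exact hV.1.2.not_ge hi'
    set C := Subgroup.centralizer (V : Set P)
    let f : C →* Z := MonoidHom.mk' (fun c => ⟨⁅u, (c : P)⁆, hEZ u (hUE huU) c⟩)
      (fun a b => Subtype.ext (CfsgLib.PGroups.commutatorElement_mul_right (hEZ u (hUE huU) b).1))
    have hker : f.ker.map C.subtype ≤ Subgroup.centralizer (U : Set P) := by
      rw [← hVu, Subgroup.le_centralizer_iff, sup_le_iff]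
      constructor
      · rw [Subgroup.le_centralizer_iff]
        exact Subgroup.map_subtype_le _
      · rw [Subgroup.zpowers_le]
        refine Subgroup.mem_centralizer_iff.2 ?_
        rintro _ ⟨c, hc, rfl⟩
        exact (commutatorElement_eq_one_iff_mul_comm.1 (congrArg Subtype.val hc)).symm
    calc (Subgroup.centralizer (U : Set P)).index * p ≤ (f.ker.map C.subtype).index * p :=
          Nat.mul_le_mul_right _ (Nat.le_of_dvd (Nat.pos_of_ne_zero Subgroup.index_ne_zero_of_finite)
            (Subgroup.index_dvd_of_le hker))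
      _ ≤ C.index * p * p := by
        refine Nat.mul_le_mul_right _ ?_
        rw [Subgroup.index_map_of_injective _ C.subtype_injective, Subgroup.range_subtype,
          Subgroup.index_ker, mul_comm]
        refine Nat.mul_le_mul_left _ ?_
        exact (Nat.le_of_dvd Nat.card_pos (Subgroup.card_subgroup_dvd_card f.range)).trans hZp.le
      _ ≤ Nat.card V * p := Nat.mul_le_mul_right _ h1
      _ ≤ Nat.card U := h3
  have hEDtop : E ⊔ D = ⊤ := by
    have hDn : D.Normal := Subgroup.normal_of_characteristic D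
    rw [← Subgroup.index_eq_one]
    have h1 := hidx E hZE le_rfl
    have h2' : D.relIndex E * (E ⊔ D).index = D.index := by
      rw [← Subgroup.relIndex_sup_right E D]
      exact Subgroup.relIndex_mul_index le_sup_right
    have h3 : Nat.card Z * D.relIndex E = Nat.card E := by
      rw [← Subgroup.inf_relIndex_right D E, inf_comm, hED, ← Subgroup.relIndex_bot_left,
        ← Subgroup.relIndex_bot_left]
      exact Subgroup.relIndex_mul_relIndex ⊥ Z E bot_le hZE
    rw [← h2', ← h3, hZp, mul_comm p] at h1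
    have hpos : 0 < D.relIndex E := Nat.pos_of_ne_zero fun h => by
      rw [h, mul_zero] at h3; exact Nat.card_pos.ne h3
    have hle : D.relIndex E * (E ⊔ D).index ≤ D.relIndex E * 1 := by
      rw [mul_one]; exact Nat.le_of_mul_le_mul_right h1 hp.out.pos
    have := Nat.le_of_mul_le_mul_left hle hpos
    have := Nat.pos_of_ne_zero (Subgroup.index_ne_zero_of_finite (H := E ⊔ D))
    omega
  have hE_all : ∀ x : P, x ^ p = 1 → x ∈ E := by
    intro x hx
    have hDn : D.Normal := Subgroup.normal_of_characteristic D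
    obtain ⟨e, he, d, hd, rfl⟩ := Subgroup.mem_sup_of_normal_right.1
      (show x ∈ E ⊔ D by rw [hEDtop]; exact Subgroup.mem_top x)
    have hcomm : Commute e d := Subgroup.mem_centralizer_iff.1 hd e he
    rw [hcomm.mul_pow, he.2, one_mul] at hx
    refine mul_mem he (hZE ?_)
    by_cases hd1 : d = 1
    · rw [hd1]; exact one_mem _
    have hdp : orderOf (⟨d, hd⟩ : D) = p := by
      rw [Subgroup.orderOf_mk]; exact orderOf_eq_prime hx hd1
    obtain ⟨z, hz, hz1⟩ : ∃ z ∈ Z, z ≠ 1 := by
      by_contra hcon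
      push Not at hcon
      have : Z = ⊥ := eq_bot_iff.2 fun z hz => Subgroup.mem_bot.2 (hcon z hz)
      rw [this, Subgroup.card_bot] at hZp
      exact hp.out.ne_one hZp.symm
    have hzp : orderOf (⟨z, hZD hz⟩ : D) = p := by
      rw [Subgroup.orderOf_mk]; exact orderOf_eq_prime hz.2 hz1
    have hmem : (⟨d, hd⟩ : D) ∈ Subgroup.zpowers (⟨z, hZD hz⟩ : D) := by
      refine mem_zpowers_of_orderOf_dvd _ _ ?_
      rw [hdp, hzp]
    obtain ⟨i, hi⟩ := Subgroup.mem_zpowers_iff.1 hmem
    have hzi : z ^ i = d := by simpa using congrArg Subtype.val hi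
    exact hzi ▸ zpow_mem hz i
  obtain ⟨A, hA⟩ : ∃ A, Maximal (fun A : Subgroup P => Z ≤ A ∧ A ≤ E ∧ IsMulCommutative A) A :=
    Set.Finite.exists_maximal (Set.toFinite _) ⟨Z, le_rfl, hZE, hZel.1⟩
  refine ⟨Z, A, hZp, fun z hz => hz.1, hZchar, hA.1.1, ⟨hA.1.2.2, fun a ha => (hA.1.2.1 ha).2⟩,
    fun x hx => ?_⟩
  by_cases hxA : x ∈ A
  · exact Or.inl hxA
  refine Or.inr ⟨fun a _ => hEZ x (hE_all x hx) a, ?_⟩
  by_contra hcon
  push Not at hcon
  refine hxA (hA.2 ⟨hA.1.1.trans le_sup_left,
    sup_le hA.1.2.1 (Subgroup.zpowers_le.2 (hE_all x hx)), ?_⟩ le_sup_left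
      (Subgroup.mem_sup_right (Subgroup.mem_zpowers x)))
  rw [← Subgroup.le_centralizer_iff_isMulCommutative, sup_le_iff]
  refine ⟨Subgroup.le_centralizer_iff.2 (sup_le ?_ ?_), Subgroup.le_centralizer_iff.2 (sup_le ?_ ?_)⟩
  · haveI := hA.1.2.2
    exact Subgroup.le_centralizer_iff_isMulCommutative.2 inferInstance
  · exact Subgroup.zpowers_le.2 (Subgroup.mem_centralizer_iff.2 fun a ha =>
      (commutatorElement_eq_one_iff_mul_comm.1 (hcon a ha)).symm)
  · exact fun a ha => Subgroup.mem_centralizer_iff.2 (by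
      rintro _ ⟨i, rfl⟩
      exact (Commute.zpow_left (commutatorElement_eq_one_iff_mul_comm.1 (hcon a ha)) i).eq)
  · exact Subgroup.zpowers_le.2 (Subgroup.mem_centralizer_iff.2 (by
      rintro _ ⟨i, rfl⟩
      exact (Commute.zpow_left (Commute.refl x) i).eq))
where
  mem_zpowers_of_orderOf_dvd {D : Type _} [Group D] [IsCyclic D] [Finite D] (z d : D)
      (h : orderOf d ∣ orderOf z) : d ∈ Subgroup.zpowers z := by
    obtain ⟨g, hg⟩ := IsCyclic.exists_generator (α := D)
    have hle : Subgroup.zpowers d ≤ Subgroup.zpowers z := by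
      have key : ∀ H K : Subgroup D, Nat.card H ∣ Nat.card K → H ≤ K := by
        intro H K hd
        intro x hx
        have hxo : x ^ Nat.card K = 1 := by
          obtain ⟨c, hc⟩ := hd
          have := pow_card_eq_one' (G := H) (x := ⟨x, hx⟩)
          rw [hc, pow_mul, show x ^ Nat.card H = 1 from congrArg Subtype.val this, one_pow]
        letI : CommGroup D := IsCyclic.commGroup
        have hsub : K ≤ (powMonoidHom (Nat.card K) : D →* D).ker := fun k hk =>
          congrArg Subtype.val (pow_card_eq_one' (G := K) (x := ⟨k, hk⟩))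
        have hKc : Nat.card K = Nat.card (powMonoidHom (Nat.card K) : D →* D).ker := by
          rw [IsCyclic.card_powMonoidHom_ker, Nat.gcd_eq_right K.card_subgroup_dvd_card]
        rw [Subgroup.eq_of_le_of_card_ge hsub hKc.ge]
        exact hxo
      exact key _ _ (by rw [Nat.card_zpowers, Nat.card_zpowers]; exact h)
    exact hle (Subgroup.mem_zpowers d)

end CfsgLib.Components2.OmegaStructure
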