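import Mathlib
import Cfsg.Agent.Lib.Components2.SylowCount
import Cfsg.Agent.Lib.CoprimeAction.Sylow

/-!
Induction principle behind M. Hall's theorem on the number of Sylow subgroups (helper77).
-/

set_option autoImplicit false

namespace CfsgLib.Components2

open scoped Pointwise

universe u

variable {G : Type u} [Group G] [Finite G] {p : ℕ} [Fact p.Prime]

/-- If `K` is a normal `p'`-subgroup then every prime-power part of `|K : N_K(P)|` is `1` mod `p`. -/
theorem ordProj_relIndex_normalizer_modEq_one (K : Subgroup G) [K.Normal] (hK : ¬ p ∣ Nat.card K)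
    (P : Sylow p G) {q : ℕ} (hq : q.Prime) :
    q ^ ((Subgroup.normalizer ((P : Subgroup G) : Set G)).relIndex K).factorization q ≡ 1 [MOD p] := by
  classical
  haveI : Fact q.Prime := ⟨hq⟩
  have hp : p.Prime := Fact.out
  set N := Subgroup.normalizer ((P : Subgroup G) : Set G) with hN
  have hcop : (Nat.card (P : Subgroup G)).Coprime (Nat.card K) := by
    obtain ⟨k, hk⟩ := IsPGroup.iff_card.1 P.2
    rw [hk]
    exact Nat.Coprime.pow_left k (hp.coprime_iff_not_dvd.2 hK)
  by_cases hqp : q = p
  · subst hqp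
    have h0 : (N.relIndex K).factorization q = 0 :=
      Nat.factorization_eq_zero_of_not_dvd fun h => hK (h.trans (Subgroup.relIndex_dvd_card N K))
    rw [h0, pow_zero]
  have hPK : (P : Subgroup G) ≤ Subgroup.normalizer (K : Set G) := by
    rw [Subgroup.normalizer_eq_top (H := K)]; exact le_top
  -- the fixed subgroup
  set C := N ⊓ K with hC
  have hcomm : ∀ c ∈ C, ∀ a ∈ (P : Subgroup G), a * c * a⁻¹ = c := by
    intro c hc a ha
    have h1 : c * a * c⁻¹ ∈ (P : Subgroup G) := (Subgroup.mem_normalizer_iff.1 hc.1 a).1 ha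
    have h2 : a * c * a⁻¹ * c⁻¹ ∈ (P : Subgroup G) ⊓ K := by
      refine Subgroup.mem_inf.2 ⟨?_, mul_mem ((inferInstance : K.Normal).conj_mem c hc.2 a) (inv_mem hc.2)⟩
      have e : a * c * a⁻¹ * c⁻¹ = a * (c * a * c⁻¹)⁻¹ := by group
      rw [e]
      exact mul_mem ha (inv_mem h1)
    rw [Subgroup.inf_eq_bot_of_coprime hcop, Subgroup.mem_bot] at h2
    exact mul_inv_eq_one.1 h2
  obtain ⟨S⟩ : Nonempty (Sylow q C) := inferInstance
  set U := (S : Subgroup C).map C.subtype with hU
  have hUC : U ≤ C := Subgroup.map_subtype_le _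
  have hPU : (P : Subgroup G) ≤ Subgroup.normalizer (U : Set G) := by
    intro a ha
    rw [Subgroup.mem_normalizer_iff]
    intro x
    constructor
    · intro hx; rw [hcomm x (hUC hx) a ha]; exact hx
    · intro hx
      have e := hcomm _ (hUC hx) a⁻¹ (inv_mem ha)
      have e2 : a⁻¹ * (a * x * a⁻¹) * a⁻¹⁻¹ = x := by group
      rw [e2] at e
      exact e ▸ hx
  haveI : Group.IsNilpotent (P : Subgroup G) := P.2.isNilpotent
  obtain ⟨Q, hUQ, hPQ⟩ := CfsgLib.CoprimeAction.exists_invariant_sylow_ge hPK hcop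
    (Or.inl inferInstance) (p := q) (hUC.trans inf_le_right) (S.2.map _) hPU
  set Qs := (Q : Subgroup K).map K.subtype with hQs
  have hmem : ∀ a ∈ (P : Subgroup G), ∀ x ∈ Qs, a * x * a⁻¹ ∈ Qs := fun a ha x hx =>
    (Subgroup.mem_normalizer_iff.1 (hPQ ha) x).1 hx
  letI act : MulAction (P : Subgroup G) Qs :=
    { smul := fun a x => ⟨(a : G) * x * (a : G)⁻¹, hmem a a.2 x x.2⟩
      one_smul := fun x => Subtype.ext (by change (1 : G) * x * (1 : G)⁻¹ = x; simp)
      mul_smul := fun a b x => Subtype.ext (by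
        change ((a : G) * b) * x * ((a : G) * b)⁻¹ = a * (b * x * (b : G)⁻¹) * (a : G)⁻¹
        group) }
  have hsmul : ∀ (a : (P : Subgroup G)) (x : Qs), ((a • x : Qs) : G) = a * x * (a : G)⁻¹ :=
    fun _ _ => rfl
  have hfix : Nat.card (MulAction.fixedPoints (P : Subgroup G) Qs) = Nat.card U := by
    refine Nat.card_congr
      { toFun := fun x => ⟨(x : Qs), ?_⟩
        invFun := fun u => ⟨⟨u, hUQ u.2⟩, fun a => Subtype.ext ?_⟩
        left_inv := fun _ => rfl
        right_inv := fun _ => rfl }
    · have hxC : ((x : Qs) : G) ∈ C := by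
        refine Subgroup.mem_inf.2 ⟨?_, Subgroup.map_subtype_le _ (x : Qs).2⟩
        rw [hN, Subgroup.mem_normalizer_iff]
        have hx : ∀ a ∈ (P : Subgroup G), ((x : Qs) : G) * a = a * (x : Qs) := by
          intro a ha
          have := congrArg Subtype.val (x.2 ⟨a, ha⟩)
          rw [hsmul] at this
          exact (mul_inv_eq_iff_eq_mul.1 this).symm
        intro y
        constructor
        · intro hy
          rw [hx y hy, mul_inv_cancel_right]
          exact hy
        · intro hy
          have h2 := hx _ hy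
          rw [inv_mul_cancel_right] at h2
          rw [mul_left_cancel h2] at hy
          exact hy
      have hle : (S : Subgroup C) ≤ Qs.subgroupOf C := fun s hs => hUQ ⟨s, hs, rfl⟩
      have hp' : IsPGroup q (Qs.subgroupOf C) :=
        (Q.2.map K.subtype).comap_of_injective _ C.subtype_injective
      have heq := S.3 hp' hle
      exact ⟨⟨_, hxC⟩, heq ▸ (show (⟨_, hxC⟩ : C) ∈ Qs.subgroupOf C from (x : Qs).2), rfl⟩
    · exact hcomm _ (hUC u.2) a a.2
  have hmod := P.2.card_modEq_card_fixedPoints Qs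
  rw [hfix] at hmod
  have hcardQ : Nat.card Qs = q ^ (Nat.card K).factorization q := by
    rw [hQs, ← Nat.card_congr (Subgroup.equivMapOfInjective _ _ K.subtype_injective).toEquiv]
    exact Q.card_eq_multiplicity
  have hcardU : Nat.card U = q ^ (Nat.card C).factorization q := by
    rw [hU, ← Nat.card_congr (Subgroup.equivMapOfInjective _ _ C.subtype_injective).toEquiv]
    exact S.card_eq_multiplicity
  have hmul : Nat.card C * N.relIndex K = Nat.card K := by
    rw [← Subgroup.inf_relIndex_right, ← hC]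
    rw [Subgroup.relIndex, ← Nat.card_congr (Subgroup.subgroupOfEquivOfLe (inf_le_right : C ≤ K)).toEquiv]
    exact Subgroup.card_mul_index _
  have hne : N.relIndex K ≠ 0 := Subgroup.index_ne_zero_of_finite
  rw [hcardQ, hcardU, ← hmul, Nat.factorization_mul Nat.card_pos.ne' hne, Finsupp.add_apply,
    pow_add] at hmod
  have hqcop : p.Coprime (q ^ (Nat.card C).factorization q) :=
    Nat.Coprime.pow_right _ ((Nat.coprime_primes hp hq).2 (Ne.symm hqp))
  exact Nat.ModEq.cancel_left_of_coprime hqcop (by simpa using hmod)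

/-- Induction principle: a multiplicative property of numbers holds of `n_p(G)` if it holds for
simple groups and for numbers all whose prime-power parts are `1` mod `p`. The flag `b` allows to
restrict to solvable groups. -/
theorem card_sylow_induction (b : Prop) (Φ : ℕ → Prop) (h1 : Φ 1)
    (hmul : ∀ m n, Φ m → Φ n → Φ (m * n))
    (hpp : ∀ m, m ≠ 0 → (∀ q : ℕ, q.Prime → q ^ m.factorization q ≡ 1 [MOD p]) → Φ m)
    (hsimple : ∀ (S : Type u) [Group S] [Finite S], IsSimpleGroup S → (b → Group.IsSolvable S) →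
      Φ (Nat.card (Sylow p S)))
    (hG : b → Group.IsSolvable G) : Φ (Nat.card (Sylow p G)) := by
  suffices H : ∀ (n : ℕ) (G : Type u) [Group G] [Finite G], Nat.card G = n →
      (b → Group.IsSolvable G) → Φ (Nat.card (Sylow p G)) from H _ G rfl hG
  intro n
  induction n using Nat.strong_induction_on with
  | _ n ih =>
  intro G _ _ hn hG
  obtain ⟨P⟩ : Nonempty (Sylow p G) := inferInstance
  have hquot : ∀ (K : Subgroup G) [K.Normal], K ≠ ⊥ → Φ (Nat.card (Sylow p (G ⧸ K))) := by
    intro K _ hK
    refine ih _ ?_ (G ⧸ K) rfl fun hb => ?_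
    · rw [← hn, K.card_eq_card_quotient_mul_card_subgroup]
      exact lt_mul_of_one_lt_right Nat.card_pos (Subgroup.one_lt_card_iff_ne_bot _ |>.2 hK)
    · haveI := hG hb
      infer_instance
  have hsub : ∀ (K : Subgroup G), K ≠ ⊤ → Φ (Nat.card (Sylow p K)) := by
    intro K hK
    refine ih _ ?_ K rfl fun hb => ?_
    · rw [← hn, ← K.card_mul_index]
      exact lt_mul_of_one_lt_right Nat.card_pos (Subgroup.one_lt_index_of_ne_top hK)
    · haveI := hG hb
      infer_instance
  rcases subsingleton_or_nontrivial G with hs | hnt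
  · rw [card_sylow_eq_one_of_normal P]
    · exact h1
    · exact ⟨fun x hx g => by rw [Subsingleton.elim (g * x * g⁻¹) x]; exact hx⟩
  by_cases hs : IsSimpleGroup G
  · exact hsimple G hs hG
  obtain ⟨K, hKn, hK0, hK1⟩ : ∃ K : Subgroup G, K.Normal ∧ K ≠ ⊥ ∧ K ≠ ⊤ := by
    by_contra hc
    push Not at hc
    exact hs ⟨fun K hK => or_iff_not_imp_left.2 (hc K hK)⟩
  rw [card_sylow_quotient_mul P K, card_sylow_sup_normal P K]
  refine hmul _ _ (hquot K hK0) ?_
  by_cases htop : ((P : Subgroup G) ⊔ K) ⊓
      Subgroup.normalizer (((P : Subgroup G) ⊓ K : Subgroup G) : Set G) = ⊤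
  swap
  · exact hmul _ _ (hsub K hK1) (hsub _ htop)
  obtain ⟨hPK, hD⟩ := inf_eq_top_iff.1 htop
  rw [← card_sylow_sup_normal P K, hPK, card_sylow_congr Subgroup.topEquiv]
  have hDn := Subgroup.normalizer_eq_top_iff.1 hD
  by_cases hD0 : (P : Subgroup G) ⊓ K = ⊥
  swap
  · have hDp : IsPGroup p ((P : Subgroup G) ⊓ K : Subgroup G) := P.2.to_le inf_le_left
    rw [← card_sylow_quotient_of_isPGroup _ hDp]
    exact hquot _ hD0
  -- coprime case
  have hKp : ¬ p ∣ Nat.card K := by
    intro hd
    obtain ⟨D, hDmap⟩ := exists_sylow_map_subtype_eq_inf K P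
    have := D.ne_bot_of_dvd_card hd
    exact this (Subgroup.map_injective K.subtype_injective (by rw [hDmap, hD0, Subgroup.map_bot]))
  have hn' : Nat.card (Sylow p G) =
      (Subgroup.normalizer ((P : Subgroup G) : Set G)).relIndex K := by
    rw [card_sylow_eq_index P, ← Subgroup.relIndex_top_right, ← hPK, sup_comm,
      relIndex_sup_of_le _ K _ Subgroup.le_normalizer]
  rw [hn']
  exact hpp _ Subgroup.index_ne_zero_of_finite
    fun q hq => ordProj_relIndex_normalizer_modEq_one K hKp P hq

end CfsgLib.Components2
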