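import Cfsg.Agent.Lib.Components2.TitsTwoTransCheck
import Cfsg.Agent.Lib.Components2.TitsInvolutions
import Cfsg.Agent.Lib.KnownSimple.ReeFourCentralizer
import Cfsg.Prelude.Def_LieExceptional

/-! Subgroups of the Tits group with odd index over a large part of the Borel subgroup: each is either small or
transitive on the chambers of `²F₄(2)`. -/

set_option autoImplicit false
set_option maxRecDepth 4000
set_option maxHeartbeats 1000000
set_option linter.unusedSectionVars false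

namespace CfsgLib.Components2.TitsTwo

open Cfsg.Lie CfsgLib.Components2.TitsInv
open CfsgLib.Chevalley (Cert Aux Full Acts xG nG rootsU invSet invs mem_invs nW wPerm torusHom)

local notation "𝔽" => ZMod 2
local notation "GF" => GL chevF4.Idx 𝔽
local notation "Gr" => twistedF4 𝔽 1
set_option quotPrecheck false in
local notation "G2" => ↥(twistedF4 (ZMod 2) 1)

theorem card_two : Fintype.card 𝔽 = 2 ^ (2 * 0 + 1) := by simp

theorem diagonal_eq_one {g : GF} (hg : g ∈ chevF4.diagonalSubgroup 𝔽) : g = 1 := by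
  rw [CfsgLib.Chevalley.diagonalSubgroup_eq_range full] at hg
  obtain ⟨c, rfl⟩ := hg
  rw [show c = 1 from funext fun _ => Subsingleton.elim _ _, map_one]

theorem borel_eq : chevF4.borelSubgroup 𝔽 = chevF4.posUnipotent 𝔽 := by
  refine le_antisymm ?_ le_sup_left
  intro g hg
  obtain ⟨u, hu, t, ht, rfl⟩ := (CfsgLib.Chevalley.mem_borel_iff full).1 hg
  rw [diagonal_eq_one ht, mul_one]
  exact hu

theorem nG_word {r : ℕ} : nG full.cert r (1 : 𝔽) = W [r, chevF4.neg r, r] := by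
  rw [nG, show -((1 : 𝔽))⁻¹ = 1 by rw [inv_one]; decide, W_cons, W_cons, W_cons, W_nil, mul_one, mul_assoc]

theorem nW_words :
    nW full.cert 𝔽 (CfsgLib.Twisted.wlF4.getD 0 []) = W (nw 0) ∧
      nW full.cert 𝔽 (CfsgLib.Twisted.wlF4.getD 1 []) = W (nw 1) := by
  have e : ∀ l : List (Fin chevF4.rank), nW full.cert 𝔽 l =
      W (l.flatMap fun i : Fin chevF4.rank => [chevF4.simple i.val, chevF4.neg (chevF4.simple i.val), chevF4.simple i.val]) := by
    intro l
    induction l with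
    | nil => simp [CfsgLib.Chevalley.nW, W_nil]
    | cons i l ih => rw [CfsgLib.Chevalley.nW_cons, ih, nG_word, List.flatMap_cons, W_append]
  rw [e, e]
  exact ⟨congrArg W (by decide +kernel), congrArg W (by decide +kernel)⟩

theorem eq_of_perm {a b : GF} (ha : a ∈ chevF4.monomialSubgroup 𝔽) (hb : b ∈ chevF4.monomialSubgroup 𝔽)
    {σ : Equiv.Perm (Fin chevF4.nroots)} {η θ : Fin chevF4.nroots → 𝔽} (hA : Acts full.cert a σ η)
    (hB : Acts full.cert b σ θ) : a = b := by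
  obtain ⟨τ, ζ, hz⟩ := CfsgLib.Chevalley.exists_acts full (mul_mem (inv_mem ha) hb)
  have h2 := hA.mul hz
  rw [mul_inv_cancel_left] at h2
  have hτ : τ = 1 := by
    have h3 : σ = σ * τ := hB.perm_eq h2
    exact mul_eq_left.1 h3.symm
  have hd := CfsgLib.Chevalley.mem_diagonal_of_perm full (mul_mem (inv_mem ha) hb) hz fun i => by
    rw [hτ]; exact full.simple_pos i.isLt
  exact inv_mul_eq_one.1 (diagonal_eq_one hd)

/-- The `(B,N)`-pair of `²F₄(2)` with named representatives. -/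
structure Setup where
  /-- the pair -/
  P : Cfsg.BNPair G2
  /-- the representatives -/
  s : ℕ → G2
  mem : ∀ k < 2, s k ∈ P.S
  cover : ∀ x ∈ P.S, ∃ k < 2, x = s k
  coe_s : ∀ k < 2, ((s k : G2) : GF) = W (nw k)
  mem_B : ∀ g : G2, g ∈ P.B ↔ (g : GF) ∈ chevF4.posUnipotent 𝔽
  cardB : Nat.card P.B = 4096
  cardP : ∀ k < 2, Nat.card (P.parabolic {s k}) = 4096 * (if k = 0 then 3 else 5)
  inter : ∀ g : G2, g ∈ P.B → g ∈ P.N → g = 1

theorem exists_setup : Nonempty Setup := by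
  obtain ⟨ρ, φ, hG, hJ⟩ := (by simpa using CfsgLib.Twisted.fixedDataF4 (K := 𝔽) (m := 0) card_two :
    CfsgLib.Twisted.HasFixedData CfsgLib.Twisted.fullF4 Gr [[0, 3], [1, 2]])
  have hJ0 : CfsgLib.Twisted.nodeSet chevF4 [0, 3] ∈ CfsgLib.Twisted.nodeSets chevF4 [[0, 3], [1, 2]] :=
    ⟨[0, 3], by simp, rfl⟩
  have hJ1 : CfsgLib.Twisted.nodeSet chevF4 [1, 2] ∈ CfsgLib.Twisted.nodeSets chevF4 [[0, 3], [1, 2]] :=
    ⟨[1, 2], by simp, rfl⟩
  have hW := CfsgLib.Twisted.weylF4_ok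
  simp only [Bool.and_eq_true] at hW
  have hW := hW.1.1.1.1.1
  simp only [CfsgLib.Twisted.checkLongest, Bool.and_eq_true, List.all_eq_true, decide_eq_true_eq,
    Bool.or_eq_true] at hW
  have hperm : ∀ (L : List ℕ) (l : List (Fin chevF4.rank)),
      (L, l) ∈ ([[0, 3], [1, 2]] : List (List ℕ)).zip CfsgLib.Twisted.wlF4 →
      ∀ hL : CfsgLib.Twisted.nodeSet chevF4 L ∈ CfsgLib.Twisted.nodeSets chevF4 [[0, 3], [1, 2]],
        ∃ η, Acts full.cert (hG.rep hJ ⟨_, hL⟩) (wPerm full.cert l) η := by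
    intro L l hp hL
    obtain ⟨σ, η, hA, -, -⟩ := (hG.rep_spec hJ ⟨_, hL⟩).2.2
    exact ⟨η, CfsgLib.Twisted.perm_rep_eq full (hG.rep_spec hJ ⟨_, hL⟩)
      (fun x hx => (hW.2 _ hp).1 x hx)
      (fun j hj => ((hW.2 _ hp).2 j (List.mem_finRange j)).resolve_left fun hn => hn hj) hA ▸ hA⟩
  obtain ⟨η0, hA0⟩ := hperm [0, 3] (CfsgLib.Twisted.wlF4.getD 0 []) (List.mem_cons_self ..) hJ0
  obtain ⟨η1, hA1⟩ := hperm [1, 2] (CfsgLib.Twisted.wlF4.getD 1 [])
    (List.mem_cons_of_mem _ (List.mem_cons_self ..)) hJ1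
  have hrep : ∀ (l : List (Fin chevF4.rank)) (x : GF), x ∈ chevF4.monomialSubgroup 𝔽 →
      ∀ η, Acts full.cert x (wPerm full.cert l) η → x = nW full.cert 𝔽 l := fun l x hx η hA => by
    obtain ⟨θ, hB⟩ := CfsgLib.Chevalley.acts_nW (F := 𝔽) full l
    exact eq_of_perm hx (CfsgLib.Chevalley.nW_mem_monomial full l) hA hB
  have hB : ∀ g : G2, g ∈ (hG.bnPair hJ).B ↔ (g : GF) ∈ chevF4.posUnipotent 𝔽 := fun g => by
    rw [CfsgLib.Twisted.FixedPts.bnPair_B, Subgroup.mem_subgroupOf, borel_eq, Subgroup.mem_inf]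
    exact ⟨fun h => h.1, fun h => ⟨h, g.2⟩⟩
  have hcard : Nat.card (hG.bnPair hJ).B = 4096 := by
    rw [show (hG.bnPair hJ).B = (chevF4.posUnipotent 𝔽).subgroupOf Gr from
      SetLike.ext fun g => (hB g).trans Subgroup.mem_subgroupOf.symm, ← Subgroup.inf_subgroupOf_left,
      Nat.card_congr (Subgroup.subgroupOfEquivOfLe inf_le_left).toEquiv, card_U1]
  have hd := CfsgLib.KnownSimple.ReeFourCentralizer.weylF4_data
  simp only [Bool.and_eq_true, decide_eq_true_eq] at hd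
  obtain ⟨⟨-, hca⟩, hcb⟩ := hd
  have hinv : ∀ σ : Equiv.Perm (Fin chevF4.nroots), invs σ =
      Finset.univ.filter fun r : Fin chevF4.nroots => chevF4.IsPosRoot r ∧ chevF4.IsNegRoot (σ r) :=
    fun σ => Finset.ext fun r => by simp [mem_invs]
  refine ⟨{
    P := hG.bnPair hJ
    s := fun k => if k = 0 then ⟨hG.rep hJ ⟨_, hJ0⟩, (hG.rep_spec hJ _).1⟩
      else ⟨hG.rep hJ ⟨_, hJ1⟩, (hG.rep_spec hJ _).1⟩
    mem := fun k _ => by split_ifs <;> exact ⟨_, rfl⟩
    cover := ?_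
    coe_s := ?_
    mem_B := hB
    cardB := hcard
    cardP := ?_
    inter := ?_ }⟩
  · rintro _ ⟨⟨J, L, hL, rfl⟩, rfl⟩
    simp only [List.mem_cons, List.not_mem_nil, or_false] at hL
    rcases hL with rfl | rfl
    · exact ⟨0, by norm_num, rfl⟩
    · exact ⟨1, by norm_num, rfl⟩
  · intro k hk
    rcases (show k = 0 ∨ k = 1 by omega) with rfl | rfl
    · exact (hrep _ _ (hG.rep_spec hJ _).2.1 _ hA0).trans nW_words.1
    · exact (hrep _ _ (hG.rep_spec hJ _).2.1 _ hA1).trans nW_words.2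
  · intro k hk
    rcases (show k = 0 ∨ k = 1 by omega) with rfl | rfl
    · show Nat.card ((hG.bnPair hJ).parabolic {(⟨hG.rep hJ ⟨_, hJ0⟩, (hG.rep_spec hJ _).1⟩ : G2)}) = _
      rw [CfsgLib.KnownSimple.FixedParabolic.card_parabolic_rep hG hJ (s := ⟨_, (hG.rep_spec hJ _).1⟩) ⟨_, rfl⟩ hA0,
        hcard]
      have := CfsgLib.KnownSimple.ReeFourCentralizer.card_inf_invSet (K := 𝔽) (m := 0) card_two rfl
        (by simpa using (hG.rep_spec hJ ⟨_, hJ0⟩).1) (hG.rep_spec hJ _).2.1 hA0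
      rw [hinv] at this
      simp only [pow_zero] at this
      rw [this, show (Finset.univ.filter fun r : Fin chevF4.nroots => chevF4.IsPosRoot r ∧
        chevF4.IsNegRoot (wPerm full.cert (CfsgLib.Twisted.wlF4.getD 0 []) r)).card = 2 from hca]
      norm_num
    · show Nat.card ((hG.bnPair hJ).parabolic {(⟨hG.rep hJ ⟨_, hJ1⟩, (hG.rep_spec hJ _).1⟩ : G2)}) = _
      rw [CfsgLib.KnownSimple.FixedParabolic.card_parabolic_rep hG hJ (s := ⟨_, (hG.rep_spec hJ _).1⟩) ⟨_, rfl⟩ hA1,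
        hcard]
      have := CfsgLib.KnownSimple.ReeFourCentralizer.card_inf_invSet (K := 𝔽) (m := 0) card_two rfl
        (by simpa using (hG.rep_spec hJ ⟨_, hJ1⟩).1) (hG.rep_spec hJ _).2.1 hA1
      rw [hinv] at this
      simp only [pow_zero] at this
      rw [this, show (Finset.univ.filter fun r : Fin chevF4.nroots => chevF4.IsPosRoot r ∧
        chevF4.IsNegRoot (wPerm full.cert (CfsgLib.Twisted.wlF4.getD 1 []) r)).card = 4 from hcb]
      norm_num
  · intro g hgB hgN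
    refine Subtype.ext (diagonal_eq_one ?_)
    rw [← CfsgLib.Chevalley.borel_inf_monomial full]
    exact ⟨(Subgroup.mem_subgroupOf.1 hgB).1, (Subgroup.mem_subgroupOf.1 hgN).1⟩

/-! ### The abelianisation and deep elements -/

theorem certs_wd : certs.map Prod.fst = (List.range' 3 13).map wd := by decide +kernel

theorem W_reverse_mem {l : List ℕ} : (W l)⁻¹ = W l.reverse := (W_reverse l).symm

theorem W_pos_mem {ix : List ℕ} (h : ∀ i ∈ ix, i < 12) :
    W (pos ix) ∈ Gr ⊓ chevF4.posUnipotent 𝔽 ∧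
      ab (W (pos ix)) = ab (W wY) ^ (ix.countP fun i => (els.getD i ⟨false, [], [], [], []⟩).y) := by
  have e : W (pos ix) = gOf (ix.map fun i => els.getD i ⟨false, [], [], [], []⟩) := by
    induction ix with
    | nil => simp [pos, gOf, W_nil]
    | cons i ix ih =>
      have hi := ih fun j hj => h j (List.mem_cons_of_mem _ hj)
      simp only [pos, List.flatMap_cons, W_append] at hi ⊢
      rw [hi]
      simp [gOf, posAt]
  have hmem : ∀ a ∈ ix.map fun i => els.getD i ⟨false, [], [], [], []⟩, a ∈ els := by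
    intro a ha
    obtain ⟨i, hi, rfl⟩ := List.mem_map.1 ha
    have hl : i < els.length := h i hi
    rw [List.getD_eq_getElem _ _ hl]
    exact List.getElem_mem hl
  refine ⟨?_, ?_⟩
  · rw [e]
    refine Subgroup.list_prod_mem _ fun x hx => ?_
    obtain ⟨a, ha, rfl⟩ := List.mem_map.1 hx
    exact el_mem (hmem a ha)
  · rw [e, (ab_gOf _ hmem).2, List.countP_map]
    rfl

theorem mem_commutator_iff (g : G2) : g ∈ commutator G2 ↔ ab (g : GF) = 1 := by
  rw [ab, dif_pos g.2, ← Abelianization.ker_of, MonoidHom.mem_ker]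

/-- A subgroup of index one, two or four of a finite two-group contains the squares of products of squares. -/
theorem sq_sq_mem {H : Type*} [Group H] [Finite H] {k : ℕ} (hH : Nat.card H = 2 ^ k) (U : Subgroup H)
    (hU : U.index ≤ 4) {y : H} (hy : y ∈ Subgroup.closure (Set.range fun x : H => x * x)) : y * y ∈ U := by
  have : Fact (Nat.Prime 2) := ⟨Nat.prime_two⟩
  obtain ⟨a, -, ha⟩ := (Nat.dvd_prime_pow Nat.prime_two).1 (hH ▸ Subgroup.card_subgroup_dvd_card U)
  obtain ⟨d, -, hd⟩ := (Nat.dvd_prime_pow Nat.prime_two).1 (hH ▸ U.index_dvd_card)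
  have hd2 : d ≤ 2 := by
    by_contra h
    have : 2 ^ 3 ≤ 2 ^ d := Nat.pow_le_pow_right (by norm_num) (by omega)
    omega
  have hk : a + d = k := by
    have := U.card_mul_index
    rw [ha, hd, hH, ← pow_add] at this
    exact Nat.pow_right_injective le_rfl this
  have low : ∀ (L : Type _) [Group L] (V : Subgroup L), V.index ∣ 2 → ∀ x : L, x * x ∈ V := by
    intro L _ V hV x
    rcases (Nat.dvd_prime Nat.prime_two).1 hV with h | h
    · rw [Subgroup.index_eq_one.1 h]; exact Subgroup.mem_top _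
    · have := Subgroup.sq_mem_of_index_two h x
      rwa [sq] at this
  by_cases h1 : d ≤ 1
  · exact low H U (by rw [hd]; exact Nat.pow_dvd_pow 2 h1) y
  obtain ⟨K, hK, hUK⟩ := Sylow.exists_subgroup_card_pow_succ (p := 2) (n := a)
    (hH ▸ Nat.pow_dvd_pow 2 (by omega)) ha
  have hKi : K.index ∣ 2 := by
    have h := K.card_mul_index
    rw [hK, hH, show k = (a + 1) + 1 by omega, pow_succ 2 (a + 1)] at h
    rw [Nat.eq_of_mul_eq_mul_left (pow_pos (by norm_num) _) h]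
  have hyK : y ∈ K := (Subgroup.closure_le K).2 (by rintro _ ⟨x, rfl⟩; exact low H K hKi x) hy
  have hUi : (U.subgroupOf K).index ∣ 2 := by
    have h := (U.subgroupOf K).card_mul_index
    rw [Nat.card_congr (Subgroup.subgroupOfEquivOfLe hUK).toEquiv, ha, hK, pow_succ] at h
    rw [Nat.eq_of_mul_eq_mul_left (pow_pos (by norm_num) _) h]
  exact low K (U.subgroupOf K) hUi ⟨y, hyK⟩

theorem card_inf_le_card_conj {H : Type*} [Group H] [Finite H] {M B D : Subgroup H} {U : Subgroup ↥D} {c : H}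
    (hmemU : ∀ v : ↥D, v ∈ U ↔ c⁻¹ * (v : H) * c ∈ M) (hD : ∀ m : H, m ∈ M ⊓ B → c * m * c⁻¹ ∈ D) :
    Nat.card ↥(M ⊓ B) ≤ Nat.card U := by
  have hmU : ∀ (m : H) (hm : m ∈ M ⊓ B), (⟨c * m * c⁻¹, hD m hm⟩ : ↥D) ∈ U := fun m hm => by
    refine (hmemU _).2 ?_
    show c⁻¹ * (c * m * c⁻¹) * c ∈ M
    rw [show c⁻¹ * (c * m * c⁻¹) * c = m by group]
    exact (Subgroup.mem_inf.1 hm).1
  refine Nat.card_le_card_of_injective
    (fun m : ↥(M ⊓ B) => (⟨⟨c * m.1 * c⁻¹, hD m.1 m.2⟩, hmU m.1 m.2⟩ : ↥U)) ?_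
  intro m m' hh
  have h1 : c * m.1 * c⁻¹ = c * m'.1 * c⁻¹ := congrArg Subtype.val (congrArg Subtype.val hh)
  exact Subtype.ext (mul_left_cancel (mul_right_cancel h1))

theorem card_of_mul_eq {H : Type*} [Group H] [Finite H] (M B : Subgroup H)
    (hall : ∀ g : H, ∃ m ∈ M, ∃ b ∈ B, g = m * b) : Nat.card M = Nat.card ↥(M ⊓ B) * B.index := by
  have hidx : (B.subgroupOf M).index = B.index := by
    rw [Subgroup.index_eq_card, Subgroup.index_eq_card]
    refine Nat.card_eq_of_bijective (Quotient.map' (fun m : M => (m : H)) fun a b hab => by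
      rw [QuotientGroup.leftRel_apply] at hab ⊢
      exact Subgroup.mem_subgroupOf.1 hab) ⟨?_, ?_⟩
    · rintro ⟨a⟩ ⟨b⟩ hab
      refine Quotient.sound' ?_
      rw [QuotientGroup.leftRel_apply, Subgroup.mem_subgroupOf]
      exact QuotientGroup.eq.1 (hab : (QuotientGroup.mk _ : H ⧸ B) = QuotientGroup.mk _)
    · rintro ⟨g⟩
      obtain ⟨m, hm, b, hb, rfl⟩ := hall g
      refine ⟨QuotientGroup.mk ⟨m, hm⟩, ?_⟩
      refine QuotientGroup.eq.2 ?_
      show m⁻¹ * (m * b) ∈ B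
      rw [inv_mul_cancel_left]; exact hb
  rw [← Subgroup.card_mul_index (B.subgroupOf M), hidx]
  congr 1
  rw [← Subgroup.inf_subgroupOf_left, Nat.card_congr (Subgroup.subgroupOfEquivOfLe inf_le_left).toEquiv]

theorem exists_vWord {H : Type*} [Group H] [Finite H] (ι : H →* GF) {k : ℕ} (hk : Nat.card H = 2 ^ k)
    (U : Subgroup H) (hU : U.index ≤ 4) (hD : ∀ z : List ℕ, evenY z = true → ∃ y : H, ι y = W (pos z))
    (Ls : List (List (List ℕ))) (hev : ∀ L ∈ Ls, ∀ z ∈ L, evenY z = true) :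
    ∃ v : H, v ∈ U ∧ ι v = W (vWord Ls) := by
  induction Ls with
  | nil => exact ⟨1, one_mem _, by rw [map_one, vWord, List.flatMap_nil, W_nil]⟩
  | cons L Ls ih =>
    obtain ⟨v, hv, ev⟩ := ih fun L' hL' => hev L' (List.mem_cons_of_mem _ hL')
    have hL := hev L (List.mem_cons_self ..)
    obtain ⟨y, hy, ey⟩ : ∃ y : H, y ∈ Subgroup.closure (Set.range fun z : H => z * z) ∧
        ι y = W (sqWord L) := by
      clear hev
      induction L with
      | nil => exact ⟨1, one_mem _, by rw [map_one, sqWord, List.flatMap_nil, W_nil]⟩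
      | cons z L ihL =>
        obtain ⟨y, hy, ey⟩ := ihL fun a ha => hL a (List.mem_cons_of_mem _ ha)
        obtain ⟨w, hw⟩ := hD z (hL z (List.mem_cons_self ..))
        refine ⟨w * w * y, mul_mem (Subgroup.subset_closure ⟨w, rfl⟩) hy, ?_⟩
        rw [map_mul, map_mul, hw, ey, sqWord, sqWord, List.flatMap_cons, W_append, W_append]
    refine ⟨y * y * v, mul_mem (sq_sq_mem hk U hU hy) hv, ?_⟩
    rw [map_mul, map_mul, ev, ey, vWord, vWord, List.flatMap_cons, W_append, W_append]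

namespace Setup

variable (S : Setup)

/-- The monomial element of a word. -/
def nE (w : List ℕ) : G2 := (w.map S.s).prod

theorem coe_nE {w : List ℕ} (hw : ∀ k ∈ w, k < 2) : ((S.nE w : G2) : GF) = W (flat w) := by
  induction w with
  | nil => simp [nE, flat, W_nil]
  | cons k w ih =>
    have := ih fun j hj => hw j (List.mem_cons_of_mem _ hj)
    simp only [nE, flat, List.map_cons, List.prod_cons, List.flatMap_cons, W_append, Subgroup.coe_mul] at this ⊢
    rw [S.coe_s k (hw k (List.mem_cons_self ..)), this]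

theorem wd_lt : ∀ i < 16, ∀ k ∈ wd i, k < 2 := by decide +kernel

theorem mul_nE {i k : ℕ} (hi : i < 16) (hk : k < 2) : S.s k * S.nE (wd i) = S.nE (wd (nxt i k)) := by
  have h := wordsOk_eq
  simp only [wordsOk, List.all_eq_true, List.mem_range, Bool.and_eq_true, decide_eq_true_eq] at h
  obtain ⟨hn, hw⟩ := h i hi k hk
  refine Subtype.ext ?_
  rw [Subgroup.coe_mul, S.coe_s k hk, S.coe_nE (wd_lt i hi), S.coe_nE (wd_lt _ hn), ← W_append]
  exact W_eq_of_eqW (CfsgLib.Components2.TitsPack.eqW_of_eqP hw)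

theorem nxt_lt {i k : ℕ} (hi : i < 16) (hk : k < 2) : nxt i k < 16 := by
  have h := wordsOk_eq
  simp only [wordsOk, List.all_eq_true, List.mem_range, Bool.and_eq_true, decide_eq_true_eq] at h
  exact (h i hi k hk).1

theorem s_eq {k : ℕ} (hk : k < 2) : S.s k = S.nE (wd (k + 1)) := by
  rcases (show k = 0 ∨ k = 1 by omega) with rfl | rfl <;>
    simp [nE, wd, wds]

theorem sq_s {k : ℕ} (hk : k < 2) : S.s k * S.s k = 1 := by
  conv_lhs => arg 2; rw [S.s_eq hk]
  rw [S.mul_nE (by omega) hk]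
  rcases (show k = 0 ∨ k = 1 by omega) with rfl | rfl <;> simp [nE, wd, wds, nxt, nextTab]

theorem s_mem_T {k : ℕ} (hk : k < 2) : S.s k ∈ commutator G2 := by
  refine involution_mem_commutator _ ?_
  refine orderOf_eq_prime (by rw [sq]; exact S.sq_s hk) ?_
  intro h
  exact CfsgLib.BNPair.s_not_mem (S.mem k hk) (h ▸ S.P.B.one_mem)

theorem exists_cell (g : G2) : ∃ i < 16, ∃ b ∈ S.P.B, ∃ c ∈ S.P.B, g = b * S.nE (wd i) * c := by
  have htop : g ∈ S.P.parabolic S.P.S := by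
    have hN : S.P.N ≤ S.P.parabolic S.P.S := by
      rw [← S.P.closure_sup]
      exact sup_le le_sup_right (inf_le_left.trans le_sup_left)
    exact (sup_le le_sup_left hN : S.P.B ⊔ S.P.N ≤ _) (by rw [S.P.sup_eq_top]; exact Subgroup.mem_top _)
  obtain ⟨l, hl, hgl⟩ := (CfsgLib.BNPair.mem_parabolic_iff subset_rfl).1 htop
  have : ∃ i < 16, l.prod = S.nE (wd i) := by
    clear hgl
    induction l with
    | nil => exact ⟨0, by norm_num, rfl⟩
    | cons x l ih =>
      obtain ⟨i, hi, e⟩ := ih fun y hy => hl y (List.mem_cons_of_mem _ hy)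
      obtain ⟨k, hk, rfl⟩ := S.cover x (hl x (List.mem_cons_self ..))
      exact ⟨nxt i k, nxt_lt hi hk, by rw [List.prod_cons, e, S.mul_nE hi hk]⟩
  obtain ⟨i, hi, e⟩ := this
  obtain ⟨b, hb, c, hc, rfl⟩ := CfsgLib.BNPair.mem_cell.1 hgl
  exact ⟨i, hi, b, hb, c, hc, by rw [e]⟩

/-- The part of the Borel subgroup inside the derived group. -/
abbrev BT : Subgroup G2 := S.P.B ⊓ commutator G2

theorem cardB_le : Nat.card S.P.B ≤ 2 * Nat.card S.BT := by
  classical
  obtain ⟨hy, hyab⟩ := W_pos_mem (ix := [1]) (by simp)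
  set y : G2 := ⟨W (pos [1]), (Subgroup.mem_inf.1 hy).1⟩ with hydef
  have hyB : y ∈ S.P.B := (S.mem_B y).2 (Subgroup.mem_inf.1 hy).2
  have key : ∀ g : G2, g ∈ S.P.B → g ∉ commutator G2 → y⁻¹ * g ∈ commutator G2 := by
    intro g hg hgT
    obtain ⟨s, hs, t, ht, e⟩ := exists_subs (g := (g : GF)) (Subgroup.mem_inf.2 ⟨g.2, (S.mem_B g).1 hg⟩)
    have he : ∀ a ∈ s ++ t, a ∈ els := fun a ha =>
      (List.mem_append.1 ha).elim (mem_els₁ hs a) (mem_els₂ ht a)
    have hgab := (ab_gOf _ he).2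
    rw [← e] at hgab
    have hyy : ab (W wY) * ab (W wY) = 1 := ab_base.2.2
    have hpar : ∀ n : ℕ, ab (W wY) ^ n = 1 ∨ ab (W wY) ^ n = ab (W wY) := by
      intro n
      induction n with
      | zero => exact Or.inl (pow_zero _)
      | succ n ih =>
        rcases ih with h | h
        · exact Or.inr (by rw [pow_succ, h, one_mul])
        · exact Or.inl (by rw [pow_succ, h, hyy])
    rw [mem_commutator_iff] at hgT ⊢
    rw [Subgroup.coe_mul, Subgroup.coe_inv, ab_mul (inv_mem y.2) g.2, ab_inv y.2, hgab]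
    rcases hpar ((s ++ t).countP fun e => e.y) with h | h
    · exact absurd (hgab.trans h) hgT
    · rw [h, show ab ((y : G2) : GF) = ab (W wY) from hyab.trans (by
        rw [show ([1] : List ℕ).countP (fun i => (els.getD i ⟨false, [], [], [], []⟩).y) = 1 from rfl, pow_one]),
        inv_mul_cancel]
  let f : S.P.B → S.BT × Bool := fun g =>
    if h : (g : G2) ∈ commutator G2 then (⟨(g : G2), Subgroup.mem_inf.2 ⟨g.2, h⟩⟩, false)
    else (⟨y⁻¹ * (g : G2), Subgroup.mem_inf.2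
      ⟨S.P.B.mul_mem (S.P.B.inv_mem hyB) g.2, key (g : G2) g.2 h⟩⟩, true)
  refine le_trans (Nat.card_le_card_of_injective f fun a b hab => ?_) (le_of_eq ?_)
  · simp only [f] at hab
    split_ifs at hab <;>
      simp only [Prod.mk.injEq, Bool.false_eq_true, Bool.true_eq_false, and_false, and_true,
        Subtype.mk.injEq] at hab
    · exact Subtype.ext (Subtype.ext (congrArg Subtype.val hab :))
    · exact Subtype.ext (mul_left_cancel
        (Subtype.ext (congrArg Subtype.val hab :) : y⁻¹ * (a : G2) = y⁻¹ * (b : G2)))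
  · rw [Nat.card_prod, Nat.card_eq_fintype_card (α := Bool), Fintype.card_bool, mul_comm]

theorem cardBT : ∃ k : ℕ, 11 ≤ k ∧ k ≤ 12 ∧ Nat.card S.BT = 2 ^ k := by
  have h : Nat.card S.BT ∣ 2 ^ 12 := by
    have := Subgroup.card_dvd_of_le (inf_le_left : S.BT ≤ S.P.B)
    rwa [S.cardB] at this
  obtain ⟨k, hk, e⟩ := (Nat.dvd_prime_pow Nat.prime_two).1 h
  have := S.cardB_le
  rw [S.cardB, e] at this
  refine ⟨k, ?_, hk, e⟩
  by_contra hlt
  have : 2 ^ k ≤ 2 ^ 10 := Nat.pow_le_pow_right (by norm_num) (by omega)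
  omega

variable {S}

/-- The hypotheses on a subgroup. -/
structure Large (S : Setup) (M : Subgroup G2) : Prop where
  le : M ≤ commutator G2
  idx : Nat.card S.BT ≤ 4 * Nat.card ↥(M ⊓ S.P.B)
  odd : ∃ r, Odd r ∧ Nat.card M = Nat.card ↥(M ⊓ S.P.B) * r

variable {M : Subgroup G2}

theorem pos_mem_B {ix : List ℕ} (h : ∀ i ∈ ix, i < 12) :
    ∃ u ∈ S.P.B, ((u : G2) : GF) = W (pos ix) :=
  ⟨⟨_, (Subgroup.mem_inf.1 (W_pos_mem h).1).1⟩, (S.mem_B _).2 (Subgroup.mem_inf.1 (W_pos_mem h).1).2, rfl⟩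

/-- A deep element moved by a monomial element lies in a conjugate of the subgroup. -/
theorem move (hM : Large S M) {i : ℕ} (hi3 : 3 ≤ i) (hi : i < 16) {x b c : G2} (hx : x ∈ M) (hb : b ∈ S.P.B)
    (hc : c ∈ S.P.B) (e : x = b * S.nE (wd i) * c) :
    ∃ z ∈ M, ∃ p ∈ S.P.B, ∃ q ∈ S.P.B,
      z = p * S.nE (if i = 15 then wd 13 else (wd i).take 1) * q := by
  obtain ⟨cert, hcert, hfst⟩ : ∃ cert ∈ certs, cert.1 = wd i := by
    have : wd i ∈ certs.map Prod.fst := by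
      rw [certs_wd]
      exact List.mem_map.2 ⟨i, List.mem_range'_1.2 ⟨hi3, by omega⟩, rfl⟩
    exact List.mem_map.1 this
  have h := List.all_eq_true.1 certOk_eq cert hcert
  simp only [Bool.and_eq_true, List.all_eq_true, decide_eq_true_eq] at h
  obtain ⟨⟨⟨⟨hev, h1⟩, h2⟩, hshape⟩, heq⟩ := h
  rw [hfst] at heq hshape
  have hlen : ∀ j < 16, ((wd j).length = 8 ↔ j = 15) := by decide +kernel
  have hc4 : cert.2.2.2.1 = if i = 15 then wd 13 else (wd i).take 1 := by
    by_cases h15 : i = 15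
    · rw [if_pos ((hlen i hi).2 h15), decide_eq_true_eq] at hshape
      rw [if_pos h15]; exact hshape
    · rw [if_neg fun hh => h15 ((hlen i hi).1 hh), decide_eq_true_eq] at hshape
      rw [if_neg h15]; exact hshape
  have hcw : ∀ k ∈ cert.2.2.2.1, k < 2 := by
    rw [hc4]
    split_ifs
    · exact wd_lt 13 (by norm_num)
    · exact fun k hk => wd_lt i hi k (List.mem_of_mem_take hk)
  obtain ⟨U, hU⟩ : ∃ U : Subgroup ↥S.BT, U = (M.comap (MulAut.conj c⁻¹).toMonoidHom).subgroupOf S.BT :=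
    ⟨_, rfl⟩
  have hmemU : ∀ v : ↥S.BT, v ∈ U ↔ c⁻¹ * (v : G2) * c ∈ M := fun v => by
    rw [hU, Subgroup.mem_subgroupOf, Subgroup.mem_comap]
    show MulAut.conj c⁻¹ (v : G2) ∈ M ↔ _
    rw [MulAut.conj_apply, inv_inv]
  have hconjT : ∀ v : G2, v ∈ S.BT → ∀ d ∈ S.P.B, d * v * d⁻¹ ∈ S.BT := fun v hv d hd =>
    Subgroup.mem_inf.2 ⟨mul_mem (mul_mem hd (Subgroup.mem_inf.1 hv).1) (inv_mem hd),
      (inferInstance : (commutator G2).Normal).conj_mem _ (Subgroup.mem_inf.1 hv).2 d⟩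
  have hcardU : Nat.card ↥(M ⊓ S.P.B) ≤ Nat.card U := by
    have hmB : ∀ m : G2, m ∈ M ⊓ S.P.B → c * m * c⁻¹ ∈ S.BT := fun m hm =>
      hconjT m (Subgroup.mem_inf.2 ⟨(Subgroup.mem_inf.1 hm).2, hM.le (Subgroup.mem_inf.1 hm).1⟩) c hc
    exact card_inf_le_card_conj hmemU hmB
  obtain ⟨k, -, -, hk⟩ := S.cardBT
  have hUidx : U.index ≤ 4 := by
    have h1 := U.card_mul_index
    have h2 := hM.idx
    have h3 : 0 < Nat.card U := Nat.card_pos
    by_contra h4
    have : Nat.card U * 5 ≤ Nat.card U * U.index := Nat.mul_le_mul_left _ (by omega)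
    omega
  obtain ⟨v, hvU, hvW⟩ : ∃ v : ↥S.BT, v ∈ U ∧ ((v : G2) : GF) = W (vWord cert.2.1) := by
    refine exists_vWord ((Subgroup.subtype Gr).comp S.BT.subtype) hk U hUidx (fun z hz => ?_) _ hev
    simp only [evenY, Bool.and_eq_true, List.all_eq_true, decide_eq_true_eq] at hz
    obtain ⟨hzm, hzab⟩ := W_pos_mem hz.1
    have hzT : (⟨W (pos z), (Subgroup.mem_inf.1 hzm).1⟩ : G2) ∈ S.BT := by
      refine Subgroup.mem_inf.2 ⟨(S.mem_B _).2 (Subgroup.mem_inf.1 hzm).2, (mem_commutator_iff _).2 ?_⟩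
      obtain ⟨j, hj⟩ := Nat.dvd_of_mod_eq_zero hz.2
      show ab (W (pos z)) = 1
      rw [hzab, hj, pow_mul, sq, ab_base.2.2, one_pow]
    exact ⟨⟨_, hzT⟩, rfl⟩
  obtain ⟨p, hp, ep⟩ := pos_mem_B (S := S) h1
  obtain ⟨q, hq, eq⟩ := pos_mem_B (S := S) h2
  have hconj : S.nE (wd i) * (v : G2) * (S.nE (wd i))⁻¹ = p * S.nE cert.2.2.2.1 * q := by
    refine Subtype.ext ?_
    rw [Subgroup.coe_mul, Subgroup.coe_mul, Subgroup.coe_inv, Subgroup.coe_mul, Subgroup.coe_mul,
      S.coe_nE (wd_lt i hi), S.coe_nE hcw, hvW, ep, eq, W_reverse_mem, ← W_append, ← W_append, ← W_append,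
      ← W_append]
    exact W_eq_of_eqW (CfsgLib.Components2.TitsPack.eqW_of_eqP heq)
  refine ⟨x * (c⁻¹ * (v : G2) * c) * x⁻¹, mul_mem (mul_mem hx ((hmemU v).1 hvU)) (inv_mem hx),
    b * p, mul_mem hb hp, q * b⁻¹, mul_mem hq (inv_mem hb), ?_⟩
  rw [← hc4, e]
  calc b * S.nE (wd i) * c * (c⁻¹ * (v : G2) * c) * (b * S.nE (wd i) * c)⁻¹
      = b * (S.nE (wd i) * (v : G2) * (S.nE (wd i))⁻¹) * b⁻¹ := by group
    _ = _ := by rw [hconj]; group

/-- The subgroup moves along the panel of type `k`. -/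
def Reaches (S : Setup) (M : Subgroup G2) (k : ℕ) : Prop :=
  ∃ z ∈ M, ∃ p ∈ S.P.B, ∃ q ∈ S.P.B, z = p * S.s k * q

theorem nE_take {i : ℕ} {k : ℕ} (h : (wd i).take 1 = [k]) : S.nE ((wd i).take 1) = S.s k := by
  rw [h]; simp [nE]

theorem transitive (hM : Large S M) {k : ℕ} (hk : k < 2) (hR : Reaches S M k) :
    ∀ b ∈ S.P.B, ∃ h ∈ M, h * (b * S.s k) ∈ S.P.B := by
  obtain ⟨z, hz, p, hp, q, hq, ez⟩ := hR
  obtain ⟨Q, hQ⟩ : ∃ Q, Q = S.P.parabolic {S.s k} := ⟨_, rfl⟩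
  have hBQ : S.P.B ≤ Q := hQ ▸ CfsgLib.BNPair.B_le_parabolic _
  have hsQ : S.s k ∈ Q := hQ ▸ CfsgLib.BNPair.subset_parabolic _ (Set.mem_singleton _)
  obtain ⟨H, hH⟩ : ∃ H, H = M ⊓ Q := ⟨_, rfl⟩
  have hHB : H ⊓ S.P.B = M ⊓ S.P.B := by
    rw [hH, inf_assoc, inf_eq_right.2 hBQ]
  set t := (S.P.B.subgroupOf H).index with ht
  have hcardH : Nat.card ↥(M ⊓ S.P.B) * t = Nat.card H := by
    rw [← hHB, ← Subgroup.card_mul_index (S.P.B.subgroupOf H), ← ht]
    congr 1
    rw [← Subgroup.inf_subgroupOf_left, Nat.card_congr (Subgroup.subgroupOfEquivOfLe inf_le_left).toEquiv]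
  obtain ⟨r, hr, hMr⟩ := hM.odd
  have htodd : Odd t := by
    refine hr.of_dvd_nat ((Nat.mul_dvd_mul_iff_left (Nat.card_pos (α := ↥(M ⊓ S.P.B)))).1 ?_)
    rw [hcardH, ← hMr, hH]
    exact Subgroup.card_dvd_of_le inf_le_left
  have ht1 : t ≠ 1 := by
    intro h1
    rw [ht, Subgroup.index_eq_one, Subgroup.subgroupOf_eq_top] at h1
    have hzH : z ∈ H := hH ▸ Subgroup.mem_inf.2 ⟨hz, by
      rw [ez]; exact mul_mem (mul_mem (hBQ hp) hsQ) (hBQ hq)⟩
    have := h1 hzH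
    rw [ez, S.P.B.mul_mem_cancel_right hq, S.P.B.mul_mem_cancel_left hp] at this
    exact CfsgLib.BNPair.s_not_mem (S.mem k hk) this
  set c := if k = 0 then 3 else 5 with hcdef
  have htc : t ∣ c := by
    have h1 : t ∣ 2 ^ 12 * c := by
      have := (Dvd.intro_left _ hcardH : t ∣ Nat.card H).trans
        (Subgroup.card_dvd_of_le (hH ▸ inf_le_right : H ≤ Q))
      rwa [hQ, S.cardP k hk, ← hcdef, show (4096 : ℕ) = 2 ^ 12 by norm_num] at this
    exact (Nat.Coprime.pow_right _ (Nat.coprime_two_right.2 htodd)).dvd_of_dvd_mul_left h1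
  have hcp : c.Prime := by rw [hcdef]; split_ifs <;> norm_num
  have htc' : t = c := (hcp.eq_one_or_self_of_dvd t htc).resolve_left ht1
  have hQc : (S.P.B.subgroupOf Q).index = c := by
    have := Subgroup.card_mul_index (S.P.B.subgroupOf Q)
    rw [Nat.card_congr (Subgroup.subgroupOfEquivOfLe hBQ).toEquiv, S.cardB, hQ, S.cardP k hk] at this
    rw [hQ]
    exact Nat.eq_of_mul_eq_mul_left (by norm_num) (this.trans (by rw [hcdef]))
  have hHQ : H ≤ Q := hH ▸ inf_le_right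
  let f : ↥H ⧸ S.P.B.subgroupOf H → ↥Q ⧸ S.P.B.subgroupOf Q :=
    Quotient.map' (Subgroup.inclusion hHQ) fun a b hab => by
      rw [QuotientGroup.leftRel_apply] at hab ⊢
      rw [Subgroup.mem_subgroupOf] at hab ⊢
      exact hab
  have hf : Function.Injective f := by
    rintro ⟨a⟩ ⟨b⟩ hab
    refine Quotient.sound' ?_
    have := QuotientGroup.eq.1 (hab : (QuotientGroup.mk _ : ↥Q ⧸ S.P.B.subgroupOf Q) = QuotientGroup.mk _)
    rw [QuotientGroup.leftRel_apply, Subgroup.mem_subgroupOf] at *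
    exact this
  have hsurj : Function.Surjective f := (hf.bijective_of_nat_card_le (by
    rw [← Subgroup.index_eq_card, ← Subgroup.index_eq_card, hQc, ← ht, htc'])).2
  intro b hb
  obtain ⟨⟨a⟩, ha⟩ := hsurj (QuotientGroup.mk ⟨b * S.s k, mul_mem (hBQ hb) hsQ⟩)
  have := QuotientGroup.eq.1 (ha : (QuotientGroup.mk _ : ↥Q ⧸ S.P.B.subgroupOf Q) = QuotientGroup.mk _)
  rw [Subgroup.mem_subgroupOf] at this
  exact ⟨(a : G2)⁻¹, inv_mem (hH.le a.2 |> fun h => (Subgroup.mem_inf.1 h).1), this⟩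

theorem table_data : ∀ i : Fin 16, ∀ k : Fin 2, (i : ℕ) = 0 ∨ (i : ℕ) = k + 1 ∨ (i : ℕ) = (1 - k) + 1 ∨
    (3 ≤ (i : ℕ) ∧ (i : ℕ) ≠ 15 ∧ (wd i).take 1 = [1 - (k : ℕ)]) ∨
    (3 ≤ (i : ℕ) ∧ nxt (nxt i k) k = i ∧ nxt i k ≠ 15 ∧
      (nxt i k = (1 - k) + 1 ∨ (3 ≤ nxt i k ∧ (wd (nxt i k)).take 1 = [1 - (k : ℕ)]))) := by
  decide +kernel

theorem reaches_of_cell (hM : Large S M) {i k : ℕ} (hk : k < 2) (hi : i < 16)
    (hik : i = k + 1 ∨ (3 ≤ i ∧ i ≠ 15 ∧ (wd i).take 1 = [k])) {x b c : G2} (hx : x ∈ M) (hb : b ∈ S.P.B)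
    (hc : c ∈ S.P.B) (e : x = b * S.nE (wd i) * c) : Reaches S M k := by
  rcases hik with rfl | ⟨h3, h15, ht⟩
  · exact ⟨x, hx, b, hb, c, hc, by rw [e, S.s_eq hk]⟩
  · obtain ⟨z, hz, p, hp, q, hq, ez⟩ := move hM h3 hi hx hb hc e
    rw [if_neg h15, nE_take ht] at ez
    exact ⟨z, hz, p, hp, q, hq, ez⟩

theorem le_parabolic (hM : Large S M) {k : ℕ} (hk : k < 2) (hn : ¬ Reaches S M (1 - k)) :
    M ≤ S.P.parabolic {S.s k} := by
  have hk' : 1 - k < 2 := by omega
  by_cases hR : Reaches S M k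
  · intro x hx
    obtain ⟨i, hi, b, hb, c, hc, e⟩ := S.exists_cell x
    rcases table_data ⟨i, hi⟩ ⟨k, hk⟩ with h | h | h | ⟨h3, h15, ht⟩ | ⟨h3, hinv, hn15, h⟩
    · subst h
      rw [e, show S.nE (wd 0) = 1 from rfl, mul_one]
      exact CfsgLib.BNPair.B_le_parabolic _ (mul_mem hb hc)
    · subst h
      rw [e, ← S.s_eq hk]
      exact mul_mem (mul_mem (CfsgLib.BNPair.B_le_parabolic _ hb)
        (CfsgLib.BNPair.subset_parabolic _ (Set.mem_singleton _))) (CfsgLib.BNPair.B_le_parabolic _ hc)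
    · exact absurd (reaches_of_cell hM hk' hi (Or.inl h) hx hb hc e) hn
    · exact absurd (reaches_of_cell hM hk' hi (Or.inr ⟨h3, h15, ht⟩) hx hb hc e) hn
    · exfalso
      obtain ⟨g, hg, hgB⟩ := transitive hM hk hR b hb
      refine hn (reaches_of_cell hM hk' (nxt_lt hi hk)
        (h.imp id fun hh => ⟨hh.1, hn15, hh.2⟩) (mul_mem hg hx) hgB hc ?_)
      rw [e]
      conv_lhs => rw [← (show nxt (nxt i k) k = i from hinv), ← S.mul_nE (nxt_lt hi hk) hk]
      group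
  · intro x hx
    obtain ⟨i, hi, b, hb, c, hc, e⟩ := S.exists_cell x
    have hnone : ∀ j, 1 ≤ j → j < 15 → ∀ x b c : G2, x ∈ M → b ∈ S.P.B → c ∈ S.P.B →
        x ≠ b * S.nE (wd j) * c := by
      intro j hj1 hj15 x b c hx hb hc e
      have hh : ∀ j < 15, 1 ≤ j → ∃ l < 2, j = l + 1 ∨ (3 ≤ j ∧ j ≠ 15 ∧ (wd j).take 1 = [l]) := by
        decide +kernel
      obtain ⟨l, hl, hl'⟩ := hh j hj15 hj1
      have := reaches_of_cell hM hl (by omega) hl' hx hb hc e
      rcases (show l = k ∨ l = 1 - k by omega) with rfl | rfl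
      · exact hR this
      · exact hn this
    rcases (show i = 0 ∨ (1 ≤ i ∧ i < 15) ∨ i = 15 by omega) with rfl | ⟨h1, h2⟩ | rfl
    · rw [e, show S.nE (wd 0) = 1 from rfl, mul_one]
      exact CfsgLib.BNPair.B_le_parabolic _ (mul_mem hb hc)
    · exact absurd e (hnone i h1 h2 x b c hx hb hc)
    · obtain ⟨z, hz, p, hp, q, hq, ez⟩ := move hM (by norm_num) hi hx hb hc e
      rw [if_pos rfl] at ez
      exact absurd ez (hnone 13 (by norm_num) (by norm_num) z p q hz hp hq)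

theorem card_G2 : Nat.card G2 = 35942400 := by
  have h := CfsgLib.TwistedOrder.card_twistedF4 (K := 𝔽) (m := 0) card_two
    (CfsgLib.Twisted.card_torusF4 card_two)
  simpa using h

theorem card_of_reaches (hM : Large S M) (h : ∀ k < 2, Reaches S M k) :
    Nat.card M = Nat.card ↥(M ⊓ S.P.B) * 8775 := by
  have hall : ∀ g : G2, ∃ m ∈ M, ∃ b ∈ S.P.B, g = m * b := by
    intro g
    obtain ⟨i, hi, b, hb, c, hc, rfl⟩ := S.exists_cell g
    have key : ∀ w : List ℕ, (∀ k ∈ w, k < 2) → ∀ d ∈ S.P.B,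
        ∃ m ∈ M, ∃ b' ∈ S.P.B, d * S.nE w = m * b' := by
      intro w
      induction w with
      | nil => intro _ d hd; exact ⟨1, one_mem _, d, hd, by simp [nE]⟩
      | cons k w ih =>
        intro hw d hd
        have hk := hw k (List.mem_cons_self ..)
        obtain ⟨g', hg', hB'⟩ := transitive hM hk (h k hk) d hd
        obtain ⟨m, hm, b', hb', e⟩ := ih (fun j hj => hw j (List.mem_cons_of_mem _ hj)) _ hB'
        refine ⟨g'⁻¹ * m, mul_mem (inv_mem hg') hm, b', hb', ?_⟩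
        rw [mul_assoc g'⁻¹, ← e]
        simp [nE, mul_assoc]
    obtain ⟨m, hm, b', hb', e⟩ := key (wd i) (wd_lt i hi) b hb
    exact ⟨m, hm, b' * c, mul_mem hb' hc, by rw [e, mul_assoc]⟩
  have hB : S.P.B.index = 8775 := by
    have := S.P.B.card_mul_index
    rw [S.cardB, card_G2] at this
    omega
  rw [card_of_mul_eq M S.P.B hall, hB]

/-- A large subgroup is transitive on the chambers or small. -/
theorem dichotomy (hM : Large S M) :
    Nat.card M = Nat.card ↥(M ⊓ S.P.B) * 8775 ∨ Nat.card M ≤ 20480 := by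
  by_cases h : ∀ k < 2, Reaches S M k
  · exact Or.inl (card_of_reaches hM h)
  · obtain ⟨k, hk⟩ := not_forall.1 h
    obtain ⟨hk, hn⟩ := Classical.not_imp.1 hk
    refine Or.inr ?_
    have hle := le_parabolic hM (k := 1 - k) (by omega) (by rwa [show 1 - (1 - k) = k by omega])
    refine (Subgroup.card_le_of_le hle).trans ?_
    rw [S.cardP _ (by omega)]
    split_ifs <;> norm_num

end Setup

end CfsgLib.Components2.TitsTwo
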