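import Cfsg.Agent.Lib.Components2.TitsTwoTrans
import Mathlib.GroupTheory.GroupAction.Jordan
import Mathlib.GroupTheory.GroupAction.MultipleTransitivity

/-! The Tits group has no faithful two-transitive action on at least three points. -/

set_option autoImplicit false
set_option maxRecDepth 4000
set_option linter.unusedSectionVars false
set_option maxHeartbeats 600000

namespace CfsgLib.Components2.TitsTwo

set_option quotPrecheck false in
local notation "G2" => ↥(Cfsg.Lie.twistedF4 (ZMod 2) 1)

section General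

variable {H : Type*} [Group H] [Finite H]

/-- A conjugate of a subgroup meets a Sylow two-subgroup in a Sylow two-subgroup of itself. -/
theorem exists_conj_odd (P0 : Subgroup H) (hP : IsPGroup 2 P0) (hodd : ¬ 2 ∣ P0.index) (M : Subgroup H) :
    ∃ M' : Subgroup H, Nat.card M' = Nat.card M ∧
      ∃ r, Odd r ∧ Nat.card M' = Nat.card ↥(M' ⊓ P0) * r := by
  have : Fact (Nat.Prime 2) := ⟨Nat.prime_two⟩
  obtain ⟨Q⟩ : Nonempty (Sylow 2 M) := inferInstance
  obtain ⟨P', hP'⟩ := (Q.isPGroup'.map M.subtype).exists_le_sylow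
  obtain ⟨g, hg⟩ := MulAction.exists_smul_eq H P' (hP.toSylow hodd)
  have hgP : P'.toSubgroup.map (MulAut.conj g).toMonoidHom = P0 := congrArg Sylow.toSubgroup hg
  refine ⟨M.map (MulAut.conj g).toMonoidHom,
    (Subgroup.card_map_of_injective (MulAut.conj g).injective), Q.toSubgroup.index, ?_, ?_⟩
  · rw [← Nat.not_even_iff_odd, even_iff_two_dvd]
    exact Q.not_dvd_index
  have hQ : (Q.toSubgroup.map M.subtype).map (MulAut.conj g).toMonoidHom ≤
      M.map (MulAut.conj g).toMonoidHom ⊓ P0 :=
    le_inf (Subgroup.map_mono (Subgroup.map_subtype_le _)) (hgP ▸ Subgroup.map_mono hP')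
  have hcQ : Nat.card ↥((Q.toSubgroup.map M.subtype).map (MulAut.conj g).toMonoidHom) = Nat.card Q.toSubgroup := by
    rw [Subgroup.card_map_of_injective (MulAut.conj g).injective,
      Subgroup.card_map_of_injective M.subtype_injective]
  obtain ⟨a, ha⟩ := IsPGroup.iff_card.1 (hP.to_le (inf_le_right : M.map (MulAut.conj g).toMonoidHom ⊓ P0 ≤ P0))
  have h1 : Nat.card Q.toSubgroup ∣ 2 ^ a := ha ▸ hcQ ▸ Subgroup.card_dvd_of_le hQ
  have h2 : 2 ^ a ∣ Nat.card Q.toSubgroup := by
    have h := Subgroup.card_dvd_of_le (inf_le_left : M.map (MulAut.conj g).toMonoidHom ⊓ P0 ≤ _)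
    rw [ha, Subgroup.card_map_of_injective (MulAut.conj g).injective, ← Q.toSubgroup.card_mul_index] at h
    exact (Nat.Coprime.pow_left a ((Nat.prime_two.coprime_iff_not_dvd).2 Q.not_dvd_index)).dvd_of_dvd_mul_right h
  rw [ha, Subgroup.card_map_of_injective (MulAut.conj g).injective, Nat.dvd_antisymm h2 h1,
    Q.toSubgroup.card_mul_index]

end General

namespace Setup

variable (S : Setup)

theorem sup_eq : S.P.B ⊔ commutator G2 = ⊤ := by
  rw [eq_top_iff]
  intro g _
  obtain ⟨i, hi, b, hb, c, hc, rfl⟩ := S.exists_cell g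
  have hw : ∀ w : List ℕ, (∀ k ∈ w, k < 2) → S.nE w ∈ commutator G2 := fun w hw => by
    induction w with
    | nil => exact (commutator G2).one_mem
    | cons j w ih =>
      have e : S.nE (j :: w) = S.s j * S.nE w := List.prod_cons
      rw [e]
      exact (commutator G2).mul_mem (S.s_mem_T (hw j (List.mem_cons_self ..)))
        (ih fun i hi => hw i (List.mem_cons_of_mem _ hi))
  exact mul_mem (mul_mem (Subgroup.mem_sup_left hb) (Subgroup.mem_sup_right (hw _ (wd_lt i hi))))
    (Subgroup.mem_sup_left hc)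

theorem card_T : ∃ k : ℕ, 11 ≤ k ∧ k ≤ 12 ∧ Nat.card S.BT = 2 ^ k ∧
    Nat.card (commutator G2) = 8775 * 2 ^ k := by
  obtain ⟨k, hk1, hk2, hk⟩ := S.cardBT
  refine ⟨k, hk1, hk2, hk, ?_⟩
  have h1 := (commutator G2).card_mul_index
  have h2 : (commutator G2).relIndex S.P.B = (commutator G2).index := by
    rw [← Subgroup.relIndex_sup_right S.P.B (commutator G2), S.sup_eq, Subgroup.relIndex_top_right]
  have h3 := ((commutator G2).subgroupOf S.P.B).card_mul_index
  rw [← Subgroup.relIndex, h2, S.cardB, ← Subgroup.inf_subgroupOf_left,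
    Nat.card_congr (Subgroup.subgroupOfEquivOfLe inf_le_left).toEquiv, hk] at h3
  rw [card_G2] at h1
  have h4 : 0 < (commutator G2).index := Nat.pos_of_ne_zero Subgroup.index_ne_zero_of_finite
  refine Nat.eq_of_mul_eq_mul_right h4 ?_
  rw [h1, mul_assoc, h3]; norm_num

include S in
/-- The orders and indices that cannot occur. -/
theorem no_subgroup (M : Subgroup (commutator G2)) {N : ℕ} (hN : N ∈ [25, 27, 65, 325, 780])
    (h : Nat.card M * N = Nat.card (commutator G2)) : False := by
  obtain ⟨k, hk1, hk2, hk, hT⟩ := S.card_T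
  have hP0 : Nat.card ↥(S.P.B.subgroupOf (commutator G2)) = 2 ^ k := by
    rw [← Subgroup.inf_subgroupOf_right, Nat.card_congr (Subgroup.subgroupOfEquivOfLe inf_le_right).toEquiv]
    exact hk
  have hidx : (S.P.B.subgroupOf (commutator G2)).index = 8775 := by
    have := (S.P.B.subgroupOf (commutator G2)).card_mul_index
    rw [hP0, hT, mul_comm 8775] at this
    exact Nat.eq_of_mul_eq_mul_left (by positivity) this
  obtain ⟨M', hM', r, hr, hM'r⟩ := exists_conj_odd _ (IsPGroup.of_card hP0) (by rw [hidx]; norm_num) M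
  obtain ⟨a, -, ha⟩ := (Nat.dvd_prime_pow Nat.prime_two).1
    (hP0 ▸ Subgroup.card_dvd_of_le (inf_le_right : M' ⊓ S.P.B.subgroupOf (commutator G2) ≤ _))
  have hinf : M'.map (commutator G2).subtype ⊓ S.P.B =
      (M' ⊓ S.P.B.subgroupOf (commutator G2)).map (commutator G2).subtype := by
    ext x
    simp only [Subgroup.mem_inf, Subgroup.mem_map, Subgroup.mem_subgroupOf]
    constructor
    · rintro ⟨⟨y, hy, rfl⟩, hB⟩; exact ⟨y, ⟨hy, hB⟩, rfl⟩
    · rintro ⟨y, ⟨hy, hB⟩, rfl⟩; exact ⟨⟨y, hy, rfl⟩, hB⟩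
  have hcinf : Nat.card ↥(M'.map (commutator G2).subtype ⊓ S.P.B) = 2 ^ a := by
    rw [hinf, Subgroup.card_map_of_injective (commutator G2).subtype_injective, ha]
  have hcM : Nat.card ↥(M'.map (commutator G2).subtype) = Nat.card M' :=
    Subgroup.card_map_of_injective (commutator G2).subtype_injective
  rw [← hM', hM'r, ha, hT] at h
  obtain ⟨o, ho, hNo⟩ : ∃ o, Odd o ∧ N ∣ 4 * o := by
    simp only [List.mem_cons, List.not_mem_nil, or_false] at hN
    rcases hN with rfl | rfl | rfl | rfl | rfl
    exacts [⟨25, by decide, by norm_num⟩, ⟨27, by decide, by norm_num⟩, ⟨65, by decide, by norm_num⟩,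
      ⟨325, by decide, by norm_num⟩, ⟨195, by decide, by norm_num⟩]
  have hidx' : 2 ^ k ≤ 4 * 2 ^ a := by
    have h1 : 2 ^ k ∣ 4 * 2 ^ a * (r * o) := by
      refine (Dvd.intro_left _ h.symm).trans ?_
      rw [show 4 * 2 ^ a * (r * o) = 2 ^ a * r * (4 * o) by ring]
      exact Nat.mul_dvd_mul_left _ hNo
    exact Nat.le_of_dvd (by positivity)
      ((Nat.Coprime.pow_left k (Nat.coprime_two_left.2 (hr.mul ho))).dvd_of_dvd_mul_right h1)
  have hL : Large S (M'.map (commutator G2).subtype) :=
    { le := Subgroup.map_subtype_le M'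
      idx := by rw [hk, hcinf]; exact hidx'
      odd := ⟨r, hr, by rw [hcinf, hcM, hM'r, ha]⟩ }
  rcases dichotomy hL with h1 | h1
  · rw [hcinf, hcM, hM'r, ha] at h1
    have h2 : r = 8775 := Nat.eq_of_mul_eq_mul_left (by positivity) h1
    subst h2
    have h3 : N ∣ 2 ^ k := ⟨2 ^ a, Nat.eq_of_mul_eq_mul_left (show 0 < 8775 by norm_num)
      (h.symm.trans (by ring))⟩
    simp only [List.mem_cons, List.not_mem_nil, or_false] at hN
    rcases (show k = 11 ∨ k = 12 by omega) with rfl | rfl <;>
      rcases hN with rfl | rfl | rfl | rfl | rfl <;> norm_num at h3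
  · rw [hcM, hM'r, ha] at h1
    have hN' : N ≤ 780 := by
      simp only [List.mem_cons, List.not_mem_nil, or_false] at hN
      omega
    have h2 := Nat.mul_le_mul h1 hN'
    have h3 : 8775 * 2 ^ 11 ≤ 8775 * 2 ^ k := Nat.mul_le_mul_left _ (Nat.pow_le_pow_right (by norm_num) hk1)
    rw [h] at h2
    omega

end Setup

section Action

variable {A : Type*} [Group A] [Finite A] {Ω : Type*} [Fintype Ω] [MulAction A Ω]

theorem embedding_dvd_card {m : ℕ} (h : MulAction.IsMultiplyPretransitive A Ω m) (hm : m ≤ Fintype.card Ω) :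
    (Fintype.card Ω).descFactorial m ∣ Nat.card A := by
  obtain ⟨e⟩ : Nonempty (Fin m ↪ Ω) := Function.Embedding.nonempty_of_card_le (by simpa using hm)
  have := (MulAction.stabilizer A e).index_dvd_card
  rwa [MulAction.index_stabilizer_of_transitive, Nat.card_eq_fintype_card (α := Fin m ↪ Ω),
    Fintype.card_embedding_eq, Fintype.card_fin] at this

theorem stabilizer_card [MulAction.IsPretransitive A Ω] (a : Ω) :
    Nat.card (MulAction.stabilizer A a) * Fintype.card Ω = Nat.card A := by
  have := (MulAction.stabilizer A a).card_mul_index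
  rwa [MulAction.index_stabilizer_of_transitive, Nat.card_eq_fintype_card (α := Ω)] at this

open Pointwise in
theorem pair_card (h : MulAction.IsMultiplyPretransitive A Ω 2) (hm : 2 ≤ Fintype.card Ω) :
    ∃ K : Subgroup A, Nat.card K * (Fintype.card Ω).choose 2 = Nat.card A := by
  classical
  obtain ⟨a, b, hab⟩ := Fintype.one_lt_card_iff.1 hm
  refine ⟨MulAction.stabilizer A ({a, b} : Finset Ω), ?_⟩
  have horb : MulAction.orbit A ({a, b} : Finset Ω) = ↑((Finset.univ : Finset Ω).powersetCard 2) := by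
    ext s
    rw [Finset.mem_coe, Finset.mem_powersetCard]
    constructor
    · rintro ⟨g, rfl⟩
      exact ⟨Finset.subset_univ _, (Finset.card_smul_finset g _).trans (Finset.card_pair hab)⟩
    · rintro ⟨-, hs⟩
      obtain ⟨c, d, hcd, rfl⟩ := Finset.card_eq_two.1 hs
      obtain ⟨g, hc, hd⟩ := MulAction.is_two_pretransitive_iff.1 h hab hcd
      exact ⟨g, by simp [Finset.smul_finset_insert, hc, hd]⟩
  have := (MulAction.stabilizer A ({a, b} : Finset Ω)).card_mul_index
  rwa [MulAction.index_stabilizer, horb, Set.ncard_coe_finset, Finset.card_powersetCard,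
    Finset.card_univ] at this

theorem isMultiplyPretransitive_range (h : MulAction.IsMultiplyPretransitive A Ω 2) :
    MulAction.IsMultiplyPretransitive (MulAction.toPermHom A Ω).range Ω 2 := by
  rw [MulAction.is_two_pretransitive_iff] at h ⊢
  intro a b c d hab hcd
  obtain ⟨g, hc, hd⟩ := h hab hcd
  exact ⟨⟨_, g, rfl⟩, hc, hd⟩

theorem seven_dvd [FaithfulSMul A Ω] (h : MulAction.IsMultiplyPretransitive A Ω 2)
    (h16 : Fintype.card Ω = 16) (h13 : 13 ∣ Nat.card A) : 7 ∣ Nat.card A := by
  classical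
  have : Fact (Nat.Prime 13) := ⟨by norm_num⟩
  obtain ⟨x, hx⟩ := exists_prime_orderOf_dvd_card' 13 h13
  have hinj : Function.Injective (MulAction.toPermHom A Ω) := MulAction.toPerm_injective
  have hxo : orderOf (MulAction.toPermHom A Ω x) = 13 := (orderOf_injective _ hinj x).trans hx
  have hcyc : (MulAction.toPermHom A Ω x).IsCycle :=
    Equiv.Perm.isCycle_of_prime_order' (hxo.symm ▸ by norm_num) (by rw [hxo, h16]; norm_num)
  have hsupp : (MulAction.toPermHom A Ω x).support.card = 13 := hcyc.orderOf.symm.trans hxo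
  have hs : Set.ncard (((MulAction.toPermHom A Ω x).support : Set Ω)ᶜ) = 2 + 1 := by
    rw [← Finset.coe_compl, Set.ncard_coe_finset, Finset.card_compl, hsupp, h16]
  have h2 := isMultiplyPretransitive_range h
  have hprim : MulAction.IsPreprimitive (MulAction.toPermHom A Ω).range Ω :=
    MulAction.isPreprimitive_of_is_two_pretransitive h2
  have := Equiv.Perm.isPretransitive_of_isCycle_mem (G := (MulAction.toPermHom A Ω).range) hcyc ⟨x, rfl⟩
  have hfix : MulAction.IsPreprimitive
      (fixingSubgroup (MulAction.toPermHom A Ω).range (((MulAction.toPermHom A Ω x).support : Set Ω)ᶜ))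
      (SubMulAction.ofFixingSubgroup (MulAction.toPermHom A Ω).range
        (((MulAction.toPermHom A Ω x).support : Set Ω)ᶜ)) := by
    refine MulAction.IsPreprimitive.of_prime_card ?_
    convert (show Nat.Prime 13 by norm_num)
    rw [Nat.card_eq_fintype_card, Fintype.card_subtype, ← hsupp]
    congr 1
    ext y
    simp [SubMulAction.mem_ofFixingSubgroup_iff]
  have h4 := hprim.isMultiplyPreprimitive hs (by rw [Nat.card_eq_fintype_card, h16]; norm_num) hfix
  have hdvd := embedding_dvd_card h4.isMultiplyPretransitive (by rw [h16]; norm_num)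
  rw [h16, ← Nat.card_congr (MonoidHom.ofInjective hinj).toEquiv] at hdvd
  exact (show 7 ∣ Nat.descFactorial 16 (2 + 2) by decide).trans hdvd

theorem card_list : ∀ n < 5996, 3 ≤ n → 35942400 % (n * (n - 1)) = 0 →
    n ∈ [3, 4, 5, 6, 9, 10, 13, 16, 25, 26, 27, 40, 65] := by
  decide +kernel

/-- A group of the order of the Tits group without subgroups of certain indices has no such action. -/
theorem no_action [FaithfulSMul A Ω] (hΩ : 3 ≤ Fintype.card Ω) (h : MulAction.IsMultiplyPretransitive A Ω 2)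
    {k : ℕ} (hk1 : 11 ≤ k) (hk2 : k ≤ 12) (hA : Nat.card A = 8775 * 2 ^ k)
    (hno : ∀ (M : Subgroup A) (N : ℕ), N ∈ [25, 27, 65, 325, 780] → Nat.card M * N = Nat.card A → False) :
    False := by
  classical
  have hdesc := embedding_dvd_card h (by omega : 2 ≤ Fintype.card Ω)
  rw [hA] at hdesc
  have hdvd : Fintype.card Ω * (Fintype.card Ω - 1) ∣ 35942400 := by
    refine (show Fintype.card Ω * (Fintype.card Ω - 1) ∣ _ from ?_).trans
      (show 8775 * 2 ^ k ∣ 35942400 from Nat.mul_dvd_mul_left 8775 (Nat.pow_dvd_pow 2 hk2))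
    convert hdesc using 1
    simp [Nat.descFactorial_succ, mul_comm]
  have hlt : Fintype.card Ω < 5996 := by
    by_contra hge
    have := Nat.mul_le_mul (Nat.le_of_not_lt hge) (show 5995 ≤ Fintype.card Ω - 1 by omega)
    have := Nat.le_of_dvd (by norm_num) hdvd
    omega
  have hmem := card_list _ hlt hΩ (Nat.mod_eq_zero_of_dvd hdvd)
  have hsmall : 13 < Fintype.card Ω := by
    by_contra hle
    have h1 : Nat.card A ∣ Nat.card (Equiv.Perm Ω) :=
      (Nat.card_congr (MonoidHom.ofInjective (f := MulAction.toPermHom A Ω) MulAction.toPerm_injective).toEquiv) ▸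
        Subgroup.card_subgroup_dvd_card _
    rw [Nat.card_perm, Nat.card_eq_fintype_card (α := Ω), hA] at h1
    have h2 : 2 ^ 11 ∣ Nat.factorial 13 :=
      ((Nat.pow_dvd_pow 2 hk1).trans (Dvd.intro_left _ rfl)).trans
        (h1.trans (Nat.factorial_dvd_factorial (by omega)))
    exact absurd h2 (by decide +kernel)
  simp only [List.mem_cons, List.not_mem_nil, or_false] at hmem
  have : MulAction.IsPretransitive A Ω := MulAction.isPretransitive_of_is_two_pretransitive (h2 := h)
  obtain ⟨a⟩ : Nonempty Ω := Fintype.card_pos_iff.1 (by omega)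
  have hst := stabilizer_card (A := A) a
  obtain ⟨K, hK⟩ := pair_card h (by omega : 2 ≤ Fintype.card Ω)
  by_cases h16 : Fintype.card Ω = 16
  · have h7 := seven_dvd h h16 (hA ▸ Dvd.dvd.mul_right (by norm_num) _)
    rw [hA] at h7
    rcases (show k = 11 ∨ k = 12 by omega) with rfl | rfl <;> norm_num at h7
  rcases hmem with e | e | e | e | e | e | e | e | e | e | e | e | e <;> try omega
  · exact hno _ 25 (by simp) (e ▸ hst)
  · exact hno _ 325 (by simp) (by rw [e] at hK; exact hK)
  · exact hno _ 27 (by simp) (e ▸ hst)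
  · exact hno _ 780 (by simp) (by rw [e] at hK; exact hK)
  · exact hno _ 65 (by simp) (e ▸ hst)

end Action

theorem tits_no_two_transitive {Ω : Type*} [Fintype Ω] [MulAction Cfsg.Lie.TitsGroup Ω]
    [FaithfulSMul Cfsg.Lie.TitsGroup Ω] (hΩ : 3 ≤ Fintype.card Ω) :
    ¬ MulAction.IsMultiplyPretransitive Cfsg.Lie.TitsGroup Ω 2 := by
  intro h
  obtain ⟨S⟩ := exists_setup
  obtain ⟨k, hk1, hk2, -, hT⟩ := S.card_T
  exact no_action hΩ h hk1 hk2 hT fun M _ hN hc => Setup.no_subgroup S M hN hc

end CfsgLib.Components2.TitsTwo
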