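import Cfsg.Agent.Lib.Hall.Basic
import Cfsg.Agent.Lib.BGAppendix.FittingHall
import Cfsg.Agent.Lib.NormalPComplement.Frobenius
import Mathlib.GroupTheory.SchurZassenhaus
import Mathlib.GroupTheory.NoncommCoprod

/-!
Wielandt's theorem on nilpotent Hall subgroups, and P. Hall's extension to a Hall subgroup with a
nilpotent direct factor.
-/

set_option autoImplicit false

open scoped Pointwise

namespace CfsgLib.Components2.WielandtHall

open Cfsg CfsgLib.Hall

variable {G : Type*} [Group G] {π σ τ : Set ℕ}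

/-- An element normalising `D` whose order is prime to the index of `C(D)` centralises `D`. -/
theorem mem_centralizer_of_coprime_index {D : Subgroup G} {x : G}
    (hx : x ∈ Subgroup.normalizer (D : Set G))
    (hc : (orderOf x).Coprime (Subgroup.centralizer (D : Set G)).index) :
    x ∈ Subgroup.centralizer (D : Set G) := by
  set C := Subgroup.centralizer (D : Set G)
  set N := Subgroup.normalizer (D : Set G)
  have hCN : C ≤ N := Subgroup.centralizer_le_normalizer _
  have : (C.subgroupOf N).Normal :=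
    (Subgroup.normal_subgroupOf_iff hCN).2 fun c n hc hn => by
      refine Subgroup.mem_centralizer_iff.2 fun d hd => ?_
      have hd' : n⁻¹ * d * n ∈ D := (Subgroup.mem_normalizer_iff''.1 hn d).1 hd
      have := Subgroup.mem_centralizer_iff.1 hc _ hd'
      calc d * (n * c * n⁻¹) = n * ((n⁻¹ * d * n) * c) * n⁻¹ := by group
        _ = n * (c * (n⁻¹ * d * n)) * n⁻¹ := by rw [this]
        _ = n * c * n⁻¹ * d := by group
  set y : N := ⟨x, hx⟩
  have h1 : y ^ (C.subgroupOf N).index ∈ C.subgroupOf N := Subgroup.pow_index_mem _ y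
  have h2 : y ^ orderOf x ∈ C.subgroupOf N := by
    rw [← show orderOf y = orderOf x from (orderOf_injective N.subtype N.subtype_injective y).symm,
      pow_orderOf_eq_one]
    exact one_mem _
  have hdvd : (C.subgroupOf N).index ∣ C.index := Subgroup.relIndex_dvd_index_of_le hCN
  have h3 := pow_gcd_mem_of_pow_mem h2 h1
  rw [Nat.coprime_iff_gcd_eq_one.mp (hc.coprime_dvd_right hdvd), pow_one] at h3
  exact h3
where
  pow_gcd_mem_of_pow_mem {H : Type _} [Group H] {K : Subgroup H} {y : H} {a b : ℕ}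
      (ha : y ^ a ∈ K) (hb : y ^ b ∈ K) : y ^ Nat.gcd a b ∈ K := by
    have h : (y : H) ^ ((Nat.gcd a b : ℕ) : ℤ) ∈ K := by
      rw [Nat.gcd_eq_gcd_ab, zpow_add, zpow_mul, zpow_mul, zpow_natCast, zpow_natCast]
      exact mul_mem (zpow_mem ha _) (zpow_mem hb _)
    rwa [zpow_natCast] at h

theorem isPiSubgroup_of_le [Finite G] {A B : Subgroup G} (h : IsPiSubgroup π B) (hle : A ≤ B) :
    IsPiSubgroup π A :=
  IsPiNum.of_dvd h (Subgroup.card_dvd_of_le hle)

theorem isPiSubgroup_conj {A : Subgroup G} (h : IsPiSubgroup π A) (g : G) :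
    IsPiSubgroup π (MulAut.conj g • A) := by
  intro p hp hd; rw [card_conj_smul] at hd; exact h p hp hd

theorem isNilpotent_conj {A : Subgroup G} (h : Group.IsNilpotent A) (g : G) :
    Group.IsNilpotent ↥(MulAut.conj g • A) :=
  Group.nilpotent_of_mulEquiv (Subgroup.equivSMul (MulAut.conj g) A)

theorem conj_le_centralizer_conj {A B : Subgroup G} (h : A ≤ Subgroup.centralizer (B : Set G))
    (g : G) : MulAut.conj g • A ≤ Subgroup.centralizer ((MulAut.conj g • B : Subgroup G) : Set G) := by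
  rintro _ ⟨a, ha, rfl⟩
  refine Subgroup.mem_centralizer_iff.2 ?_
  rintro _ ⟨b, hb, rfl⟩
  simp only [MulDistribMulAction.toMonoidEnd_apply, MulDistribMulAction.toMonoidHom_apply]
  rw [← smul_mul', ← smul_mul']
  exact congrArg _ (Subgroup.mem_centralizer_iff.1 (h ha) b hb)

theorem conj_mul_smul (a b : G) (A : Subgroup G) :
    MulAut.conj a • MulAut.conj b • A = MulAut.conj (a * b) • A := by
  rw [map_mul, mul_smul]

theorem conj_smul_of_mem_centralizer {A : Subgroup G} {c : G}
    (hc : c ∈ Subgroup.centralizer (A : Set G)) : MulAut.conj c • A = A := by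
  refine Subgroup.ext fun x => ⟨?_, fun hx => ⟨x, hx, ?_⟩⟩
  · rintro ⟨y, hy, rfl⟩
    have := Subgroup.mem_centralizer_iff.1 hc y hy
    simpa [MulAut.conj_apply, ← this] using hy
  · have := Subgroup.mem_centralizer_iff.1 hc x hx
    simp [MulAut.conj_apply, ← this]

/-- Sylow's theorem inside `L`, for a subgroup of index prime to `p`. -/
theorem exists_le_conj_of_sylow [Finite G] {p : ℕ} (hp : p.Prime) {P L A : Subgroup G}
    (hP : IsPiSubgroup {p} P) (hPi : ¬ p ∣ P.index) (hPL : P ≤ L) (hA : IsPiSubgroup {p} A)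
    (hAL : A ≤ L) : ∃ c ∈ L, A ≤ MulAut.conj c • P := by
  have : Fact p.Prime := ⟨hp⟩
  have hpg : ∀ {B : Subgroup G}, IsPiSubgroup {p} B → IsPGroup p B := fun {B} hB => by
    obtain ⟨k, hk⟩ : ∃ k, Nat.card B = p ^ k :=
      ⟨_, Nat.eq_prime_pow_of_unique_prime_dvd Nat.card_pos.ne' fun {d} hd hdd => hB d hd hdd⟩
    exact IsPGroup.of_card hk
  have hi : ¬ p ∣ (P.subgroupOf L).index :=
    fun h => hPi (h.trans (Subgroup.relIndex_dvd_index_of_le hPL))
  have hPg : IsPGroup p (P.subgroupOf L) :=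
    (hpg hP).of_equiv (Subgroup.subgroupOfEquivOfLe hPL).symm
  let S : Sylow p L := hPg.toSylow hi
  obtain ⟨T, hT⟩ := IsPGroup.exists_le_sylow
    ((hpg hA).of_equiv (Subgroup.subgroupOfEquivOfLe hAL).symm)
  obtain ⟨c, hc⟩ := MulAction.exists_smul_eq L S T
  refine ⟨c, c.2, fun a ha => ?_⟩
  have h1 : (⟨a, hAL ha⟩ : L) ∈ (T : Subgroup L) := hT ha
  rw [← hc, Sylow.coe_subgroup_smul] at h1
  obtain ⟨y, hy, hy'⟩ := h1
  exact ⟨(y : G), hy, congrArg Subtype.val hy'⟩

/-- Containment in conjugates of a Hall subgroup gives the property `D`. -/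
theorem isDPiGroup_of_forall_exists [Finite G] {H : Subgroup G} (hH : IsPiHall π H)
    (h : ∀ X : Subgroup G, IsPiSubgroup π X → ∃ g : G, X ≤ MulAut.conj g • H) :
    IsDPiGroup π G := by
  have key : ∀ X : Subgroup G, Maximal (IsPiSubgroup π) X → ∃ g : G, X = MulAut.conj g • H := by
    intro X hX
    obtain ⟨g, hg⟩ := h X hX.1
    exact ⟨g, hX.eq_of_le (isPiSubgroup_conj hH.1 g) hg⟩
  intro A B hA hB
  obtain ⟨a, rfl⟩ := key A hA
  obtain ⟨b, rfl⟩ := key B hB
  refine ⟨b * a⁻¹, ?_⟩
  rw [← conj_smul_eq_map, conj_mul_smul, inv_mul_cancel_right]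

/-- In a group with property `D`, every `π`-subgroup lies in a conjugate of a Hall subgroup. -/
theorem exists_le_conj_of_isDPiGroup [Finite G] {H : Subgroup G} (hD : IsDPiGroup π G)
    (hH : IsPiHall π H) {X : Subgroup G} (hX : IsPiSubgroup π X) :
    ∃ g : G, X ≤ MulAut.conj g • H := by
  obtain ⟨M, hXM, hM⟩ := (Set.toFinite {K : Subgroup G | IsPiSubgroup π K}).exists_le_maximal hX
  have hHm : Maximal (IsPiSubgroup π) H :=
    ⟨hH.1, fun K hK hle => (eq_of_isPiHall_le hH hK hle).ge⟩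
  obtain ⟨g, rfl⟩ := hD H M hHm hM
  exact ⟨g, hXM⟩

/-- The direct factors of a Hall subgroup are Hall subgroups. -/
theorem isPiHall_factor [Finite G] (hd : Disjoint σ τ) {H Hs Ht : Subgroup G}
    (hH : IsPiHall (σ ∪ τ) H) (hs : IsPiSubgroup σ Hs) (ht : IsPiSubgroup τ Ht)
    (hjoin : Hs ⊔ Ht = H) (hcomm : ∀ a ∈ Hs, ∀ b ∈ Ht, a * b = b * a) :
    IsPiHall σ Hs ∧ IsPiHall τ Ht := by
  let φ : Hs × Ht →* G :=
    MonoidHom.noncommCoprod Hs.subtype Ht.subtype fun a b => hcomm a a.2 b b.2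
  have hr : φ.range = H := by
    rw [show φ.range = Hs.subtype.range ⊔ Ht.subtype.range from MonoidHom.noncommCoprod_range _ _ _,
      Subgroup.range_subtype, Subgroup.range_subtype, hjoin]
  have hdvd : Nat.card H ∣ Nat.card Hs * Nat.card Ht := by
    rw [← hr, ← Nat.card_prod]; exact Subgroup.card_range_dvd φ
  have e : ∀ K : Subgroup G, K.index * Nat.card K = H.index * Nat.card H := fun K => by
    rw [K.index_mul_card, H.index_mul_card]
  obtain ⟨m, hm⟩ := hdvd
  have h1 : Hs.index ∣ H.index * Nat.card Ht := by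
    refine ⟨m, Nat.eq_of_mul_eq_mul_right (Nat.card_pos (α := Hs)) ?_⟩
    calc H.index * Nat.card Ht * Nat.card Hs = H.index * (Nat.card Hs * Nat.card Ht) := by ring
      _ = H.index * Nat.card H * m := by rw [hm]; ring
      _ = Hs.index * Nat.card Hs * m := by rw [e Hs]
      _ = Hs.index * m * Nat.card Hs := by ring
  have h2 : Ht.index ∣ H.index * Nat.card Hs := by
    refine ⟨m, Nat.eq_of_mul_eq_mul_right (Nat.card_pos (α := Ht)) ?_⟩
    calc H.index * Nat.card Hs * Nat.card Ht = H.index * (Nat.card Hs * Nat.card Ht) := by ring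
      _ = H.index * Nat.card H * m := by rw [hm]; ring
      _ = Ht.index * Nat.card Ht * m := by rw [e Ht]
      _ = Ht.index * m * Nat.card Ht := by ring
  refine ⟨⟨hs, fun p hp hps hpd => ?_⟩, ⟨ht, fun p hp hpt hpd => ?_⟩⟩
  · rcases hp.dvd_mul.1 (hpd.trans h1) with h | h
    · exact hH.2 p hp (Or.inl hps) h
    · exact Set.disjoint_left.1 hd hps (ht p hp h)
  · rcases hp.dvd_mul.1 (hpd.trans h2) with h | h
    · exact hH.2 p hp (Or.inr hpt) h
    · exact Set.disjoint_right.1 hd hpt (hs p hp h)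

/-- For `p ∈ σ`, every element normalising a `p`-subgroup `D` and having order a `π`-number prime
to `p` centralises it. -/
theorem mem_centralizer_of_normalizer [Finite G] {H Hs Ht : Subgroup G} (hd : Disjoint σ τ)
    (hH : IsPiHall (σ ∪ τ) H) (hs : IsPiSubgroup σ Hs) (ht : IsPiSubgroup τ Ht)
    (hsn : Group.IsNilpotent Hs) (hjoin : Hs ⊔ Ht = H)
    (hcomm : ∀ a ∈ Hs, ∀ b ∈ Ht, a * b = b * a) {p : ℕ} (hp : p.Prime) {D : Subgroup G}
    (hD : IsPGroup p D) {g : G} (hDg : D ≤ MulAut.conj g • Hs) {x : G}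
    (hx : x ∈ Subgroup.normalizer (D : Set G)) (hπ : IsPiNum (σ ∪ τ) (orderOf x))
    (hpx : ¬ p ∣ orderOf x) : x ∈ Subgroup.centralizer (D : Set G) := by
  have : Fact p.Prime := ⟨hp⟩
  obtain ⟨hsH, htH⟩ := isPiHall_factor hd hH hs ht hjoin hcomm
  refine mem_centralizer_of_coprime_index hx (Nat.coprime_of_dvd fun r hr hrx hri => ?_)
  have : Fact r.Prime := ⟨hr⟩
  have hrp : r ≠ p := fun h => hpx (h ▸ hrx)
  rcases hπ r hr hrx with hrs | hrt
  · set K := MulAut.conj g • Hs with hK
    have hKn : Group.IsNilpotent K := isNilpotent_conj hsn g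
    have hKi : ¬ r ∣ K.index := (isPiHall_conj hsH g).2 r hr hrs
    obtain ⟨S⟩ : Nonempty (Sylow r K) := inferInstance
    have hSC : (S : Subgroup K).map K.subtype ≤ Subgroup.centralizer (D : Set G) := by
      rintro _ ⟨s, hs', rfl⟩
      refine Subgroup.mem_centralizer_iff.2 fun d hd' => ?_
      have hcop : (orderOf (⟨d, hDg hd'⟩ : K)).Coprime (orderOf s) := by
        obtain ⟨i, hi⟩ := IsPGroup.iff_orderOf.1 S.2 ⟨s, hs'⟩
        obtain ⟨j, hj⟩ := IsPGroup.iff_orderOf.1 hD ⟨d, hd'⟩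
        rw [Subgroup.orderOf_mk] at hi hj ⊢
        rw [hi, hj]
        exact Nat.Coprime.pow _ _ ((Nat.coprime_primes hp hr).2 hrp.symm)
      exact congrArg Subtype.val
        (CfsgLib.BGAppendix.commute_of_coprime_orderOf K _ _ hcop)
    refine absurd (hri.trans (Subgroup.index_dvd_of_le hSC)) ?_
    rw [Subgroup.index_map_of_injective _ K.subtype_injective, Subgroup.range_subtype]
    exact fun h => (hr.dvd_mul.1 h).elim S.not_dvd_index hKi
  · have h1 : MulAut.conj g • Ht ≤ Subgroup.centralizer (D : Set G) :=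
      (conj_le_centralizer_conj (B := Hs) (fun b hb => Subgroup.mem_centralizer_iff.2
        fun a ha => hcomm a ha b hb) g).trans (Subgroup.centralizer_le hDg)
    exact (isPiHall_conj htH g).2 r hr hrt (hri.trans (Subgroup.index_dvd_of_le h1))

/-- A normal subgroup free of the primes of `s`, with index composed of them. -/
theorem exists_normal_compl [Finite G] (s : Finset ℕ) (hs : ∀ p ∈ s, p.Prime)
    (h : ∀ p ∈ s, HasNormalPComplement p G) :
    ∃ K : Subgroup G, K.Normal ∧ (∀ p ∈ s, ¬ p ∣ Nat.card K) ∧ IsPiNum (s : Set ℕ) K.index := by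
  classical
  induction s using Finset.induction_on with
  | empty => exact ⟨⊤, inferInstance, by simp, fun p hp hd => by
      rw [Subgroup.index_top] at hd; exact absurd hd hp.not_dvd_one⟩
  | @insert a s ha ih =>
    obtain ⟨K, hKn, hK, hKi⟩ := ih (fun p hp => hs p (Finset.mem_insert_of_mem hp))
      (fun p hp => h p (Finset.mem_insert_of_mem hp))
    have hap : Fact a.Prime := ⟨hs a (Finset.mem_insert_self a s)⟩
    obtain ⟨P, N, hNn, hN⟩ := h a (Finset.mem_insert_self a s)
    have hNc : ¬ a ∣ Nat.card N := hN.index_eq_card ▸ P.not_dvd_index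
    refine ⟨K ⊓ N, inferInstance, ?_, ?_⟩
    · intro p hp hd
      rcases Finset.mem_insert.1 hp with rfl | hp
      · exact hNc (hd.trans (Subgroup.card_dvd_of_le inf_le_right))
      · exact hK p hp (hd.trans (Subgroup.card_dvd_of_le inf_le_left))
    · intro p hp hd
      have hd' : p ∣ K.index * N.index := by
        refine hd.trans ?_
        rw [← Subgroup.relIndex_mul_index (inf_le_left : K ⊓ N ≤ K), Subgroup.inf_relIndex_left,
          mul_comm]
        exact Nat.mul_dvd_mul_left _ (Subgroup.relIndex_dvd_index_of_normal N K)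
      rcases hp.dvd_mul.1 hd' with h1 | h1
      · exact Finset.mem_coe.2 (Finset.mem_insert_of_mem (Finset.mem_coe.1 (hKi p hp h1)))
      · rw [hN.symm.index_eq_card] at h1
        obtain ⟨k, hk⟩ := IsPGroup.iff_card.1 P.2
        rw [hk] at h1
        simp [(Nat.prime_dvd_prime_iff_eq hp hap.out).1 (hp.dvd_of_dvd_pow h1)]

/-- **P. Hall.** If the Hall `π`-subgroup is the product of commuting factors for `σ` and `τ`, the
first nilpotent, and containment holds for both, then every `π`-subgroup lies in a conjugate. -/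
theorem exists_le_conj_of_factors [Finite G] (hd : Disjoint σ τ) {H Hs Ht : Subgroup G}
    (hH : IsPiHall (σ ∪ τ) H) (hs : IsPiSubgroup σ Hs) (ht : IsPiSubgroup τ Ht)
    (hsn : Group.IsNilpotent Hs) (hjoin : Hs ⊔ Ht = H)
    (hcomm : ∀ a ∈ Hs, ∀ b ∈ Ht, a * b = b * a)
    (hsC : ∀ (L : Subgroup G) (g : G), MulAut.conj g • Hs ≤ L → ∀ A : Subgroup G,
      IsPiSubgroup σ A → A ≤ L → ∃ c ∈ L, A ≤ MulAut.conj c • MulAut.conj g • Hs)
    (htC : ∀ B : Subgroup G, IsPiSubgroup τ B → ∃ g : G, B ≤ MulAut.conj g • Ht)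
    {X : Subgroup G} (hX : IsPiSubgroup (σ ∪ τ) X) : ∃ g : G, X ≤ MulAut.conj g • H := by
  classical
  obtain ⟨hsH, htH⟩ := isPiHall_factor hd hH hs ht hjoin hcomm
  have hord : ∀ x : X, IsPiNum (σ ∪ τ) (orderOf (x : G)) := fun x =>
    IsPiNum.of_dvd hX ((orderOf_injective X.subtype X.subtype_injective x).symm ▸ orderOf_dvd_natCard x)
  set s : Finset ℕ := (Nat.card X).primeFactors.filter (· ∈ σ) with hsdef
  have hs1 : ∀ p ∈ s, p.Prime := fun p hp =>
    Nat.prime_of_mem_primeFactors (Finset.mem_filter.1 hp).1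
  have hs2 : ∀ p ∈ s, HasNormalPComplement p X := by
    intro p hp
    have : Fact p.Prime := ⟨hs1 p hp⟩
    refine CfsgLib.NormalPComplement.hasNormalPComplement_of_frobeniusCondition ?_
    intro D hD x hx hcop
    have hDσ : IsPiSubgroup σ (D.map X.subtype) := by
      intro q hq hqd
      obtain ⟨k, hk⟩ := IsPGroup.iff_card.1 (hD.map X.subtype)
      rw [hk] at hqd
      rw [(Nat.prime_dvd_prime_iff_eq hq this.out).1 (hq.dvd_of_dvd_pow hqd)]
      exact (Finset.mem_filter.1 hp).2
    obtain ⟨c, -, hc⟩ := hsC ⊤ 1 le_top _ hDσ le_top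
    rw [conj_mul_smul] at hc
    have hox := orderOf_injective X.subtype X.subtype_injective x
    have key := mem_centralizer_of_normalizer hd hH hs ht hsn hjoin hcomm this.out
      (hD.map X.subtype) hc (Subgroup.le_normalizer_map X.subtype ⟨x, hx, rfl⟩) (hord x)
      (fun h => this.out.not_dvd_one (hcop ▸ Nat.dvd_gcd (hox ▸ h) dvd_rfl))
    exact Subgroup.mem_centralizer_iff.2 fun y hy =>
      Subtype.ext (Subgroup.mem_centralizer_iff.1 key (y : G) ⟨y, hy, rfl⟩)
  obtain ⟨K, hKn, hK, hKi⟩ := exists_normal_compl s hs1 hs2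
  have hKτ : IsPiSubgroup τ (K.map X.subtype) := by
    intro q hq hqd
    rw [Subgroup.card_map_of_injective X.subtype_injective] at hqd
    have hqX := hqd.trans K.card_subgroup_dvd_card
    refine (hX q hq hqX).elim (fun hqs => absurd hqd (hK q ?_)) id
    exact Finset.mem_filter.2 ⟨Nat.mem_primeFactors.2 ⟨hq, hqX, Nat.card_pos.ne'⟩, hqs⟩
  have hKcop : (Nat.card K).Coprime K.index :=
    Nat.coprime_of_dvd fun q hq h1 h2 => hK q (Finset.mem_coe.1 (hKi q hq h2)) h1
  obtain ⟨A, hA⟩ := Subgroup.exists_right_complement'_of_coprime hKcop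
  set B := K.map X.subtype
  set A' := A.map X.subtype
  have hA' : IsPiSubgroup σ A' := by
    intro q hq hqd
    rw [Subgroup.card_map_of_injective X.subtype_injective, ← hA.symm.index_eq_card] at hqd
    exact (Finset.mem_filter.1 (Finset.mem_coe.1 (hKi q hq hqd))).2
  obtain ⟨g, hg⟩ := htC B hKτ
  have hsB : MulAut.conj g • Hs ≤ Subgroup.centralizer (B : Set G) :=
    (conj_le_centralizer_conj (B := Ht) (fun a ha => Subgroup.mem_centralizer_iff.2
      fun b hb => (hcomm a ha b hb).symm) g).trans (Subgroup.centralizer_le hg)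
  have hAB : A' ≤ Subgroup.centralizer (B : Set G) := by
    rintro _ ⟨a, ha, rfl⟩
    refine mem_centralizer_of_coprime_index
      (Subgroup.le_normalizer_map X.subtype ⟨a, ?_, rfl⟩) (Nat.coprime_of_dvd fun r hr h1 h2 => ?_)
    · rw [Subgroup.normalizer_eq_top]; exact Subgroup.mem_top a
    · exact (isPiHall_conj hsH g).2 r hr
        (hA' r hr (h1.trans (Subgroup.orderOf_dvd_natCard A' ⟨a, ha, rfl⟩)))
        (h2.trans (Subgroup.index_dvd_of_le hsB))
  obtain ⟨c, hcB, hcA⟩ := hsC _ g hsB A' hA' hAB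
  refine ⟨c * g, ?_⟩
  have hXe : X = B ⊔ A' := by
    rw [← Subgroup.map_sup, hA.sup_eq_top, ← MonoidHom.range_eq_map, Subgroup.range_subtype]
  rw [hXe, ← conj_mul_smul, ← hjoin, Subgroup.smul_sup, Subgroup.smul_sup, sup_le_iff]
  refine ⟨le_trans ?_ le_sup_right, hcA.trans le_sup_left⟩
  rw [← conj_smul_of_mem_centralizer hcB]
  exact Subgroup.pointwise_smul_le_pointwise_smul_iff.2 hg

/-- **Wielandt.** If `G` has a nilpotent Hall `π`-subgroup, every `π`-subgroup lies in one of its
conjugates. -/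
theorem exists_le_conj_of_isNilpotent [Finite G] {H : Subgroup G} (hH : IsPiHall π H)
    (hn : Group.IsNilpotent H) {X : Subgroup G} (hX : IsPiSubgroup π X) :
    ∃ g : G, X ≤ MulAut.conj g • H := by
  induction hm : Nat.card H using Nat.strong_induction_on generalizing π H X with
  | _ m ih =>
  subst hm
  by_cases h1 : Nat.card H = 1
  · refine ⟨1, ?_⟩
    have : Nat.card X = 1 := by
      by_contra h
      obtain ⟨p, hp, hpd⟩ := Nat.exists_prime_and_dvd h
      have hG := hpd.trans X.card_subgroup_dvd_card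
      rw [← H.card_mul_index, h1, one_mul] at hG
      exact hH.2 p hp (hX p hp hpd) hG
    rw [Subgroup.eq_bot_of_card_eq X this]
    exact bot_le
  obtain ⟨p, hp, hpd⟩ := Nat.exists_prime_and_dvd h1
  have : Fact p.Prime := ⟨hp⟩
  have hpπ : p ∈ π := hH.1 p hp hpd
  obtain ⟨S⟩ : Nonempty (Sylow p H) := inferInstance
  have hSn : (S : Subgroup H).Normal :=
    S.normal_of_normalizerCondition Group.normalizerCondition_of_isNilpotent
  obtain ⟨T, hT⟩ := Subgroup.exists_right_complement'_of_coprime (N := (S : Subgroup H))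
    S.card_coprime_index
  set Hs := (S : Subgroup H).map H.subtype with hHs
  set Ht := T.map H.subtype with hHt
  have hs : IsPiSubgroup {p} Hs := by
    intro q hq hqd
    obtain ⟨k, hk⟩ := IsPGroup.iff_card.1 (S.2.map H.subtype)
    rw [hHs, hk] at hqd
    exact (Nat.prime_dvd_prime_iff_eq hq hp).1 (hq.dvd_of_dvd_pow hqd)
  have hTc : Nat.card T = (S : Subgroup H).index := hT.symm.index_eq_card.symm
  have ht : IsPiSubgroup (π \ {p}) Ht := by
    intro q hq hqd
    rw [hHt, Subgroup.card_map_of_injective H.subtype_injective] at hqd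
    refine ⟨hH.1 q hq (hqd.trans T.card_subgroup_dvd_card), fun h => ?_⟩
    rw [Set.mem_singleton_iff.1 h, hTc] at hqd
    exact S.not_dvd_index hqd
  have hjoin : Hs ⊔ Ht = H := by
    rw [hHs, hHt, ← Subgroup.map_sup, hT.sup_eq_top, ← MonoidHom.range_eq_map,
      Subgroup.range_subtype]
  have hcomm : ∀ a ∈ Hs, ∀ b ∈ Ht, a * b = b * a := by
    rintro _ ⟨a, ha, rfl⟩ _ ⟨b, hb, rfl⟩
    refine congrArg Subtype.val (CfsgLib.BGAppendix.commute_of_coprime_orderOf H a b ?_)
    obtain ⟨i, hi⟩ := IsPGroup.iff_orderOf.1 S.2 ⟨a, ha⟩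
    rw [Subgroup.orderOf_mk] at hi
    rw [hi]
    exact Nat.Coprime.pow_left _ (((Nat.Prime.coprime_iff_not_dvd hp).2 S.not_dvd_index).coprime_dvd_right
      (hTc ▸ Subgroup.orderOf_dvd_natCard T hb))
  have hu : {p} ∪ π \ {p} = π := by
    rw [Set.union_sdiff_self, Set.union_eq_right, Set.singleton_subset_iff]; exact hpπ
  have hd : Disjoint ({p} : Set ℕ) (π \ {p}) := Set.disjoint_sdiff_right
  have hH' : IsPiHall ({p} ∪ π \ {p}) H := by rw [hu]; exact hH
  have hX' : IsPiSubgroup ({p} ∪ π \ {p}) X := by rw [hu]; exact hX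
  obtain ⟨hsH, htH⟩ := isPiHall_factor hd hH' hs ht hjoin hcomm
  have hHsn : Group.IsNilpotent Hs := (S.2.map H.subtype).isNilpotent
  have htn : Group.IsNilpotent Ht :=
    Group.nilpotent_of_mulEquiv (Subgroup.equivMapOfInjective T _ H.subtype_injective)
  refine exists_le_conj_of_factors hd hH' hs ht hHsn hjoin hcomm (fun L g hL A hA hAL => ?_)
    (fun B hB => ih _ ?_ htH htn hB rfl) hX'
  · exact exists_le_conj_of_sylow hp (isPiSubgroup_conj hs g)
      ((isPiHall_conj hsH g).2 p hp rfl) hL hA hAL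
  · rw [hHt, Subgroup.card_map_of_injective H.subtype_injective, ← T.card_mul_index]
    refine lt_mul_of_one_lt_right Nat.card_pos ?_
    rw [hT.index_eq_card]
    obtain ⟨k, hk⟩ := IsPGroup.iff_card.1 S.2
    have hps : p ∣ Nat.card (S : Subgroup H) := Sylow.dvd_card_of_dvd_card S hpd
    exact hp.one_lt.trans_le (Nat.le_of_dvd Nat.card_pos hps)

/-- Wielandt's theorem inside a subgroup containing the Hall subgroup. -/
theorem exists_le_conj_of_isNilpotent_le [Finite G] {H L X : Subgroup G} (hH : IsPiHall π H)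
    (hn : Group.IsNilpotent H) (hX : IsPiSubgroup π X) (hHL : H ≤ L) (hXL : X ≤ L) :
    ∃ c ∈ L, X ≤ MulAut.conj c • H := by
  have hn' : Group.IsNilpotent (H.subgroupOf L) :=
    Group.nilpotent_of_mulEquiv (Subgroup.subgroupOfEquivOfLe hHL).symm
  have hX' : IsPiSubgroup π (X.subgroupOf L) := by
    intro q hq hqd
    rw [Nat.card_congr (Subgroup.subgroupOfEquivOfLe hXL).toEquiv] at hqd
    exact hX q hq hqd
  obtain ⟨c, hc⟩ := exists_le_conj_of_isNilpotent (isPiHall_subgroupOf hH hHL) hn' hX'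
  refine ⟨c, c.2, fun x hx => ?_⟩
  obtain ⟨y, hy, hy'⟩ := hc (show (⟨x, hXL hx⟩ : L) ∈ X.subgroupOf L from hx)
  exact ⟨(y : G), hy, congrArg Subtype.val hy'⟩

/-- **Wielandt.** A nilpotent Hall `π`-subgroup gives the property `D_π`. -/
theorem isDPiGroup_of_isNilpotent [Finite G] {H : Subgroup G} (hH : IsPiHall π H)
    (hn : Group.IsNilpotent H) : IsDPiGroup π G :=
  isDPiGroup_of_forall_exists hH fun _ hX => exists_le_conj_of_isNilpotent hH hn hX

end CfsgLib.Components2.WielandtHall
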